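import Mathlib
import Cfsg.Prelude.Def_Local
import Cfsg.Agent.Lib.Helper30.CyclicSylow
import Cfsg.Agent.Lib.Helper30.Bender
import Cfsg.Agent.Lib.Helper21.LB
import Cfsg.Agent.Lib.Helper21.Quasi
import Cfsg.Agent.Lib.Helper22.PConstr
import Cfsg.Agent.Lib.Helper55.Cores

/-!
Structure of a finite group `K` with `O_{p'}(K) = 1` and a cyclic Sylow `p`-subgroup `P`:
either `P` is normal and self-centralizing with `K / P` cyclic of order dividing `p - 1`, or
`F*(K)` is a non-abelian simple group containing `P`.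
-/

set_option autoImplicit false

namespace Cfsg.Agent.Lib.Helper30

open Subgroup
open scoped commutatorElement

theorem isPGroup_zpowers' {G : Type*} [Group G] {p : ℕ} {x : G} {j : ℕ} (hj : x ^ p ^ j = 1) :
    IsPGroup p (zpowers x) := by
  rintro ⟨g, hg⟩
  obtain ⟨n, rfl⟩ := mem_zpowers_iff.mp hg
  refine ⟨j, Subtype.ext ?_⟩
  simp only [Subgroup.coe_pow, Subgroup.coe_one]
  rw [← zpow_natCast, ← zpow_mul, mul_comm, zpow_mul, zpow_natCast, hj, one_zpow]

/-- With `O_{p'}(K) = 1` and cyclic Sylow `p`-subgroups, the centralizer of a component contains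
no element of order `p`. -/
theorem component_centralizer_no_pElement {K : Type*} [Group K] [Finite K] {p : ℕ}
    [hp : Fact p.Prime] (hO : Cfsg.pPrimeCore p K = ⊥) (P : Sylow p K)
    (hP : IsCyclic (P : Subgroup K)) {L : Subgroup K} (hL : Cfsg.IsComponent L) {t : K}
    (htL : t ∈ centralizer (L : Set K)) (ht : orderOf t = p) : False := by
  obtain ⟨s, hsL, ⟨j, hsj⟩, hsC⟩ :=
    Cfsg.Agent.Lib.Helper21.exists_pElement_not_mem_centralizer hO hL
  have hs1 : s ≠ 1 := by
    rintro rfl
    exact hsC (Subgroup.one_mem _)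
  obtain ⟨i, hi⟩ := exists_pow_orderOf_eq_prime hs1 hsj
  have hst : Commute s t := mem_centralizer_iff.mp htL s hsL
  have hps : IsPGroup p (zpowers s) := isPGroup_zpowers' hsj
  have hpt : IsPGroup p (zpowers t) := by
    apply isPGroup_zpowers' (j := 1)
    rw [pow_one, ← ht]; exact pow_orderOf_eq_one t
  have hnorm : zpowers s ≤ normalizer ((zpowers t : Subgroup K) : Set K) := by
    refine le_trans ?_ (Subgroup.centralizer_le_normalizer _)
    rw [zpowers_le, mem_centralizer_iff]
    intro h hh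
    obtain ⟨n, rfl⟩ := mem_zpowers_iff.mp hh
    exact (hst.symm.zpow_left n)
  have hR : IsPGroup p (zpowers s ⊔ zpowers t : Subgroup K) :=
    IsPGroup.to_sup_of_normal_right' hps hpt hnorm
  have hRc := isCyclic_of_isPGroup_of_sylow P hP _ hR
  have htR : t ∈ (zpowers s ⊔ zpowers t : Subgroup K) :=
    (le_sup_right : zpowers t ≤ zpowers s ⊔ zpowers t) (mem_zpowers t)
  have hsR : s ^ i ∈ (zpowers s ⊔ zpowers t : Subgroup K) :=
    (le_sup_left : zpowers s ≤ zpowers s ⊔ zpowers t) (Subgroup.pow_mem _ (mem_zpowers s) i)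
  have hmem : (⟨s ^ i, hsR⟩ : (zpowers s ⊔ zpowers t : Subgroup K)) ∈
      zpowers (⟨t, htR⟩ : (zpowers s ⊔ zpowers t : Subgroup K)) := by
    apply mem_zpowers_of_orderOf_eq hp.out.pos
    · rw [← ht]; exact Subgroup.orderOf_mk _ _
    · apply Subtype.ext
      simp only [Subgroup.coe_pow, Subgroup.coe_one]
      rw [← hi]; exact pow_orderOf_eq_one _
  obtain ⟨n, hn⟩ := mem_zpowers_iff.mp hmem
  have hn' : t ^ n = s ^ i := by
    have := congrArg Subtype.val hn
    simpa using this
  have hsiC : s ^ i ∈ centralizer (L : Set K) := by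
    rw [← hn']; exact Subgroup.zpow_mem _ htL n
  have hsiL : s ^ i ∈ L := L.pow_mem hsL i
  -- the element of `L`
  have hzc : (⟨s ^ i, hsiL⟩ : L) ∈ center L := by
    rw [mem_center_iff]
    intro g
    exact Subtype.ext (mem_centralizer_iff.mp hsiC g g.2)
  have hzp : IsPGroup p (zpowers (⟨s ^ i, hsiL⟩ : L)) := by
    apply isPGroup_zpowers' (j := 1)
    apply Subtype.ext
    simp only [Subgroup.coe_pow, Subgroup.coe_one, pow_one]
    rw [← hi]; exact pow_orderOf_eq_one _
  obtain ⟨S, hS⟩ := hzp.exists_le_sylow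
  have hScomm : ∀ a ∈ S, ∀ b ∈ S, a * b = b * a := by
    intro a ha b hb
    have h1 := comm_of_isPGroup_of_sylow P hP ((S : Subgroup L).map L.subtype)
      (S.isPGroup'.map L.subtype) (a : K) (Subgroup.mem_map_of_mem _ ha) (b : K)
      (Subgroup.mem_map_of_mem _ hb)
    exact Subtype.ext h1
  have hperf : Group.IsPerfect L := hL.2.1
  have hz1 := central_mem_sylow_eq_one_of_perfect hperf.commutator_eq_top S hScomm
    (hS (mem_zpowers _)) hzc
  have hsi1 : s ^ i = 1 := congrArg Subtype.val hz1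
  rw [hsi1, orderOf_one] at hi
  exact hp.out.one_lt.ne hi

/-- The component case: `F*(K)` is a simple component containing the Sylow `p`-subgroup. -/
theorem cyclic_sylow_component_case {K : Type*} [Group K] [Finite K] {p : ℕ} [hp : Fact p.Prime]
    (hO : Cfsg.pPrimeCore p K = ⊥) (P : Sylow p K) (hP : IsCyclic ↥(P : Subgroup K))
    {L : Subgroup K} (hL : Cfsg.IsComponent L) :
    Cfsg.generalizedFittingSubgroup K = L ∧ IsSimpleGroup ↥L ∧ ¬ IsMulCommutative ↥L ∧
      (P : Subgroup K) ≤ L := by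
  -- O_p(K) = 1
  have hQ : Cfsg.pCore p K = ⊥ := by
    by_contra hne
    have hQp := Cfsg.Agent.Lib.Helper55.pCore_isPGroup p K
    have hcard : p ∣ Nat.card (Cfsg.pCore p K) := by
      rcases hQp.card_eq_or_dvd with h | h
      · exact absurd (Subgroup.card_eq_one.mp h) hne
      · exact h
    obtain ⟨t, ht⟩ := exists_prime_orderOf_dvd_card' p hcard
    have hcomm : ⁅L, Cfsg.pCore p K⁆ = ⊥ :=
      Cfsg.Agent.Lib.Helper22.component_commute_of_solvable hL
        (Cfsg.Agent.Lib.Helper22.pCore_normal' p K).isSubnormal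
        (Cfsg.Agent.Lib.Helper22.pCore_isSolvable p K)
    have hle : Cfsg.pCore p K ≤ centralizer (L : Set K) := by
      rw [Subgroup.commutator_comm] at hcomm
      exact Subgroup.commutator_eq_bot_iff_le_centralizer.mp hcomm
    exact component_centralizer_no_pElement hO P hP hL (hle t.2)
      (by rw [Subgroup.orderOf_coe]; exact ht)
  have hF : Cfsg.fittingSubgroup K = ⊥ := by
    rw [Cfsg.Agent.Lib.Helper22.fittingSubgroup_eq_pCore_of_pPrimeCore_eq_bot hO, hQ]
  -- a p-element of L of order p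
  obtain ⟨s, hsL, ⟨j, hsj⟩, hsC⟩ :=
    Cfsg.Agent.Lib.Helper21.exists_pElement_not_mem_centralizer hO hL
  have hs1 : s ≠ 1 := by
    rintro rfl
    exact hsC (Subgroup.one_mem _)
  obtain ⟨i, hi⟩ := exists_pow_orderOf_eq_prime hs1 hsj
  have hpL : p ∣ Nat.card L := by
    have h1 : orderOf (⟨s ^ i, L.pow_mem hsL i⟩ : L) = p := by
      rw [← hi]; exact Subgroup.orderOf_mk _ _
    rw [← h1]; exact orderOf_dvd_natCard _
  -- uniqueness of the component
  have huniq : ∀ L' : Subgroup K, Cfsg.IsComponent L' → L' = L := by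
    intro L' hL'
    by_contra hne
    have hc : ⁅L', L⁆ = ⊥ := Cfsg.Agent.Lib.Helper22.components_commute hL' hL hne
    have hle : L' ≤ centralizer (L : Set K) :=
      Subgroup.commutator_eq_bot_iff_le_centralizer.mp hc
    obtain ⟨s', hs'L, ⟨j', hs'j⟩, hs'C⟩ :=
      Cfsg.Agent.Lib.Helper21.exists_pElement_not_mem_centralizer hO hL'
    have hs'1 : s' ≠ 1 := by
      rintro rfl
      exact hs'C (Subgroup.one_mem _)
    obtain ⟨i', hi'⟩ := exists_pow_orderOf_eq_prime hs'1 hs'j
    exact component_centralizer_no_pElement hO P hP hL (hle (L'.pow_mem hs'L i')) hi'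
  have hlayer : Cfsg.layer K = L := by
    unfold Cfsg.layer
    exact le_antisymm (sSup_le (fun L' hL' => (huniq L' hL').le)) (le_sSup hL)
  have hFs : Cfsg.generalizedFittingSubgroup K = L := by
    unfold Cfsg.generalizedFittingSubgroup
    rw [hlayer, hF, sup_bot_eq]
  -- trivial centre
  have hZ : center L = ⊥ := by
    have hsub : ((center L).map L.subtype).IsSubnormal :=
      Subgroup.IsSubnormal.trans' (inferInstance : (center L).Normal).isSubnormal hL.1
    have hc : ∀ x ∈ (center L).map L.subtype, ∀ y ∈ (center L).map L.subtype,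
        x * y = y * x := by
      rintro _ ⟨x, hx, rfl⟩ _ ⟨y, hy, rfl⟩
      exact congrArg Subtype.val (mem_center_iff.mp hx y).symm
    have hle := subnormal_comm_le_fitting hsub hc
    rw [hF, le_bot_iff, Subgroup.map_eq_bot_iff_of_injective _ (Subgroup.subtype_injective _)]
      at hle
    exact hle
  have hsL : IsSimpleGroup L := by
    have hs : IsSimpleGroup (L ⧸ center L) := hL.2.2
    exact ((QuotientGroup.quotientBot (G := L)).symm.trans
      (QuotientGroup.quotientMulEquivOfEq hZ.symm)).isSimpleGroup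
  have hnc : ¬ IsMulCommutative L :=
    Cfsg.Agent.Lib.Helper21.quasisimple_not_isMulCommutative hL.2
  refine ⟨hFs, hsL, hnc, ?_⟩
  -- P ≤ L
  have hLn : L.Normal := by
    rw [← hFs]; infer_instance
  have hCL : centralizer (L : Set K) ≤ L := by
    have := centralizer_generalizedFittingSubgroup_le K
    rwa [hFs] at this
  have hPcomm := comm_of_isPGroup_of_sylow P hP _ P.isPGroup'
  have hPX : (P : Subgroup K) ≤ L ⊔ (P : Subgroup K) := le_sup_right
  have hLX : L ≤ L ⊔ (P : Subgroup K) := le_sup_left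
  have hPXc : IsCyclic ↥((P.subtype hPX : Sylow p ↥(L ⊔ (P : Subgroup K))) :
      Subgroup ↥(L ⊔ (P : Subgroup K))) := by
    change IsCyclic ↥((P : Subgroup K).subgroupOf (L ⊔ (P : Subgroup K)))
    exact (MulEquiv.isCyclic (Subgroup.subgroupOfEquivOfLe hPX)).mpr hP
  have hX : ∀ T : Subgroup ↥(L ⊔ (P : Subgroup K)), T.Normal →
      T.IsComplement' ((P.subtype hPX : Sylow p ↥(L ⊔ (P : Subgroup K))) :
        Subgroup ↥(L ⊔ (P : Subgroup K))) → False := by
    intro T hTn hTc
    have hTcard : ¬ p ∣ Nat.card T := by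
      rw [← hTc.index_eq_card]; exact (P.subtype hPX).not_dvd_index
    have hT'n : ∀ x ∈ L ⊔ (P : Subgroup K), ∀ τ ∈ T.map (L ⊔ (P : Subgroup K)).subtype,
        x * τ * x⁻¹ ∈ T.map (L ⊔ (P : Subgroup K)).subtype := by
      rintro x hx _ ⟨τ, hτ, rfl⟩
      exact ⟨⟨x, hx⟩ * τ * ⟨x, hx⟩⁻¹, hTn.conj_mem τ hτ ⟨x, hx⟩, rfl⟩
    have hN : ((T.map (L ⊔ (P : Subgroup K)).subtype).subgroupOf L).Normal := by
      constructor
      intro n hn g
      rw [mem_subgroupOf] at hn ⊢
      exact hT'n g (hLX g.2) n hn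
    rcases hN.eq_bot_or_eq_top with h | h
    · have hinf : T.map (L ⊔ (P : Subgroup K)).subtype ⊓ L = ⊥ := by
        rwa [Subgroup.subgroupOf_eq_bot, disjoint_iff] at h
      have hT'C : T.map (L ⊔ (P : Subgroup K)).subtype ≤ centralizer (L : Set K) := by
        intro τ hτ
        rw [mem_centralizer_iff]
        intro l hl
        have h1 : τ * l * τ⁻¹ * l⁻¹ ∈ T.map (L ⊔ (P : Subgroup K)).subtype ⊓ L := by
          refine mem_inf.mpr ⟨?_, ?_⟩
          · have h2 := hT'n l (hLX hl) τ⁻¹ (Subgroup.inv_mem _ hτ)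
            have h3 := Subgroup.mul_mem _ hτ h2
            have h4 : τ * (l * τ⁻¹ * l⁻¹) = τ * l * τ⁻¹ * l⁻¹ := by group
            rwa [h4] at h3
          · exact L.mul_mem (hLn.conj_mem l hl τ) (L.inv_mem hl)
        rw [hinf, mem_bot] at h1
        calc l * τ = (τ * l * τ⁻¹ * l⁻¹)⁻¹ * (τ * l) := by group
          _ = τ * l := by rw [h1, inv_one, one_mul]
      have hT'L : T.map (L ⊔ (P : Subgroup K)).subtype ≤ L := hT'C.trans hCL
      have hT'bot : T.map (L ⊔ (P : Subgroup K)).subtype = ⊥ := by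
        rw [← le_bot_iff, ← hinf]; exact le_inf le_rfl hT'L
      have hTbot : T = ⊥ := by
        rwa [Subgroup.map_eq_bot_iff_of_injective _ (Subgroup.subtype_injective _)] at hT'bot
      rw [hTbot, Subgroup.isComplement'_bot_left] at hTc
      have hLP : L ≤ (P : Subgroup K) := by
        intro l hl
        have h1 : (⟨l, hLX hl⟩ : ↥(L ⊔ (P : Subgroup K))) ∈
            ((P.subtype hPX : Sylow p ↥(L ⊔ (P : Subgroup K))) :
              Subgroup ↥(L ⊔ (P : Subgroup K))) := by
          rw [hTc]; exact mem_top _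
        exact mem_subgroupOf.mp h1
      apply hnc
      exact ⟨⟨fun a b => Subtype.ext (hPcomm a (hLP a.2) b (hLP b.2))⟩⟩
    · have hLT : L ≤ T.map (L ⊔ (P : Subgroup K)).subtype := by
        rwa [Subgroup.subgroupOf_eq_top] at h
      have h1 : Nat.card L ∣ Nat.card (T.map (L ⊔ (P : Subgroup K)).subtype) :=
        Subgroup.card_dvd_of_le hLT
      rw [Subgroup.card_map_of_injective (Subgroup.subtype_injective _)] at h1
      exact hTcard (hpL.trans h1)
  have hle := sylow_le_commutator_of_cyclic (P.subtype hPX) hPXc hX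
  have h3 : ⁅L ⊔ (P : Subgroup K), L ⊔ (P : Subgroup K)⁆ ≤ L := by
    rw [Subgroup.commutator_le]
    have hmk : ∀ g ∈ L ⊔ (P : Subgroup K), ∃ u ∈ (P : Subgroup K),
        (QuotientGroup.mk' L) u = (QuotientGroup.mk' L) g := by
      intro g hg
      have h1 : (QuotientGroup.mk' L) g ∈ (L ⊔ (P : Subgroup K)).map (QuotientGroup.mk' L) :=
        Subgroup.mem_map_of_mem _ hg
      rw [Subgroup.map_sup, QuotientGroup.map_mk'_self, bot_sup_eq] at h1
      obtain ⟨u, hu, hu'⟩ := h1
      exact ⟨u, hu, hu'⟩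
    intro g₁ hg₁ g₂ hg₂
    obtain ⟨u₁, hu₁, h₁⟩ := hmk g₁ hg₁
    obtain ⟨u₂, hu₂, h₂⟩ := hmk g₂ hg₂
    have h4 : (QuotientGroup.mk' L) ⁅g₁, g₂⁆ = 1 := by
      rw [map_commutatorElement, ← h₁, ← h₂, ← map_commutatorElement,
        commutatorElement_eq_one_iff_commute.mpr (hPcomm u₁ hu₁ u₂ hu₂), map_one]
    exact (QuotientGroup.eq_one_iff _).mp h4
  intro u hu
  have h1 : (⟨u, hPX hu⟩ : ↥(L ⊔ (P : Subgroup K))) ∈ commutator ↥(L ⊔ (P : Subgroup K)) :=
    hle (mem_subgroupOf.mpr hu)
  have h2 : u ∈ (commutator ↥(L ⊔ (P : Subgroup K))).map (L ⊔ (P : Subgroup K)).subtype :=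
    ⟨_, h1, rfl⟩
  rw [Subgroup.map_subtype_commutator] at h2
  exact h3 h2

/-- The case without components: `P` is normal, self-centralizing, `K / P` cyclic of order
dividing `p - 1`. -/
theorem cyclic_sylow_no_component_case {K : Type*} [Group K] [Finite K] {p : ℕ}
    [hp : Fact p.Prime] (hpK : p ∣ Nat.card K) (hO : Cfsg.pPrimeCore p K = ⊥) (P : Sylow p K)
    (hP : IsCyclic ↥(P : Subgroup K)) (hno : ∀ L : Subgroup K, ¬ Cfsg.IsComponent L) :
    (P : Subgroup K).Normal ∧ Subgroup.centralizer ((P : Subgroup K) : Set K) = (P : Subgroup K) ∧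
      (∀ (_ : (P : Subgroup K).Normal), IsCyclic (K ⧸ (P : Subgroup K))) ∧
      (P : Subgroup K).index ∣ p - 1 := by
  have hE : Cfsg.layer K = ⊥ := by
    unfold Cfsg.layer
    rw [sSup_eq_bot]
    intro L hL
    exact absurd hL (hno L)
  have hC := Cfsg.Agent.Lib.Helper22.centralizer_pCore_le_of_layer_eq_bot hO hE
  have hQP : Cfsg.pCore p K ≤ (P : Subgroup K) := Cfsg.Agent.Lib.Helper55.pCore_le_sylow P
  haveI hQn : (Cfsg.pCore p K).Normal := Cfsg.Agent.Lib.Helper22.pCore_normal' p K
  haveI hQc : IsCyclic (Cfsg.pCore p K) :=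
    isCyclic_of_isPGroup_of_sylow P hP _ (Cfsg.Agent.Lib.Helper55.pCore_isPGroup p K)
  -- commutators centralize O_p(K)
  have hcomm : ∀ a b : K, a * b * a⁻¹ * b⁻¹ ∈ centralizer ((Cfsg.pCore p K : Subgroup K) : Set K) := by
    intro a b
    have hab : ∀ α β : MulAut (Cfsg.pCore p K), α * β = β * α := by
      intro α β
      apply (IsCyclic.mulAutMulEquiv (Cfsg.pCore p K)).injective
      rw [map_mul, map_mul, mul_comm]
    have h1 : MulAut.conjNormal (H := Cfsg.pCore p K) (a * b * a⁻¹ * b⁻¹) = 1 := by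
      rw [map_mul, map_mul, map_mul, map_inv, map_inv,
        hab (MulAut.conjNormal a) (MulAut.conjNormal b)]
      group
    rw [mem_centralizer_iff]
    intro q hq
    have h2 := congrArg (fun f : MulAut (Cfsg.pCore p K) =>
      ((f ⟨q, hq⟩ : Cfsg.pCore p K) : K)) h1
    simp only [MulAut.conjNormal_apply, MulAut.one_apply] at h2
    calc q * (a * b * a⁻¹ * b⁻¹)
        = ((a * b * a⁻¹ * b⁻¹) * q * (a * b * a⁻¹ * b⁻¹)⁻¹) * (a * b * a⁻¹ * b⁻¹) := by rw [h2]
      _ = (a * b * a⁻¹ * b⁻¹) * q := by group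
  have hcP : ∀ a b : K, a * b * a⁻¹ * b⁻¹ ∈ (P : Subgroup K) := fun a b => hQP (hC (hcomm a b))
  have hPn : (P : Subgroup K).Normal := by
    constructor
    intro u hu g
    have h1 := (P : Subgroup K).mul_mem (hcP g u) hu
    have h2 : g * u * g⁻¹ * u⁻¹ * u = g * u * g⁻¹ := by group
    rwa [h2] at h1
  have hPQ : (P : Subgroup K) ≤ Cfsg.pCore p K :=
    Cfsg.Agent.Lib.Helper55.le_pCore hPn P.isPGroup'
  have hPcomm := comm_of_isPGroup_of_sylow P hP _ P.isPGroup'
  have hCP : centralizer ((P : Subgroup K) : Set K) = (P : Subgroup K) := by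
    apply le_antisymm
    · exact le_trans (le_trans (Subgroup.centralizer_le hQP) hC) hQP
    · intro x hx
      rw [mem_centralizer_iff]
      intro y hy
      exact hPcomm y hy x hx
  -- the action on P
  have hker : (MulAut.conjNormal (H := (P : Subgroup K))).ker = (P : Subgroup K) := by
    ext g
    rw [MonoidHom.mem_ker]
    constructor
    · intro h
      rw [← hCP, mem_centralizer_iff]
      intro u hu
      have h2 := congrArg (fun f : MulAut (P : Subgroup K) =>
        ((f ⟨u, hu⟩ : (P : Subgroup K)) : K)) h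
      simp only [MulAut.conjNormal_apply, MulAut.one_apply] at h2
      calc u * g = (g * u * g⁻¹) * g := by rw [h2]
        _ = g * u := by group
    · intro hg
      apply MulEquiv.ext
      intro u
      apply Subtype.ext
      rw [MulAut.conjNormal_apply, MulAut.one_apply, hPcomm g hg u u.2, mul_inv_cancel_right]
  have hidx : (P : Subgroup K).index =
      Nat.card (MulAut.conjNormal (H := (P : Subgroup K))).range := by
    rw [← Subgroup.index_ker, hker]
  have hdvd : (P : Subgroup K).index ∣ Nat.card (MulAut (P : Subgroup K)) := by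
    rw [hidx]; exact Subgroup.card_subgroup_dvd_card _
  obtain ⟨n, hn⟩ := IsPGroup.iff_card.mp P.isPGroup'
  have hn0 : 0 < n := by
    rcases Nat.eq_zero_or_pos n with h | h
    · exfalso
      rw [h, pow_zero] at hn
      exact P.ne_bot_of_dvd_card hpK (Subgroup.card_eq_one.mp hn)
    · exact h
  have hcop : ((P : Subgroup K).index).Coprime p :=
    ((Nat.Prime.coprime_iff_not_dvd hp.out).mpr P.not_dvd_index).symm
  have hdvd2 : (P : Subgroup K).index ∣ p - 1 := by
    rw [IsCyclic.card_mulAut, hn, Nat.totient_prime_pow hp.out hn0, mul_comm] at hdvd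
    exact Nat.Coprime.dvd_of_dvd_mul_right (Nat.Coprime.pow_right _ hcop) hdvd
  refine ⟨hPn, hCP, ?_, hdvd2⟩
  intro hPn'
  by_cases hp2 : p = 2
  · have h1 : (P : Subgroup K).index = 1 := by
      have h0 : p - 1 = 1 := by omega
      rw [h0] at hdvd2
      exact Nat.dvd_one.mp hdvd2
    have h2 : Nat.card (K ⧸ (P : Subgroup K)) = 1 := h1
    have h3 : Subsingleton (K ⧸ (P : Subgroup K)) :=
      (Nat.card_eq_one_iff_unique.mp h2).1
    exact isCyclic_of_subsingleton
  · have hcyc : IsCyclic (ZMod (Nat.card ↥(P : Subgroup K)))ˣ := by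
      rw [hn]; exact ZMod.isCyclic_units_of_prime_pow p hp.out hp2 n
    have hcycA : IsCyclic (MulAut ↥(P : Subgroup K)) :=
      (MulEquiv.isCyclic (IsCyclic.mulAutMulEquiv _)).mpr hcyc
    have hcycR : IsCyclic (MulAut.conjNormal (H := (P : Subgroup K))).range := inferInstance
    exact (MulEquiv.isCyclic ((QuotientGroup.quotientMulEquivOfEq hker.symm).trans
      (QuotientGroup.quotientKerEquivRange (MulAut.conjNormal (H := (P : Subgroup K)))))).mpr
      hcycR

/-- **Groups with a cyclic Sylow `p`-subgroup and trivial `p'`-core.** -/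
theorem cyclic_sylow_structure {K : Type*} [Group K] [Finite K] (p : ℕ) [hp : Fact p.Prime]
    (hpK : p ∣ Nat.card K) (hO : Cfsg.pPrimeCore p K = ⊥) (P : Sylow p K)
    (hP : IsCyclic ↥(P : Subgroup K)) :
    ((P : Subgroup K).Normal ∧ Subgroup.centralizer ((P : Subgroup K) : Set K) = (P : Subgroup K) ∧
      (∀ (_ : (P : Subgroup K).Normal), IsCyclic (K ⧸ (P : Subgroup K))) ∧
      (P : Subgroup K).index ∣ p - 1) ∨
    (IsSimpleGroup ↥(Cfsg.generalizedFittingSubgroup K) ∧
      ¬ IsMulCommutative ↥(Cfsg.generalizedFittingSubgroup K) ∧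
      ¬ p ∣ (Cfsg.generalizedFittingSubgroup K).index) := by
  by_cases hcomp : ∃ L : Subgroup K, Cfsg.IsComponent L
  · right
    obtain ⟨L, hL⟩ := hcomp
    obtain ⟨hF, hs, hnc, hPL⟩ := cyclic_sylow_component_case hO P hP hL
    subst hF
    refine ⟨hs, hnc, ?_⟩
    intro hdvd
    exact P.not_dvd_index (hdvd.trans (Subgroup.index_dvd_of_le hPL))
  · left
    push Not at hcomp
    exact cyclic_sylow_no_component_case hpK hO P hP hcomp

end Cfsg.Agent.Lib.Helper30
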