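import Mathlib

/-!
Subgroups `Q` of class 2 with commutators in `{1, z}` (`z` a central involution generating the
centre of `Q`): the commutator pairing, orthogonality of characters, the duality
`|C_Q(U)| * |U| = 2 * |Q|` for `z ∈ U ≤ Q`, and the action of an involution on `Q`.
-/

set_option autoImplicit false

namespace Cfsg.Agent.Lib.Helper30

variable {G : Type*} [Group G]

/-- `Q` has class 2 with centre `{1, z}` containing all commutators. -/
structure ClassTwoData (Q : Subgroup G) (z : G) : Prop where
  hzQ : z ∈ Q
  hz1 : z ≠ 1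
  hzz : z * z = 1
  hzc : ∀ q ∈ Q, z * q = q * z
  hk : ∀ x ∈ Q, ∀ y ∈ Q, x * y * x⁻¹ * y⁻¹ = 1 ∨ x * y * x⁻¹ * y⁻¹ = z
  hcen : ∀ x ∈ Q, (∀ y ∈ Q, x * y = y * x) → x = 1 ∨ x = z

/-- The sign of the commutator pairing. -/
noncomputable def commSign (x y : G) : ℤ := by
  classical exact if x * y = y * x then 1 else -1

theorem commSign_of_comm {x y : G} (h : x * y = y * x) : commSign x y = 1 := by
  unfold commSign; simp [h]

theorem commSign_of_not_comm {x y : G} (h : x * y ≠ y * x) : commSign x y = -1 := by
  unfold commSign; simp [h]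

theorem commSign_eq_or (x y : G) : commSign x y = 1 ∨ commSign x y = -1 := by
  by_cases h : x * y = y * x
  · exact Or.inl (commSign_of_comm h)
  · exact Or.inr (commSign_of_not_comm h)

theorem commSign_symm (x y : G) : commSign x y = commSign y x := by
  by_cases h : x * y = y * x
  · rw [commSign_of_comm h, commSign_of_comm h.symm]
  · rw [commSign_of_not_comm h, commSign_of_not_comm (fun h' => h h'.symm)]

namespace ClassTwoData

variable {Q : Subgroup G} {z : G} (d : ClassTwoData Q z)
include d

theorem comm_iff {x y : G} (hx : x ∈ Q) (hy : y ∈ Q) :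
    x * y = y * x ∨ x * y = z * (y * x) := by
  rcases d.hk x hx y hy with h | h
  · left
    calc x * y = (x * y * x⁻¹ * y⁻¹) * (y * x) := by group
      _ = y * x := by rw [h, one_mul]
  · right
    calc x * y = (x * y * x⁻¹ * y⁻¹) * (y * x) := by group
      _ = z * (y * x) := by rw [h]

theorem z_mul_ne {a : G} : z * a ≠ a := by
  intro h
  apply d.hz1
  calc z = (z * a) * a⁻¹ := by group
    _ = 1 := by rw [h, mul_inv_cancel]

theorem commSign_mul_right {x y y' : G} (hx : x ∈ Q) (hy : y ∈ Q) (hy' : y' ∈ Q) :
    commSign x (y * y') = commSign x y * commSign x y' := by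
  by_cases ha : x * y = y * x
  · by_cases hb : x * y' = y' * x
    · have hc : x * (y * y') = (y * y') * x := by
        calc x * (y * y') = (x * y) * y' := by group
          _ = (y * x) * y' := by rw [ha]
          _ = y * (x * y') := by group
          _ = y * (y' * x) := by rw [hb]
          _ = (y * y') * x := by group
      rw [commSign_of_comm ha, commSign_of_comm hb, commSign_of_comm hc]; norm_num
    · have hc : x * (y * y') ≠ (y * y') * x := by
        intro hc
        apply hb
        have h1 : y * (x * y') = y * (y' * x) := by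
          calc y * (x * y') = (y * x) * y' := by group
            _ = (x * y) * y' := by rw [ha]
            _ = x * (y * y') := by group
            _ = (y * y') * x := hc
            _ = y * (y' * x) := by group
        exact mul_left_cancel h1
      rw [commSign_of_comm ha, commSign_of_not_comm hb, commSign_of_not_comm hc]; norm_num
  · by_cases hb : x * y' = y' * x
    · have hc : x * (y * y') ≠ (y * y') * x := by
        intro hc
        apply ha
        have h1 : (x * y) * y' = (y * x) * y' := by
          calc (x * y) * y' = x * (y * y') := by group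
            _ = (y * y') * x := hc
            _ = y * (y' * x) := by group
            _ = y * (x * y') := by rw [hb]
            _ = (y * x) * y' := by group
        exact mul_right_cancel h1
      rw [commSign_of_not_comm ha, commSign_of_comm hb, commSign_of_not_comm hc]; norm_num
    · have ha' : x * y = z * (y * x) := (d.comm_iff hx hy).resolve_left ha
      have hb' : x * y' = z * (y' * x) := (d.comm_iff hx hy').resolve_left hb
      have hzy := d.hzc y hy
      have hc : x * (y * y') = (y * y') * x := by
        calc x * (y * y') = (x * y) * y' := by group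
          _ = (z * (y * x)) * y' := by rw [ha']
          _ = z * y * (x * y') := by group
          _ = z * y * (z * (y' * x)) := by rw [hb']
          _ = z * (y * z) * (y' * x) := by group
          _ = z * (z * y) * (y' * x) := by rw [hzy]
          _ = (z * z) * (y * y') * x := by group
          _ = (y * y') * x := by rw [d.hzz, one_mul]
      rw [commSign_of_not_comm ha, commSign_of_not_comm hb, commSign_of_comm hc]; norm_num

theorem commSign_mul_left {x x' y : G} (hx : x ∈ Q) (hx' : x' ∈ Q) (hy : y ∈ Q) :
    commSign (x * x') y = commSign x y * commSign x' y := by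
  rw [commSign_symm (x * x') y, commSign_symm x y, commSign_symm x' y]
  exact d.commSign_mul_right hy hx hx'

end ClassTwoData

/-- Orthogonality: a nontrivial multiplicative `±1`-valued function on a finite subgroup sums
to `0`. -/
theorem sum_sign_eq_zero (H : Subgroup G) [Fintype H] (f : G → ℤ)
    (hmul : ∀ a ∈ H, ∀ b ∈ H, f (a * b) = f a * f b)
    (hex : ∃ a ∈ H, f a = -1) : (∑ h : H, f h) = 0 := by
  obtain ⟨a, ha, hfa'⟩ := hex
  have h1 : (∑ h : H, f h) = ∑ h : H, f ((⟨a, ha⟩ * h : H) : G) :=
    (Equiv.sum_comp (Equiv.mulLeft (⟨a, ha⟩ : H)) (fun h : H => f h)).symm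
  have h2 : (∑ h : H, f ((⟨a, ha⟩ * h : H) : G)) = ∑ h : H, (-1) * f h := by
    apply Finset.sum_congr rfl
    intro h _
    show f (a * (h : G)) = -1 * f h
    rw [hmul a ha h h.2, hfa']
  rw [h2, ← Finset.mul_sum] at h1
  linarith

theorem sum_one_eq_card (H : Subgroup G) [Fintype H] (f : G → ℤ) (h1 : ∀ a ∈ H, f a = 1) :
    (∑ h : H, f h) = (Fintype.card H : ℤ) := by
  have h2 : ∀ h : H, f (h : G) = 1 := fun h => h1 h h.2
  rw [Finset.sum_congr rfl (fun h _ => h2 h), Finset.sum_const, Finset.card_univ,
    nsmul_eq_mul, mul_one]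

namespace ClassTwoData

variable {Q : Subgroup G} {z : G} (d : ClassTwoData Q z)
include d

/-- Duality in a class 2 group with centre of order 2: `|C_Q(U)| * |U| = 2 * |Q|`. -/
theorem card_centralizer_mul_card [Finite G] (U : Subgroup G) (hUQ : U ≤ Q) (hzU : z ∈ U) :
    Nat.card (Q ⊓ Subgroup.centralizer (U : Set G) : Subgroup G) * Nat.card U = 2 * Nat.card Q := by
  classical
  have := Fintype.ofFinite Q
  have := Fintype.ofFinite U
  -- sum over `q` for fixed `u`
  have hsumQ : ∀ u : U, (∑ q : Q, commSign (u : G) (q : G)) =
      if ∀ q ∈ Q, (u : G) * q = q * u then (Fintype.card Q : ℤ) else 0 := by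
    intro u
    by_cases hc : ∀ q ∈ Q, (u : G) * q = q * u
    · rw [if_pos hc]
      exact sum_one_eq_card Q (fun q => commSign (u : G) q) (fun q hq => commSign_of_comm (hc q hq))
    · rw [if_neg hc]
      push Not at hc
      obtain ⟨q₀, hq₀, hne⟩ := hc
      exact sum_sign_eq_zero Q (fun q => commSign (u : G) q)
        (fun a ha b hb => d.commSign_mul_right (hUQ u.2) ha hb)
        ⟨q₀, hq₀, commSign_of_not_comm hne⟩
  have hsumU : ∀ q : Q, (∑ u : U, commSign (u : G) (q : G)) =
      if ∀ u ∈ U, u * (q : G) = q * u then (Fintype.card U : ℤ) else 0 := by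
    intro q
    by_cases hc : ∀ u ∈ U, u * (q : G) = q * u
    · rw [if_pos hc]
      exact sum_one_eq_card U (fun u => commSign u (q : G)) (fun u hu => commSign_of_comm (hc u hu))
    · rw [if_neg hc]
      push Not at hc
      obtain ⟨u₀, hu₀, hne⟩ := hc
      exact sum_sign_eq_zero U (fun u => commSign u (q : G))
        (fun a ha b hb => d.commSign_mul_left (hUQ ha) (hUQ hb) q.2)
        ⟨u₀, hu₀, commSign_of_not_comm hne⟩
  have hcomm : (∑ u : U, ∑ q : Q, commSign (u : G) (q : G)) =
      ∑ q : Q, ∑ u : U, commSign (u : G) (q : G) := Finset.sum_comm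
  -- left side
  have hL : (∑ u : U, ∑ q : Q, commSign (u : G) (q : G)) = 2 * (Fintype.card Q : ℤ) := by
    rw [Finset.sum_congr rfl (fun u _ => hsumQ u), Finset.sum_ite, Finset.sum_const,
      Finset.sum_const_zero, add_zero, nsmul_eq_mul]
    have hfilter : (Finset.univ.filter (fun u : U => ∀ q ∈ Q, (u : G) * q = q * u)) =
        {(1 : U), (⟨z, hzU⟩ : U)} := by
      ext u
      simp only [Finset.mem_filter, Finset.mem_univ, true_and, Finset.mem_insert,
        Finset.mem_singleton]
      constructor
      · intro h
        rcases d.hcen (u : G) (hUQ u.2) h with h1 | h1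
        · exact Or.inl (Subtype.ext h1)
        · exact Or.inr (Subtype.ext h1)
      · rintro (h | h)
        · intro q _
          rw [h]; simp
        · intro q hq
          rw [h]; exact d.hzc q hq
    rw [hfilter, Finset.card_pair]
    · norm_num
    · intro h
      exact d.hz1 (congrArg Subtype.val h).symm
  -- right side
  have hR : (∑ q : Q, ∑ u : U, commSign (u : G) (q : G)) =
      (Nat.card (Q ⊓ Subgroup.centralizer (U : Set G) : Subgroup G) : ℤ) * (Fintype.card U : ℤ) := by
    rw [Finset.sum_congr rfl (fun q _ => hsumU q), Finset.sum_ite, Finset.sum_const,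
      Finset.sum_const_zero, add_zero, nsmul_eq_mul]
    have hcard : (Finset.univ.filter (fun q : Q => ∀ u ∈ U, u * (q : G) = q * u)).card =
        Nat.card (Q ⊓ Subgroup.centralizer (U : Set G) : Subgroup G) := by
      rw [← Fintype.card_subtype, ← Nat.card_eq_fintype_card]
      refine Nat.card_congr
        { toFun := fun q => ⟨(q.1 : G), Subgroup.mem_inf.2 ⟨q.1.2,
            Subgroup.mem_centralizer_iff.2 (fun u hu => q.2 u hu)⟩⟩
          invFun := fun x => ⟨⟨(x : G), x.2.1⟩,
            fun u hu => Subgroup.mem_centralizer_iff.1 x.2.2 u hu⟩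
          left_inv := fun q => rfl
          right_inv := fun x => rfl }
    rw [hcard]
  have hfin : (Nat.card (Q ⊓ Subgroup.centralizer (U : Set G) : Subgroup G) : ℤ) *
      (Nat.card U : ℤ) = 2 * (Nat.card Q : ℤ) := by
    rw [Nat.card_eq_fintype_card (α := U), Nat.card_eq_fintype_card (α := Q), ← hR, ← hcomm, hL]
  exact_mod_cast hfin

end ClassTwoData

end Cfsg.Agent.Lib.Helper30
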