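import Mathlib
import Cfsg.Agent.Lib.Helper30.Extraspecial

/-!
An involution `α` acting on a class 2 group `Q` with centre `{1, z}`: the subgroup `[Q, α]`
generated by the commutators `α q α⁻¹ q⁻¹` is the centre of `Q₀ = {q | [α, q] ∈ {1, z}}`.
-/

set_option autoImplicit false

namespace Cfsg.Agent.Lib.Helper30

variable {G : Type*} [Group G]

theorem commSign_inv_right (x y : G) : commSign x y⁻¹ = commSign x y := by
  by_cases h : x * y = y * x
  · have h' : x * y⁻¹ = y⁻¹ * x := by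
      calc x * y⁻¹ = y⁻¹ * (y * x) * y⁻¹ := by group
        _ = y⁻¹ * (x * y) * y⁻¹ := by rw [h]
        _ = y⁻¹ * x := by group
    rw [commSign_of_comm h, commSign_of_comm h']
  · have h' : x * y⁻¹ ≠ y⁻¹ * x := by
      intro h'
      apply h
      calc x * y = y * (y⁻¹ * x) * y := by group
        _ = y * (x * y⁻¹) * y := by rw [h']
        _ = y * x := by group
    rw [commSign_of_not_comm h, commSign_of_not_comm h']

theorem commSign_inv_left (x y : G) : commSign x⁻¹ y = commSign x y := by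
  rw [commSign_symm, commSign_inv_right, commSign_symm]

theorem commSign_conj' (a x y : G) :
    commSign x (a * y * a⁻¹) = commSign (a⁻¹ * x * a) y := by
  by_cases h : x * (a * y * a⁻¹) = (a * y * a⁻¹) * x
  · have h' : (a⁻¹ * x * a) * y = y * (a⁻¹ * x * a) := by
      calc (a⁻¹ * x * a) * y = a⁻¹ * (x * (a * y * a⁻¹)) * a := by group
        _ = a⁻¹ * ((a * y * a⁻¹) * x) * a := by rw [h]
        _ = y * (a⁻¹ * x * a) := by group
    rw [commSign_of_comm h, commSign_of_comm h']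
  · have h' : (a⁻¹ * x * a) * y ≠ y * (a⁻¹ * x * a) := by
      intro h'
      apply h
      calc x * (a * y * a⁻¹) = a * ((a⁻¹ * x * a) * y) * a⁻¹ := by group
        _ = a * (y * (a⁻¹ * x * a)) * a⁻¹ := by rw [h']
        _ = (a * y * a⁻¹) * x := by group
    rw [commSign_of_not_comm h, commSign_of_not_comm h']

theorem commSign_conj (a x y : G) (ha : a * a = 1) :
    commSign x (a * y * a⁻¹) = commSign (a * x * a⁻¹) y := by
  have hainv : a⁻¹ = a := inv_eq_of_mul_eq_one_left ha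
  have h1 : a⁻¹ * x * a = a * x * a⁻¹ := by rw [hainv]
  rw [commSign_conj', h1]

theorem eq_of_commSign_eq_one {x y : G} (h : commSign x y = 1) : x * y = y * x := by
  by_contra hne
  rw [commSign_of_not_comm hne] at h
  norm_num at h

namespace ClassTwoData

variable {Q : Subgroup G} {z : G} (d : ClassTwoData Q z)
include d

theorem z_inv : z⁻¹ = z := inv_eq_of_mul_eq_one_left d.hzz

/-- Squares of elements of `Q` are central. -/
theorem sq_mem {c : G} (hc : c ∈ Q) : c * c = 1 ∨ c * c = z := by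
  apply d.hcen (c * c) (Q.mul_mem hc hc)
  intro y hy
  apply eq_of_commSign_eq_one
  rw [d.commSign_mul_left hc hc hy]
  rcases commSign_eq_or c y with h | h <;> rw [h] <;> norm_num

/-- The main identity: `[x, [α, q]] = [[α, x], q]` on the level of signs. -/
theorem commSign_theta (α : G) (hαα : α * α = 1) (hαQ : ∀ q ∈ Q, α * q * α⁻¹ ∈ Q)
    {x q : G} (hx : x ∈ Q) (hq : q ∈ Q) :
    commSign x (α * q * α⁻¹ * q⁻¹) = commSign (α * x * α⁻¹ * x⁻¹) q := by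
  rw [d.commSign_mul_right hx (hαQ q hq) (Q.inv_mem hq),
    d.commSign_mul_left (hαQ x hx) (Q.inv_mem hx) hq, commSign_inv_right, commSign_inv_left,
    commSign_conj α x q hαα]

/-- `[Q, α] = Z(Q₀)`. -/
theorem closure_comm_eq_center [Finite G] (α : G) (hαα : α * α = 1) (hαz : α * z = z * α)
    (hαQ : ∀ q ∈ Q, α * q * α⁻¹ ∈ Q) (hαn : ∃ q ∈ Q, α * q ≠ q * α)
    (Q₀ : Subgroup G)
    (hQ₀ : ∀ q : G, q ∈ Q₀ ↔ (q ∈ Q ∧ (α * q * α⁻¹ * q⁻¹ = 1 ∨ α * q * α⁻¹ * q⁻¹ = z))) :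
    Subgroup.closure ((fun q : G => α * q * α⁻¹ * q⁻¹) '' (Q : Set G)) =
      (Subgroup.center ↥Q₀).map Q₀.subtype := by
  have hαinv : α⁻¹ = α := inv_eq_of_mul_eq_one_left hαα
  have hθQ : ∀ q ∈ Q, α * q * α⁻¹ * q⁻¹ ∈ Q := fun q hq => Q.mul_mem (hαQ q hq) (Q.inv_mem hq)
  have hQ₀Q : Q₀ ≤ Q := fun q hq => ((hQ₀ q).1 hq).1
  have hzQ₀ : z ∈ Q₀ := by
    rw [hQ₀]
    refine ⟨d.hzQ, Or.inl ?_⟩
    rw [hαz]; group
  -- `[α, q] ∈ Q₀`
  have hθQ₀ : ∀ q ∈ Q, α * q * α⁻¹ * q⁻¹ ∈ Q₀ := by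
    intro q hq
    rw [hQ₀]
    refine ⟨hθQ q hq, ?_⟩
    have hc : α * (α * q * α⁻¹ * q⁻¹) * α⁻¹ = (α * q * α⁻¹ * q⁻¹)⁻¹ := by
      calc α * (α * q * α⁻¹ * q⁻¹) * α⁻¹ = (α * α) * q * α⁻¹ * q⁻¹ * α⁻¹ := by group
        _ = q * α⁻¹ * q⁻¹ * α⁻¹ := by rw [hαα, one_mul]
        _ = q * α * q⁻¹ * α⁻¹ := by rw [hαinv]
        _ = (α * q * α⁻¹ * q⁻¹)⁻¹ := by group
    have h1 : α * (α * q * α⁻¹ * q⁻¹) * α⁻¹ * (α * q * α⁻¹ * q⁻¹)⁻¹ =
        ((α * q * α⁻¹ * q⁻¹) * (α * q * α⁻¹ * q⁻¹))⁻¹ := by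
      rw [hc]
      exact (mul_inv_rev _ _).symm
    rw [h1]
    rcases d.sq_mem (hθQ q hq) with h | h
    · left; rw [h, inv_one]
    · right; rw [h, d.z_inv]
  -- `[α, q]` centralizes `Q₀`
  have hθcent : ∀ q ∈ Q, ∀ x ∈ Q₀, x * (α * q * α⁻¹ * q⁻¹) = (α * q * α⁻¹ * q⁻¹) * x := by
    intro q hq x hx
    apply eq_of_commSign_eq_one
    rw [d.commSign_theta α hαα hαQ (hQ₀Q hx) hq]
    apply commSign_of_comm
    rcases ((hQ₀ x).1 hx).2 with h | h
    · rw [h]; simp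
    · rw [h]; exact d.hzc q hq
  -- elements of `Q` centralizing all `[α, q]` lie in `Q₀`
  have hcentQ₀ : ∀ x ∈ Q, (∀ q ∈ Q, x * (α * q * α⁻¹ * q⁻¹) = (α * q * α⁻¹ * q⁻¹) * x) →
      x ∈ Q₀ := by
    intro x hx h
    rw [hQ₀]
    refine ⟨hx, d.hcen _ (hθQ x hx) ?_⟩
    intro q hq
    apply eq_of_commSign_eq_one
    rw [← d.commSign_theta α hαα hαQ hx hq]
    exact commSign_of_comm (h q hq)
  obtain ⟨W, hW⟩ : ∃ W : Subgroup G,
      W = Subgroup.closure ((fun q : G => α * q * α⁻¹ * q⁻¹) '' (Q : Set G)) := ⟨_, rfl⟩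
  rw [← hW]
  have hgen : ∀ q ∈ Q, α * q * α⁻¹ * q⁻¹ ∈ W := by
    intro q hq
    rw [hW]; exact Subgroup.subset_closure ⟨q, hq, rfl⟩
  have hWQ₀ : W ≤ Q₀ := by
    rw [hW, Subgroup.closure_le]
    rintro _ ⟨q, hq, rfl⟩
    exact hθQ₀ q hq
  have hWcent : W ≤ Subgroup.centralizer (Q₀ : Set G) := by
    rw [hW, Subgroup.closure_le]
    rintro _ ⟨q, hq, rfl⟩
    show α * q * α⁻¹ * q⁻¹ ∈ Subgroup.centralizer (Q₀ : Set G)
    rw [Subgroup.mem_centralizer_iff]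
    intro x hx
    exact hθcent q hq x hx
  -- `z ∈ W`
  have hzW : z ∈ W := by
    obtain ⟨q, hq, hne⟩ := hαn
    have hc1 : α * q * α⁻¹ * q⁻¹ ≠ 1 := by
      intro h
      apply hne
      calc α * q = (α * q * α⁻¹ * q⁻¹) * (q * α) := by group
        _ = q * α := by rw [h, one_mul]
    by_cases hc : ∀ y ∈ Q, (α * q * α⁻¹ * q⁻¹) * y = y * (α * q * α⁻¹ * q⁻¹)
    · rcases d.hcen _ (hθQ q hq) hc with h | h
      · exact absurd h hc1
      · rw [← h]; exact hgen q hq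
    · push Not at hc
      obtain ⟨y, hy, hyne⟩ := hc
      have h1 := (d.comm_iff (hθQ q hq) hy).resolve_left hyne
      have h2 : y * (α * q * α⁻¹ * q⁻¹) * y⁻¹ ∈ W := by
        have h3 : y * (α * q * α⁻¹ * q⁻¹) * y⁻¹ =
            (α * y * α⁻¹ * y⁻¹)⁻¹ * (α * (y * q) * α⁻¹ * (y * q)⁻¹) := by group
        rw [h3]
        exact W.mul_mem (W.inv_mem (hgen y hy)) (hgen (y * q) (Q.mul_mem hy hq))
      have h4 : z = (α * q * α⁻¹ * q⁻¹) * (y * (α * q * α⁻¹ * q⁻¹) * y⁻¹)⁻¹ := by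
        calc z = (z * (y * (α * q * α⁻¹ * q⁻¹))) * (y * (α * q * α⁻¹ * q⁻¹))⁻¹ := by group
          _ = ((α * q * α⁻¹ * q⁻¹) * y) * (y * (α * q * α⁻¹ * q⁻¹))⁻¹ := by rw [← h1]
          _ = (α * q * α⁻¹ * q⁻¹) * (y * (α * q * α⁻¹ * q⁻¹) * y⁻¹)⁻¹ := by group
      rw [h4]
      exact W.mul_mem (hgen q hq) (W.inv_mem h2)
  -- `C_Q(W) = Q₀`
  have hCW : Q ⊓ Subgroup.centralizer (W : Set G) = Q₀ := by
    apply le_antisymm
    · intro x hx
      apply hcentQ₀ x hx.1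
      intro q hq
      exact (Subgroup.mem_centralizer_iff.1 hx.2 _ (hgen q hq)).symm
    · intro x hx
      refine Subgroup.mem_inf.2 ⟨hQ₀Q hx, ?_⟩
      rw [Subgroup.mem_centralizer_iff]
      intro w hw
      exact (Subgroup.mem_centralizer_iff.1 (hWcent hw) x hx).symm
  have hd1 := d.card_centralizer_mul_card W (hWQ₀.trans hQ₀Q) hzW
  have hd2 := d.card_centralizer_mul_card Q₀ hQ₀Q hzQ₀
  rw [hCW] at hd1
  have hcard : Nat.card W = Nat.card (Q ⊓ Subgroup.centralizer (Q₀ : Set G) : Subgroup G) := by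
    have hpos : 0 < Nat.card Q₀ := Nat.card_pos
    have h1 : Nat.card Q₀ * Nat.card W =
        Nat.card Q₀ * Nat.card (Q ⊓ Subgroup.centralizer (Q₀ : Set G) : Subgroup G) := by
      rw [hd1, ← hd2, mul_comm]
    exact Nat.eq_of_mul_eq_mul_left hpos h1
  have hWeq : W = Q ⊓ Subgroup.centralizer (Q₀ : Set G) :=
    Subgroup.eq_of_le_of_card_ge (le_inf (hWQ₀.trans hQ₀Q) hWcent) hcard.ge
  ext x
  constructor
  · intro hx
    have hx1 : x ∈ Q₀ := hWQ₀ hx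
    have hx2 : x ∈ Subgroup.centralizer (Q₀ : Set G) := hWcent hx
    refine ⟨⟨x, hx1⟩, Subgroup.mem_center_iff.2 ?_, rfl⟩
    intro g
    apply Subtype.ext
    exact Subgroup.mem_centralizer_iff.1 hx2 g g.2
  · rintro ⟨y, hy, rfl⟩
    rw [hWeq]
    refine Subgroup.mem_inf.2 ⟨hQ₀Q y.2, ?_⟩
    rw [Subgroup.mem_centralizer_iff]
    intro g hg
    have h1 := Subgroup.mem_center_iff.1 hy ⟨g, hg⟩
    exact congrArg Subtype.val h1

end ClassTwoData

end Cfsg.Agent.Lib.Helper30
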