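import Mathlib
import Cfsg.Prelude.Def_Transfer
import Cfsg.Agent.Lib.Helper30.Extraspecial2

/-!
An extraspecial 2-subgroup `Q` of a subgroup `C`, containing its centralizer in `C`, together
with a central involution `z` of `C`, gives `ClassTwoData`.
-/

set_option autoImplicit false

namespace Cfsg.Agent.Lib.Helper30

open scoped commutatorElement

variable {G : Type*} [Group G]

theorem mem_zpowers_of_sq {z x : G} (hzz : z * z = 1) :
    x ∈ Subgroup.zpowers z ↔ x = 1 ∨ x = z := by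
  constructor
  · intro h
    obtain ⟨k, rfl⟩ := Subgroup.mem_zpowers_iff.1 h
    have h2 : z ^ (2 : ℤ) = 1 := by rw [zpow_two]; exact hzz
    obtain ⟨m, hm | hm⟩ := Int.even_or_odd' k
    · left
      rw [hm, zpow_mul, h2, one_zpow]
    · right
      rw [hm, zpow_add, zpow_mul, h2, one_zpow, one_mul, zpow_one]
  · rintro (h | h)
    · rw [h]; exact Subgroup.one_mem _
    · rw [h]; exact Subgroup.mem_zpowers z

/-- Extraspecial subgroups give class two data. -/
theorem classTwoData_of_extraspecial (C : Subgroup G) (Fs : Subgroup ↥C)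
    (hE : Cfsg.IsExtraspecial 2 ↥Fs)
    (hB : Subgroup.centralizer (Fs : Set ↥C) ≤ Fs)
    (z : G) (hzC : z ∈ C) (hzc : ∀ c ∈ C, z * c = c * z) (hz1 : z ≠ 1) (hzz : z * z = 1) :
    ClassTwoData (Fs.map C.subtype) z := by
  obtain ⟨⟨-, -, hcomm⟩, hcard⟩ := hE
  have hz' : (⟨z, hzC⟩ : ↥C) ∈ Fs := by
    apply hB
    rw [Subgroup.mem_centralizer_iff]
    intro h _
    apply Subtype.ext
    exact (hzc (h : G) h.2).symm
  have hζc : (⟨⟨z, hzC⟩, hz'⟩ : ↥Fs) ∈ Subgroup.center ↥Fs := by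
    rw [Subgroup.mem_center_iff]
    intro g
    apply Subtype.ext
    apply Subtype.ext
    exact (hzc ((g : ↥C) : G) (g : ↥C).2).symm
  have hcenter : ∀ w : ↥Fs, w ∈ Subgroup.center ↥Fs → w = 1 ∨ w = ⟨⟨z, hzC⟩, hz'⟩ := by
    intro w hw
    obtain ⟨y, hy, huniq⟩ := (Nat.card_eq_two_iff' (1 : Subgroup.center ↥Fs)).1 hcard
    by_cases hw1 : w = 1
    · exact Or.inl hw1
    · right
      have h1 : (⟨w, hw⟩ : Subgroup.center ↥Fs) = y := huniq _ (fun h => hw1 (congrArg Subtype.val h))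
      have h2 : (⟨⟨⟨z, hzC⟩, hz'⟩, hζc⟩ : Subgroup.center ↥Fs) = y :=
        huniq _ (fun h => hz1 (congrArg (fun t : Subgroup.center ↥Fs => (((t : ↥Fs) : ↥C) : G)) h))
      exact congrArg Subtype.val (h1.trans h2.symm)
  refine ⟨⟨⟨z, hzC⟩, hz', rfl⟩, hz1, hzz, ?_, ?_, ?_⟩
  · rintro _ ⟨q, -, rfl⟩
    exact hzc (q : G) q.2
  · rintro _ ⟨x, hx, rfl⟩ _ ⟨y, hy, rfl⟩
    have h1 : ⁅(⟨x, hx⟩ : ↥Fs), (⟨y, hy⟩ : ↥Fs)⁆ ∈ commutator ↥Fs := by
      rw [commutator_def]
      exact Subgroup.commutator_mem_commutator (Subgroup.mem_top _) (Subgroup.mem_top _)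
    rw [hcomm] at h1
    rcases hcenter _ h1 with h | h
    · left
      have := congrArg (fun t : ↥Fs => ((t : ↥C) : G)) h
      simpa [commutatorElement_def] using this
    · right
      have := congrArg (fun t : ↥Fs => ((t : ↥C) : G)) h
      simpa [commutatorElement_def] using this
  · rintro _ ⟨x, hx, rfl⟩ hxc
    have h1 : (⟨x, hx⟩ : ↥Fs) ∈ Subgroup.center ↥Fs := by
      rw [Subgroup.mem_center_iff]
      intro g
      apply Subtype.ext
      apply Subtype.ext
      exact (hxc ((g : ↥C) : G) ⟨(g : ↥C), g.2, rfl⟩).symm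
    rcases hcenter _ h1 with h | h
    · left
      have := congrArg (fun t : ↥Fs => ((t : ↥C) : G)) h
      simpa using this
    · right
      have := congrArg (fun t : ↥Fs => ((t : ↥C) : G)) h
      simpa using this

end Cfsg.Agent.Lib.Helper30
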