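import Mathlib
import Cfsg.Agent.Lib.Helper30.Extraspecial3

/-!
Large extraspecial 2-subgroups, part 1: a non-central involution `u` of a class 2 group `Q`
with centre `{1, z}`: the four-group `{1, z, u, zu}`, the centralizer `D = C_Q(u)` and the
double centralizer `C_Q(D) = {1, z, u, zu}`.
-/

set_option autoImplicit false

namespace Cfsg.Agent.Lib.Helper30

variable {G : Type*} [Group G]

/-- The four-group generated by two commuting involutions. -/
def fourGroup (z u : G) (hzz : z * z = 1) (huu : u * u = 1) (hzu : z * u = u * z) :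
    Subgroup G where
  carrier := {v | v = 1 ∨ v = z ∨ v = u ∨ v = z * u}
  mul_mem' := by
    intro a b ha hb
    have h1 : ∀ x : G, z * (z * x) = x := fun x => by rw [← mul_assoc, hzz, one_mul]
    have h2 : ∀ x : G, u * (u * x) = x := fun x => by rw [← mul_assoc, huu, one_mul]
    have h3 : ∀ x : G, u * (z * x) = z * (u * x) := fun x => by
      rw [← mul_assoc, ← hzu, mul_assoc]
    have h4 : u * z = z * u := hzu.symm
    simp only [Set.mem_ofPred_eq] at ha hb ⊢
    rcases ha with rfl | rfl | rfl | rfl <;> rcases hb with rfl | rfl | rfl | rfl <;>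
      simp [mul_assoc, hzz, huu, h1, h3, h4]
  one_mem' := Or.inl rfl
  inv_mem' := by
    intro a ha
    have hzi : z⁻¹ = z := inv_eq_of_mul_eq_one_left hzz
    have hui : u⁻¹ = u := inv_eq_of_mul_eq_one_left huu
    simp only [Set.mem_ofPred_eq] at ha ⊢
    rcases ha with rfl | rfl | rfl | rfl
    · left; simp
    · right; left; exact hzi
    · right; right; left; exact hui
    · right; right; right
      rw [mul_inv_rev, hzi, hui, hzu]

theorem mem_fourGroup {z u : G} (hzz : z * z = 1) (huu : u * u = 1) (hzu : z * u = u * z)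
    {v : G} : v ∈ fourGroup z u hzz huu hzu ↔ v = 1 ∨ v = z ∨ v = u ∨ v = z * u := Iff.rfl

theorem closure_pair_eq_fourGroup {z u : G} (hzz : z * z = 1) (huu : u * u = 1)
    (hzu : z * u = u * z) :
    Subgroup.closure ({z, u} : Set G) = fourGroup z u hzz huu hzu := by
  apply le_antisymm
  · rw [Subgroup.closure_le]
    intro v hv
    rcases hv with rfl | rfl
    · exact Or.inr (Or.inl rfl)
    · exact Or.inr (Or.inr (Or.inl rfl))
  · intro v hv
    have hz : z ∈ Subgroup.closure ({z, u} : Set G) := Subgroup.subset_closure (by simp)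
    have hu : u ∈ Subgroup.closure ({z, u} : Set G) := Subgroup.subset_closure (by simp)
    rcases hv with rfl | rfl | rfl | rfl
    · exact Subgroup.one_mem _
    · exact hz
    · exact hu
    · exact Subgroup.mul_mem _ hz hu

theorem card_fourGroup {z u : G} (hzz : z * z = 1) (huu : u * u = 1) (hzu : z * u = u * z)
    (hz1 : z ≠ 1) (hu1 : u ≠ 1) (hne : z ≠ u) :
    Nat.card (fourGroup z u hzz huu hzu) = 4 := by
  have hset : ((fourGroup z u hzz huu hzu : Subgroup G) : Set G) = {1, z, u, z * u} := by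
    ext v
    simp [fourGroup]
  have hzu1 : z * u ≠ 1 := by
    intro h
    apply hne
    calc z = z * (u * u) := by rw [huu, mul_one]
      _ = (z * u) * u := by group
      _ = u := by rw [h, one_mul]
  have hzzu : z ≠ z * u := by
    intro h
    apply hu1
    calc u = z⁻¹ * (z * u) := by group
      _ = 1 := by rw [← h]; group
  have huzu : u ≠ z * u := by
    intro h
    apply hz1
    calc z = (z * u) * u⁻¹ := by group
      _ = 1 := by rw [← h]; group
  have h1 : (({1, z, u, z * u} : Set G)).ncard = 4 := by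
    rw [Set.ncard_insert_of_notMem (by
        simp only [Set.mem_insert_iff, Set.mem_singleton_iff, not_or]
        exact ⟨fun h => hz1 h.symm, fun h => hu1 h.symm, fun h => hzu1 h.symm⟩),
      Set.ncard_insert_of_notMem (by
        simp only [Set.mem_insert_iff, Set.mem_singleton_iff, not_or]
        exact ⟨hne, hzzu⟩),
      Set.ncard_pair huzu]
  have h2 : Nat.card (fourGroup z u hzz huu hzu) =
      ((fourGroup z u hzz huu hzu : Subgroup G) : Set G).ncard := by
    rw [← Nat.card_coe_set_eq]; rfl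
  rw [h2, hset, h1]

namespace ClassTwoData

variable {Q : Subgroup G} {z : G} (d : ClassTwoData Q z)
include d

theorem conj_eq_or {q u : G} (hq : q ∈ Q) (hu : u ∈ Q) :
    q * u * q⁻¹ = u ∨ q * u * q⁻¹ = z * u := by
  rcases d.hk q hq u hu with h | h
  · left
    calc q * u * q⁻¹ = (q * u * q⁻¹ * u⁻¹) * u := by group
      _ = u := by rw [h, one_mul]
  · right
    calc q * u * q⁻¹ = (q * u * q⁻¹ * u⁻¹) * u := by group
      _ = z * u := by rw [h]

theorem exists_conj_eq {u : G} (hu : u ∈ Q) (hu1 : u ≠ 1) (huz : u ≠ z) :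
    ∃ q ∈ Q, q * u * q⁻¹ = z * u := by
  by_contra hcon
  push Not at hcon
  have h1 : ∀ y ∈ Q, u * y = y * u := by
    intro y hy
    rcases d.conj_eq_or hy hu with h | h
    · calc u * y = (y * u * y⁻¹) * y := by rw [h]
        _ = y * u := by group
    · exact absurd h (hcon y hy)
  rcases d.hcen u hu h1 with h | h
  · exact hu1 h
  · exact huz h

omit d in
/-- Two elements of `Q` moving `u` differ by an element centralizing `u`. -/
theorem inv_mul_comm {q q' u : G} (h : q * u * q⁻¹ = z * u) (h' : q' * u * q'⁻¹ = z * u) :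
    (q⁻¹ * q') * u = u * (q⁻¹ * q') := by
  calc (q⁻¹ * q') * u = q⁻¹ * (q' * u * q'⁻¹) * q' := by group
    _ = q⁻¹ * (q * u * q⁻¹) * q' := by rw [h, h']
    _ = u * (q⁻¹ * q') := by group

theorem zu_comm {u : G} (hu : u ∈ Q) : z * u = u * z := d.hzc u hu

/-- The double centralizer of `{1, z, u, zu}` in `Q`, and the order of its centralizer. -/
theorem dual_four [Finite G] {u : G} (hu : u ∈ Q) (hu1 : u ≠ 1) (huz : u ≠ z) (huu : u * u = 1) :
    (Q ⊓ Subgroup.centralizer
        ((Q ⊓ Subgroup.centralizer ((fourGroup z u d.hzz huu (d.zu_comm hu) : Subgroup G) : Set G)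
          : Subgroup G) : Set G) : Subgroup G) = fourGroup z u d.hzz huu (d.zu_comm hu) ∧
    Nat.card (Q ⊓ Subgroup.centralizer
        ((fourGroup z u d.hzz huu (d.zu_comm hu) : Subgroup G) : Set G) : Subgroup G) * 4 =
      2 * Nat.card Q := by
  obtain ⟨V, hV⟩ : ∃ V : Subgroup G, V = fourGroup z u d.hzz huu (d.zu_comm hu) := ⟨_, rfl⟩
  rw [← hV]
  have hVmem : ∀ v, v ∈ V ↔ v = 1 ∨ v = z ∨ v = u ∨ v = z * u := by
    intro v; rw [hV]; exact Iff.rfl
  have hVcard : Nat.card V = 4 := by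
    rw [hV]; exact card_fourGroup d.hzz huu (d.zu_comm hu) d.hz1 hu1 (fun h => huz h.symm)
  have hzV : z ∈ V := (hVmem z).2 (Or.inr (Or.inl rfl))
  have hVQ : V ≤ Q := by
    intro v hv
    rcases (hVmem v).1 hv with rfl | rfl | rfl | rfl
    · exact Q.one_mem
    · exact d.hzQ
    · exact hu
    · exact Q.mul_mem d.hzQ hu
  obtain ⟨D, hD⟩ : ∃ D : Subgroup G, D = Q ⊓ Subgroup.centralizer (V : Set G) := ⟨_, rfl⟩
  rw [← hD]
  have hDQ : D ≤ Q := by rw [hD]; exact inf_le_left
  have hzD : z ∈ D := by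
    rw [hD]
    refine Subgroup.mem_inf.2 ⟨d.hzQ, ?_⟩
    rw [Subgroup.mem_centralizer_iff]
    intro v hv
    exact (d.hzc v (hVQ hv)).symm
  have hd1 := d.card_centralizer_mul_card V hVQ hzV
  have hd2 := d.card_centralizer_mul_card D hDQ hzD
  rw [← hD] at hd1
  rw [hVcard] at hd1
  refine ⟨?_, hd1⟩
  have hle : V ≤ Q ⊓ Subgroup.centralizer (D : Set G) := by
    intro v hv
    refine Subgroup.mem_inf.2 ⟨hVQ hv, ?_⟩
    rw [Subgroup.mem_centralizer_iff]
    intro a ha
    rw [hD] at ha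
    exact (Subgroup.mem_centralizer_iff.1 ha.2 v hv).symm
  have hcard : Nat.card (Q ⊓ Subgroup.centralizer (D : Set G) : Subgroup G) = 4 := by
    have hpos : 0 < Nat.card D := Nat.card_pos
    have h3 : Nat.card D * Nat.card (Q ⊓ Subgroup.centralizer (D : Set G) : Subgroup G) =
        Nat.card D * 4 := by
      rw [hd1, ← hd2, mul_comm]
    exact Nat.eq_of_mul_eq_mul_left hpos h3
  exact (Subgroup.eq_of_le_of_card_ge hle (by rw [hcard, hVcard])).symm

/-- `C_Q(C_Q(u)) = {1, z, u, zu}`. -/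
theorem cent_cent [Finite G] {u : G} (hu : u ∈ Q) (hu1 : u ≠ 1) (huz : u ≠ z) (huu : u * u = 1)
    {c : G} (hc : c ∈ Q) (hcD : ∀ a ∈ Q, a * u = u * a → c * a = a * c) :
    c = 1 ∨ c = z ∨ c = u ∨ c = z * u := by
  have h := (d.dual_four hu hu1 huz huu).1
  have hmem : c ∈ (Q ⊓ Subgroup.centralizer
        ((Q ⊓ Subgroup.centralizer ((fourGroup z u d.hzz huu (d.zu_comm hu) : Subgroup G) : Set G)
          : Subgroup G) : Set G) : Subgroup G) := by
    refine Subgroup.mem_inf.2 ⟨hc, ?_⟩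
    rw [Subgroup.mem_centralizer_iff]
    intro a ha
    have ha2 := Subgroup.mem_centralizer_iff.1 ha.2 u (Or.inr (Or.inr (Or.inl rfl)))
    exact (hcD a ha.1 ha2.symm).symm
  rw [h] at hmem
  exact hmem

/-- If `|Q| > 8` then `C_Q(u)` is nonabelian. -/
theorem exists_comm_eq_z [Finite G] {u : G} (hu : u ∈ Q) (hu1 : u ≠ 1) (huz : u ≠ z)
    (huu : u * u = 1) (hcard : 8 < Nat.card Q) :
    ∃ a ∈ Q, ∃ b ∈ Q, a * u = u * a ∧ b * u = u * b ∧ a * b * a⁻¹ * b⁻¹ = z := by
  by_contra hcon
  push Not at hcon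
  obtain ⟨h1, h2⟩ := d.dual_four hu hu1 huz huu
  obtain ⟨V, hV⟩ : ∃ V : Subgroup G, V = fourGroup z u d.hzz huu (d.zu_comm hu) := ⟨_, rfl⟩
  rw [← hV] at h1 h2
  have hVmem : ∀ v, v ∈ V ↔ v = 1 ∨ v = z ∨ v = u ∨ v = z * u := by
    intro v; rw [hV]; exact Iff.rfl
  have hVcard : Nat.card V = 4 := by
    rw [hV]; exact card_fourGroup d.hzz huu (d.zu_comm hu) d.hz1 hu1 (fun h => huz h.symm)
  obtain ⟨D, hD⟩ : ∃ D : Subgroup G, D = Q ⊓ Subgroup.centralizer (V : Set G) := ⟨_, rfl⟩
  rw [← hD] at h1 h2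
  have hDu : ∀ a ∈ D, a * u = u * a := by
    intro a ha
    rw [hD] at ha
    exact (Subgroup.mem_centralizer_iff.1 ha.2 u ((hVmem u).2 (Or.inr (Or.inr (Or.inl rfl))))).symm
  have hDQ : D ≤ Q := by rw [hD]; exact inf_le_left
  have hDV : D ≤ V := by
    rw [← h1]
    intro a ha
    refine Subgroup.mem_inf.2 ⟨hDQ ha, ?_⟩
    rw [Subgroup.mem_centralizer_iff]
    intro b hb
    rcases d.hk b (hDQ hb) a (hDQ ha) with h | h
    · calc b * a = (b * a * b⁻¹ * a⁻¹) * (a * b) := by group
        _ = a * b := by rw [h, one_mul]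
    · exact absurd h (hcon b (hDQ hb) a (hDQ ha) (hDu b hb) (hDu a ha))
  have h3 : Nat.card D ≤ 4 := by
    rw [← hVcard]
    exact Subgroup.card_le_of_le hDV
  have h4 : 2 * Nat.card Q ≤ 16 := by
    rw [← h2]
    calc Nat.card D * 4 ≤ 4 * 4 := Nat.mul_le_mul_right 4 h3
      _ = 16 := by norm_num
  omega

end ClassTwoData

end Cfsg.Agent.Lib.Helper30
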