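import Mathlib
import Cfsg.Agent.Lib.Helper30.LargeExtra1

/-!
Large extraspecial 2-subgroups, part 2: the data `LargeData Q z` (class 2 with centre `{1, z}`,
normalized by `C(z)`, self-centralizing up to `z`, of order more than 8), its conjugates, and the
centralizer of `C_Q(u)` in `C(z)`.
-/

set_option autoImplicit false

namespace Cfsg.Agent.Lib.Helper30

variable {G : Type*} [Group G]

/-- The data of a large extraspecial subgroup that the pair analysis uses. -/
structure LargeData (Q : Subgroup G) (z : G) : Prop where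
  d : ClassTwoData Q z
  hN : ∀ c : G, c * z = z * c → ∀ q ∈ Q, c * q * c⁻¹ ∈ Q
  hC : ∀ c : G, (∀ q ∈ Q, c * q = q * c) → c = 1 ∨ c = z
  hcard : 8 < Nat.card Q

theorem ClassTwoData.conj {Q : Subgroup G} {z : G} (d : ClassTwoData Q z) (g : G)
    (Q' : Subgroup G) (hQ' : ∀ y, y ∈ Q' ↔ g⁻¹ * y * g ∈ Q) :
    ClassTwoData Q' (g * z * g⁻¹) := by
  refine ⟨?_, ?_, ?_, ?_, ?_, ?_⟩
  · rw [hQ']
    have : g⁻¹ * (g * z * g⁻¹) * g = z := by group
    rw [this]; exact d.hzQ
  · intro h
    apply d.hz1
    calc z = g⁻¹ * (g * z * g⁻¹) * g := by group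
      _ = 1 := by rw [h]; group
  · calc g * z * g⁻¹ * (g * z * g⁻¹) = g * (z * z) * g⁻¹ := by group
      _ = 1 := by rw [d.hzz]; group
  · intro q hq
    have h := d.hzc _ ((hQ' q).1 hq)
    calc g * z * g⁻¹ * q = g * (z * (g⁻¹ * q * g)) * g⁻¹ := by group
      _ = g * ((g⁻¹ * q * g) * z) * g⁻¹ := by rw [h]
      _ = q * (g * z * g⁻¹) := by group
  · intro x hx y hy
    have e : x * y * x⁻¹ * y⁻¹ =
        g * ((g⁻¹ * x * g) * (g⁻¹ * y * g) * (g⁻¹ * x * g)⁻¹ * (g⁻¹ * y * g)⁻¹) * g⁻¹ := by group
    rcases d.hk _ ((hQ' x).1 hx) _ ((hQ' y).1 hy) with h | h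
    · left; rw [e, h]; group
    · right; rw [e, h]
  · intro x hx hxc
    have h1 : ∀ y ∈ Q, (g⁻¹ * x * g) * y = y * (g⁻¹ * x * g) := by
      intro y hy
      have hy' : g * y * g⁻¹ ∈ Q' := by
        rw [hQ']
        have : g⁻¹ * (g * y * g⁻¹) * g = y := by group
        rw [this]; exact hy
      have h2 := hxc _ hy'
      calc (g⁻¹ * x * g) * y = g⁻¹ * (x * (g * y * g⁻¹)) * g := by group
        _ = g⁻¹ * ((g * y * g⁻¹) * x) * g := by rw [h2]
        _ = y * (g⁻¹ * x * g) := by group
    rcases d.hcen _ ((hQ' x).1 hx) h1 with h | h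
    · left
      calc x = g * (g⁻¹ * x * g) * g⁻¹ := by group
        _ = 1 := by rw [h]; group
    · right
      calc x = g * (g⁻¹ * x * g) * g⁻¹ := by group
        _ = g * z * g⁻¹ := by rw [h]

namespace LargeData

variable {Q : Subgroup G} {z : G}

theorem conj [Finite G] (L : LargeData Q z) (g : G) (Q' : Subgroup G)
    (hQ' : ∀ y, y ∈ Q' ↔ g⁻¹ * y * g ∈ Q) : LargeData Q' (g * z * g⁻¹) := by
  refine ⟨L.d.conj g Q' hQ', ?_, ?_, ?_⟩
  · intro c hc q hq
    rw [hQ']
    have h1 : (g⁻¹ * c * g) * z = z * (g⁻¹ * c * g) := by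
      calc (g⁻¹ * c * g) * z = g⁻¹ * (c * (g * z * g⁻¹)) * g := by group
        _ = g⁻¹ * ((g * z * g⁻¹) * c) * g := by rw [hc]
        _ = z * (g⁻¹ * c * g) := by group
    have h2 := L.hN _ h1 _ ((hQ' q).1 hq)
    have e : g⁻¹ * (c * q * c⁻¹) * g = (g⁻¹ * c * g) * (g⁻¹ * q * g) * (g⁻¹ * c * g)⁻¹ := by group
    rw [e]; exact h2
  · intro c hc
    have h1 : ∀ y ∈ Q, (g⁻¹ * c * g) * y = y * (g⁻¹ * c * g) := by
      intro y hy
      have hy' : g * y * g⁻¹ ∈ Q' := by
        rw [hQ']
        have : g⁻¹ * (g * y * g⁻¹) * g = y := by group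
        rw [this]; exact hy
      have h2 := hc _ hy'
      calc (g⁻¹ * c * g) * y = g⁻¹ * (c * (g * y * g⁻¹)) * g := by group
        _ = g⁻¹ * ((g * y * g⁻¹) * c) * g := by rw [h2]
        _ = y * (g⁻¹ * c * g) := by group
    rcases L.hC _ h1 with h | h
    · left
      calc c = g * (g⁻¹ * c * g) * g⁻¹ := by group
        _ = 1 := by rw [h]; group
    · right
      calc c = g * (g⁻¹ * c * g) * g⁻¹ := by group
        _ = g * z * g⁻¹ := by rw [h]
  · have hmap : Q' = Q.map (MulAut.conj g).toMonoidHom := by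
      ext y
      rw [hQ', Subgroup.mem_map_equiv, MulAut.conj_symm_apply]
    rw [hmap, Subgroup.card_map_of_injective (MulAut.conj g).injective]
    exact L.hcard

theorem z_comm (L : LargeData Q z) {q : G} (hq : q ∈ Q) : q * z = z * q := (L.d.hzc q hq).symm

/-- An element centralizing `C_Q(u)` and one element of `Q` outside it lies in `{1, z}`. -/
theorem cent_D_aux (L : LargeData Q z) {u q c : G} (hu : u ∈ Q) (hq : q ∈ Q)
    (hqu : q * u * q⁻¹ = z * u) (hcD : ∀ a ∈ Q, a * u = u * a → c * a = a * c)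
    (hcq : c * q = q * c) : c = 1 ∨ c = z := by
  apply L.hC
  intro y hy
  by_cases hyu : y * u = u * y
  · exact hcD y hy hyu
  · have hu' : y * u * y⁻¹ = z * u := by
      rcases L.d.conj_eq_or hy hu with h | h
      · exfalso
        apply hyu
        calc y * u = (y * u * y⁻¹) * y := by group
          _ = u * y := by rw [h]
      · exact h
    have h1 := ClassTwoData.inv_mul_comm (z := z) hqu hu'
    have h2 := hcD _ (Q.mul_mem (Q.inv_mem hq) hy) h1
    calc c * y = (c * q) * (q⁻¹ * y) := by group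
      _ = q * (c * (q⁻¹ * y)) := by rw [hcq]; group
      _ = q * ((q⁻¹ * y) * c) := by rw [h2]
      _ = y * c := by group

/-- The centralizer of `C_Q(u)` in `C(z)` is `{1, z, u, zu}`. -/
theorem cent_D [Finite G] (L : LargeData Q z) {u c : G} (hu : u ∈ Q) (hu1 : u ≠ 1) (huz : u ≠ z)
    (huu : u * u = 1) (hcz : c * z = z * c) (hcD : ∀ a ∈ Q, a * u = u * a → c * a = a * c) :
    c = 1 ∨ c = z ∨ c = u ∨ c = z * u := by
  have hzu : z * u = u * z := L.d.zu_comm hu
  have hzi : z⁻¹ = z := L.d.z_inv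
  have hui : u⁻¹ = u := inv_eq_of_mul_eq_one_left huu
  obtain ⟨q, hq, hqu⟩ := L.d.exists_conj_eq hu hu1 huz
  have hqz : q * z = z * q := L.z_comm hq
  have hcq : c * q * c⁻¹ ∈ Q := L.hN c hcz q hq
  obtain ⟨t, ht⟩ : ∃ t : G, t = c * q * c⁻¹ * q⁻¹ := ⟨_, rfl⟩
  have htQ : t ∈ Q := by rw [ht]; exact Q.mul_mem hcq (Q.inv_mem hq)
  have hcq' : c * q * c⁻¹ = t * q := by rw [ht]; group
  -- `t` centralizes `C_Q(u)`
  have htD : ∀ a ∈ Q, a * u = u * a → t * a = a * t := by
    intro a ha hau
    have haz : a * z = z * a := L.z_comm ha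
    have ha' : q⁻¹ * a * q ∈ Q := Q.mul_mem (Q.mul_mem (Q.inv_mem hq) ha) hq
    have ha'u : (q⁻¹ * a * q) * u = u * (q⁻¹ * a * q) := by
      have e1 : a * (z * u) = (z * u) * a := by
        calc a * (z * u) = (a * z) * u := by group
          _ = (z * a) * u := by rw [haz]
          _ = z * (a * u) := by group
          _ = z * (u * a) := by rw [hau]
          _ = (z * u) * a := by group
      calc (q⁻¹ * a * q) * u = q⁻¹ * (a * (q * u * q⁻¹)) * q := by group
        _ = q⁻¹ * (a * (z * u)) * q := by rw [hqu]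
        _ = q⁻¹ * ((z * u) * a) * q := by rw [e1]
        _ = q⁻¹ * ((q * u * q⁻¹) * a) * q := by rw [hqu]
        _ = u * (q⁻¹ * a * q) := by group
    have h1 := hcD _ ha' ha'u
    have h2 := hcD a ha hau
    have h3 : c⁻¹ * (q⁻¹ * a * q) * c = q⁻¹ * a * q := by
      calc c⁻¹ * (q⁻¹ * a * q) * c = c⁻¹ * ((q⁻¹ * a * q) * c) := by group
        _ = c⁻¹ * (c * (q⁻¹ * a * q)) := by rw [h1]
        _ = q⁻¹ * a * q := by group
    have h4 : t * a * t⁻¹ = a := by
      calc t * a * t⁻¹ = c * q * (c⁻¹ * (q⁻¹ * a * q) * c) * q⁻¹ * c⁻¹ := by rw [ht]; group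
        _ = c * q * (q⁻¹ * a * q) * q⁻¹ * c⁻¹ := by rw [h3]
        _ = (c * a) * c⁻¹ := by group
        _ = (a * c) * c⁻¹ := by rw [h2]
        _ = a := by group
    calc t * a = (t * a * t⁻¹) * t := by group
      _ = a * t := by rw [h4]
  -- `u q u⁻¹ = z q`
  have huq : u * q * u⁻¹ = z * q := by
    have e1 : q * u = z * u * q := by
      calc q * u = (q * u * q⁻¹) * q := by group
        _ = z * u * q := by rw [hqu]
    calc u * q * u⁻¹ = u * q * u := by rw [hui]
      _ = u * (q * u) := by group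
      _ = u * (z * u * q) := by rw [e1]
      _ = (u * z) * u * q := by group
      _ = (z * u) * u * q := by rw [hzu]
      _ = z * (u * u) * q := by group
      _ = z * q := by rw [huu, mul_one]
  have hqq : c * (q * q) * c⁻¹ = q * q := by
    rcases L.d.sq_mem hq with h | h
    · rw [h]; group
    · rw [h]
      calc c * z * c⁻¹ = (z * c) * c⁻¹ := by rw [hcz]
        _ = z := by group
  have hsq : (c * q * c⁻¹) * (c * q * c⁻¹) = q * q := by
    calc (c * q * c⁻¹) * (c * q * c⁻¹) = c * (q * q) * c⁻¹ := by group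
      _ = q * q := hqq
  have huqsq : (u * q) * (u * q) = z * (q * q) := by
    have e1 : u * q = z * q * u := by
      calc u * q = (u * q * u⁻¹) * u := by group
        _ = z * q * u := by rw [huq]
    calc (u * q) * (u * q) = (z * q * u) * (u * q) := by rw [e1]
      _ = z * q * (u * u) * q := by group
      _ = z * (q * q) := by rw [huu]; group
  rcases L.d.cent_cent hu hu1 huz huu htQ htD with h | h | h | h
  · -- `t = 1`
    have hcq2 : c * q = q * c := by
      calc c * q = (c * q * c⁻¹) * c := by group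
        _ = q * c := by rw [hcq', h, one_mul]
    rcases L.cent_D_aux hu hq hqu hcD hcq2 with h' | h'
    · exact Or.inl h'
    · exact Or.inr (Or.inl h')
  · -- `t = z`
    have hcuq : (c * u) * q = q * (c * u) := by
      have e1 : (c * u) * q * (c * u)⁻¹ = q := by
        calc (c * u) * q * (c * u)⁻¹ = c * (u * q * u⁻¹) * c⁻¹ := by group
          _ = c * (z * q) * c⁻¹ := by rw [huq]
          _ = (c * z) * (q * c⁻¹) := by group
          _ = (z * c) * (q * c⁻¹) := by rw [hcz]
          _ = z * (c * q * c⁻¹) := by group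
          _ = z * (t * q) := by rw [hcq']
          _ = z * (z * q) := by rw [h]
          _ = (z * z) * q := by group
          _ = q := by rw [L.d.hzz, one_mul]
      calc (c * u) * q = ((c * u) * q * (c * u)⁻¹) * (c * u) := by group
        _ = q * (c * u) := by rw [e1]
    have hcuD : ∀ a ∈ Q, a * u = u * a → (c * u) * a = a * (c * u) := by
      intro a ha hau
      have h2 := hcD a ha hau
      calc (c * u) * a = c * (u * a) := by group
        _ = c * (a * u) := by rw [hau]
        _ = (c * a) * u := by group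
        _ = (a * c) * u := by rw [h2]
        _ = a * (c * u) := by group
    rcases L.cent_D_aux hu hq hqu hcuD hcuq with h' | h'
    · right; right; left
      calc c = (c * u) * u⁻¹ := by group
        _ = u := by rw [h', one_mul, hui]
    · right; right; right
      calc c = (c * u) * u⁻¹ := by group
        _ = z * u := by rw [h', hui]
  · -- `t = u`
    exfalso
    rw [hcq', h, huqsq] at hsq
    apply L.d.hz1
    calc z = (z * (q * q)) * (q * q)⁻¹ := by group
      _ = 1 := by rw [hsq]; group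
  · -- `t = z u`
    exfalso
    have e1 : (z * u * q) * (z * u * q) = z * (q * q) := by
      have e2 : (u * q) * z = z * (u * q) := by
        calc (u * q) * z = u * (q * z) := by group
          _ = u * (z * q) := by rw [hqz]
          _ = (u * z) * q := by group
          _ = (z * u) * q := by rw [hzu]
          _ = z * (u * q) := by group
      calc (z * u * q) * (z * u * q) = z * ((u * q) * z) * (u * q) := by group
        _ = z * (z * (u * q)) * (u * q) := by rw [e2]
        _ = (z * z) * ((u * q) * (u * q)) := by group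
        _ = z * (q * q) := by rw [L.d.hzz, one_mul, huqsq]
    rw [hcq', h, e1] at hsq
    apply L.d.hz1
    calc z = (z * (q * q)) * (q * q)⁻¹ := by group
      _ = 1 := by rw [hsq]; group

end LargeData

end Cfsg.Agent.Lib.Helper30
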