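import Mathlib
import Cfsg.Agent.Lib.Helper30.LargeExtra2

/-!
Large extraspecial 2-subgroups, part 3: symmetry. If `u = g z g⁻¹ ∈ Q`, `u ≠ z`, then
`z ∈ g Q g⁻¹`.
-/

set_option autoImplicit false

namespace Cfsg.Agent.Lib.Helper30

variable {G : Type*} [Group G]

/-- Equality up to a factor `u`. -/
def ModU (u x y : G) : Prop := x = y ∨ x = u * y

theorem ModU.symm {u x y : G} (huu : u * u = 1) (h : ModU u x y) : ModU u y x := by
  rcases h with h | h
  · exact Or.inl h.symm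
  · right
    rw [h, ← mul_assoc, huu, one_mul]

theorem ModU.trans {u x y w : G} (huu : u * u = 1) (h : ModU u x y) (h' : ModU u y w) :
    ModU u x w := by
  rcases h with h | h <;> rcases h' with h' | h'
  · exact Or.inl (h.trans h')
  · exact Or.inr (h.trans h')
  · right; rw [h, h']
  · left; rw [h, h', ← mul_assoc, huu, one_mul]

theorem ModU.mul_right {u x y : G} (w : G) (h : ModU u x y) : ModU u (x * w) (y * w) := by
  rcases h with h | h
  · left; rw [h]
  · right; rw [h, mul_assoc]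

namespace LargeData

variable {Q : Subgroup G} {z : G}

/-- Symmetry: if the conjugate `u = g z g⁻¹ ≠ z` lies in `Q` then `z` lies in `g Q g⁻¹`. -/
theorem mem_conj [Finite G] (L : LargeData Q z) (g : G) (hu : g * z * g⁻¹ ∈ Q)
    (hne : g * z * g⁻¹ ≠ z) (Q' : Subgroup G) (hQ' : ∀ y, y ∈ Q' ↔ g⁻¹ * y * g ∈ Q) :
    z ∈ Q' := by
  obtain ⟨u, hudef⟩ : ∃ u, u = g * z * g⁻¹ := ⟨_, rfl⟩
  rw [← hudef] at hu hne
  have L' : LargeData Q' u := by rw [hudef]; exact L.conj g Q' hQ'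
  have hu1 : u ≠ 1 := L'.d.hz1
  have huu : u * u = 1 := L'.d.hzz
  have hzu : z * u = u * z := L.d.zu_comm hu
  have hzi : z⁻¹ = z := L.d.z_inv
  have hui : u⁻¹ = u := L'.d.z_inv
  have hzz := L.d.hzz
  have huQ' : u ∈ Q' := L'.d.hzQ
  obtain ⟨q, hq, hqu⟩ := L.d.exists_conj_eq hu hu1 hne
  have hqz : q * z = z * q := L.z_comm hq
  by_contra hzQ'
  -- `Q ∩ Q' ⊆ {1, u}`
  have hE : ∀ e ∈ Q, e ∈ Q' → e = 1 ∨ e = u := by
    intro e he he'
    have h1 : ∀ a ∈ Q, a * u = u * a → e * a = a * e := by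
      intro a ha hau
      rcases L.d.hk e he a ha with h | h
      · calc e * a = (e * a * e⁻¹ * a⁻¹) * (a * e) := by group
          _ = a * e := by rw [h, one_mul]
      · exfalso
        apply hzQ'
        rw [← h]
        have h2 : a * e⁻¹ * a⁻¹ ∈ Q' := L'.hN a hau _ (Q'.inv_mem he')
        have e3 : e * a * e⁻¹ * a⁻¹ = e * (a * e⁻¹ * a⁻¹) := by group
        rw [e3]; exact Q'.mul_mem he' h2
    rcases L.d.cent_cent hu hu1 hne huu he h1 with h | h | h | h
    · exact Or.inl h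
    · exact absurd (h ▸ he') hzQ'
    · exact Or.inr h
    · exfalso
      apply hzQ'
      have e1 : z = e * u := by
        rw [h]
        calc z = z * (u * u) := by rw [huu, mul_one]
          _ = z * u * u := by group
      rw [e1]; exact Q'.mul_mem he' huQ'
  by_cases hA : ∃ x ∈ Q', x * z * x⁻¹ = z * u
  · -- Case A
    obtain ⟨x, hx, hxz⟩ := hA
    have hxu : x * u = u * x := (L'.d.hzc x hx).symm
    have hxz' : x⁻¹ * z * x = z * u := by
      have e1 : x⁻¹ * (z * u) * x = z := by rw [← hxz]; group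
      have e2 : x⁻¹ * (z * u) * x = (x⁻¹ * z * x) * u := by
        calc x⁻¹ * (z * u) * x = x⁻¹ * z * (u * x) := by group
          _ = x⁻¹ * z * (x * u) := by rw [hxu]
          _ = (x⁻¹ * z * x) * u := by group
      calc x⁻¹ * z * x = ((x⁻¹ * z * x) * u) * u⁻¹ := by group
        _ = z * u := by rw [← e2, e1, hui]
    obtain ⟨s, hs⟩ : ∃ s, s = x * q * x⁻¹ := ⟨_, rfl⟩
    have hsz : s * z * s⁻¹ = u := by
      have e1 : q * (z * u) * q⁻¹ = u := by
        calc q * (z * u) * q⁻¹ = (q * z) * (u * q⁻¹) := by group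
          _ = (z * q) * (u * q⁻¹) := by rw [hqz]
          _ = z * (q * u * q⁻¹) := by group
          _ = z * (z * u) := by rw [hqu]
          _ = (z * z) * u := by group
          _ = u := by rw [hzz, one_mul]
      calc s * z * s⁻¹ = x * (q * (x⁻¹ * z * x) * q⁻¹) * x⁻¹ := by rw [hs]; group
        _ = x * (q * (z * u) * q⁻¹) * x⁻¹ := by rw [hxz']
        _ = x * u * x⁻¹ := by rw [e1]
        _ = (u * x) * x⁻¹ := by rw [hxu]
        _ = u := by group
    have hsu : s * u * s⁻¹ = z := by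
      have e0 : x⁻¹ * u * x = u := by
        calc x⁻¹ * u * x = x⁻¹ * (u * x) := by group
          _ = x⁻¹ * (x * u) := by rw [hxu]
          _ = u := by group
      calc s * u * s⁻¹ = x * (q * (x⁻¹ * u * x) * q⁻¹) * x⁻¹ := by rw [hs]; group
        _ = x * (q * u * q⁻¹) * x⁻¹ := by rw [e0]
        _ = x * (z * u) * x⁻¹ := by rw [hqu]
        _ = (x * z * x⁻¹) * (x * u) * x⁻¹ := by group
        _ = (z * u) * (u * x) * x⁻¹ := by rw [hxz, hxu]
        _ = z * (u * u) := by group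
        _ = z := by rw [huu, mul_one]
    have hh : (g⁻¹ * s) * z = z * (g⁻¹ * s) := by
      have e1 : (g⁻¹ * s) * z * (g⁻¹ * s)⁻¹ = z := by
        calc (g⁻¹ * s) * z * (g⁻¹ * s)⁻¹ = g⁻¹ * (s * z * s⁻¹) * g := by group
          _ = g⁻¹ * u * g := by rw [hsz]
          _ = z := by rw [hudef]; group
      calc (g⁻¹ * s) * z = ((g⁻¹ * s) * z * (g⁻¹ * s)⁻¹) * (g⁻¹ * s) := by group
        _ = z * (g⁻¹ * s) := by rw [e1]
    apply hzQ'
    rw [hQ', ← hsu]
    have e2 : g⁻¹ * (s * u * s⁻¹) * g = (g⁻¹ * s) * u * (g⁻¹ * s)⁻¹ := by group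
    rw [e2]
    exact L.hN _ hh u hu
  · -- Case B
    push Not at hA
    have hzQ'norm : ∀ x ∈ Q', z * x * z⁻¹ ∈ Q' := fun x hx => L'.hN z hzu x hx
    have hB0 : ∀ x ∈ Q', z * x * z⁻¹ * x⁻¹ ≠ u := by
      intro x hx h
      apply hA x hx
      have e1 : x * z⁻¹ * x⁻¹ = z⁻¹ * u := by
        calc x * z⁻¹ * x⁻¹ = z⁻¹ * (z * x * z⁻¹ * x⁻¹) := by group
          _ = z⁻¹ * u := by rw [h]
      rw [hzi] at e1
      exact e1
    have hB1 : ∀ x ∈ Q', (z * x * z⁻¹ * x⁻¹) * z = z * (z * x * z⁻¹ * x⁻¹) := by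
      intro x hx
      obtain ⟨y, hy⟩ : ∃ y, y = z * x * z⁻¹ * x⁻¹ := ⟨_, rfl⟩
      rw [← hy]
      have hyQ' : y ∈ Q' := by rw [hy]; exact Q'.mul_mem (hzQ'norm x hx) (Q'.inv_mem hx)
      have e1 : z * y * z⁻¹ = y⁻¹ := by
        calc z * y * z⁻¹ = (z * z) * (x * z⁻¹ * x⁻¹ * z⁻¹) := by rw [hy]; group
          _ = x * z⁻¹ * x⁻¹ * z⁻¹ := by rw [hzz, one_mul]
          _ = x * z * x⁻¹ * z⁻¹ := by rw [hzi]
          _ = y⁻¹ := by rw [hy]; group
      have e2 : z * y * z⁻¹ * y⁻¹ = (y * y)⁻¹ := by rw [e1]; group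
      have e3 : y * y = 1 := by
        rcases L'.d.sq_mem hyQ' with h | h
        · exact h
        · exfalso
          apply hB0 y hyQ'
          rw [e2, h, hui]
      rw [e3, inv_one] at e2
      calc y * z = (z * y * z⁻¹ * y⁻¹)⁻¹ * (z * y) := by group
        _ = z * y := by rw [e2]; group
    -- elements of `C_Q(u)` normalize `Q'`
    have hDn : ∀ a ∈ Q, a * u = u * a → ∀ x ∈ Q', a * x * a⁻¹ ∈ Q' :=
      fun a _ hau x hx => L'.hN a hau x hx
    have hB3 : ∀ a ∈ Q, a * u = u * a → ∀ y ∈ Q', y * z = z * y → ModU u (a * y * a⁻¹) y := by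
      intro a ha hau y hy hyz
      have h1 : a * y * a⁻¹ * y⁻¹ ∈ Q' := Q'.mul_mem (hDn a ha hau y hy) (Q'.inv_mem hy)
      have h2 : a * y * a⁻¹ * y⁻¹ ∈ Q := by
        have e1 : a * y * a⁻¹ * y⁻¹ = a * (y * a⁻¹ * y⁻¹) := by group
        rw [e1]
        exact Q.mul_mem ha (L.hN y hyz _ (Q.inv_mem ha))
      rcases hE _ h2 h1 with h | h
      · left
        calc a * y * a⁻¹ = (a * y * a⁻¹ * y⁻¹) * y := by group
          _ = y := by rw [h, one_mul]
      · right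
        calc a * y * a⁻¹ = (a * y * a⁻¹ * y⁻¹) * y := by group
          _ = u * y := by rw [h]
    have hB2 : ∀ a ∈ Q, a * u = u * a → ∀ x ∈ Q',
        (a * x * a⁻¹ * x⁻¹) * z = z * (a * x * a⁻¹ * x⁻¹) := by
      intro a ha hau x hx
      have haz : a * z = z * a := L.z_comm ha
      obtain ⟨y, hy⟩ : ∃ y, y = z * x * z⁻¹ * x⁻¹ := ⟨_, rfl⟩
      have hyQ' : y ∈ Q' := by rw [hy]; exact Q'.mul_mem (hzQ'norm x hx) (Q'.inv_mem hx)
      have hyz : y * z = z * y := by rw [hy]; exact hB1 x hx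
      obtain ⟨c, hc⟩ : ∃ c, c = a * x * a⁻¹ * x⁻¹ := ⟨_, rfl⟩
      rw [← hc]
      have hcQ' : c ∈ Q' := by rw [hc]; exact Q'.mul_mem (hDn a ha hau x hx) (Q'.inv_mem hx)
      have hzaz : z * a * z⁻¹ = a := by
        calc z * a * z⁻¹ = (z * a) * z⁻¹ := by group
          _ = (a * z) * z⁻¹ := by rw [haz]
          _ = a := by group
      have hzxz : z * x * z⁻¹ = y * x := by rw [hy]; group
      have e1 : z * c * z⁻¹ * c⁻¹ =
          (a * y * a⁻¹ * y⁻¹) * (y * c * y⁻¹ * c⁻¹) := by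
        have e2 : z * c * z⁻¹ =
            (z * a * z⁻¹) * (z * x * z⁻¹) * (z * a * z⁻¹)⁻¹ * (z * x * z⁻¹)⁻¹ := by
          rw [hc]; group
        rw [e2, hzaz, hzxz, hc]; group
      have h3 : z * c * z⁻¹ * c⁻¹ = 1 := by
        have hne' := hB0 c hcQ'
        rw [e1] at hne' ⊢
        have hm := hB3 a ha hau y hyQ' hyz
        have hf := L'.d.hk y hyQ' c hcQ'
        have he : a * y * a⁻¹ * y⁻¹ = 1 ∨ a * y * a⁻¹ * y⁻¹ = u := by
          rcases hm with h | h
          · left; rw [h]; group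
          · right; rw [h]; group
        rcases he with he | he <;> rcases hf with hf | hf
        · rw [he, hf, one_mul]
        · rw [he, hf, one_mul] at hne'; exact absurd rfl hne'
        · rw [he, hf, mul_one] at hne'; exact absurd rfl hne'
        · rw [he, hf, huu]
      calc c * z = (z * c * z⁻¹ * c⁻¹)⁻¹ * (z * c) := by group
        _ = z * c := by rw [h3]; group
    have hkey : ∀ a ∈ Q, a * u = u * a → ∀ b ∈ Q, b * u = u * b → ∀ x ∈ Q',
        ModU u ((a * b) * x * (a * b)⁻¹) ((b * a) * x * (b * a)⁻¹) := by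
      intro a ha hau b hb hbu x hx
      obtain ⟨c₁, hc₁⟩ : ∃ c, c = b * x * b⁻¹ * x⁻¹ := ⟨_, rfl⟩
      obtain ⟨c₂, hc₂⟩ : ∃ c, c = a * x * a⁻¹ * x⁻¹ := ⟨_, rfl⟩
      have hc₁Q' : c₁ ∈ Q' := by
        rw [hc₁]; exact Q'.mul_mem (hDn b hb hbu x hx) (Q'.inv_mem hx)
      have hc₂Q' : c₂ ∈ Q' := by
        rw [hc₂]; exact Q'.mul_mem (hDn a ha hau x hx) (Q'.inv_mem hx)
      have hc₁z : c₁ * z = z * c₁ := by rw [hc₁]; exact hB2 b hb hbu x hx
      have hc₂z : c₂ * z = z * c₂ := by rw [hc₂]; exact hB2 a ha hau x hx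
      have e1 : (a * b) * x * (a * b)⁻¹ = (a * c₁ * a⁻¹) * (c₂ * x) := by
        rw [hc₁, hc₂]; group
      have e2 : (b * a) * x * (b * a)⁻¹ = (b * c₂ * b⁻¹) * (c₁ * x) := by
        rw [hc₁, hc₂]; group
      rw [e1, e2]
      have m1 : ModU u ((a * c₁ * a⁻¹) * (c₂ * x)) (c₁ * (c₂ * x)) :=
        (hB3 a ha hau c₁ hc₁Q' hc₁z).mul_right _
      have m2 : ModU u (c₁ * (c₂ * x)) (c₂ * (c₁ * x)) := by
        have h0 : ModU u (c₁ * c₂) (c₂ * c₁) := L'.d.comm_iff hc₁Q' hc₂Q'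
        have h00 := h0.mul_right x
        rw [mul_assoc, mul_assoc] at h00
        exact h00
      have m3 : ModU u (c₂ * (c₁ * x)) ((b * c₂ * b⁻¹) * (c₁ * x)) :=
        ((hB3 b hb hbu c₂ hc₂Q' hc₂z).symm huu).mul_right _
      exact (m1.trans huu m2).trans huu m3
    obtain ⟨a, ha, b, hb, hau, hbu, hab⟩ := L.d.exists_comm_eq_z hu hu1 hne huu L.hcard
    have hcent : ∀ x ∈ Q', z * x = x * z := by
      intro x hx
      have hai : a⁻¹ * u = u * a⁻¹ := by
        calc a⁻¹ * u = a⁻¹ * (u * a) * a⁻¹ := by group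
          _ = a⁻¹ * (a * u) * a⁻¹ := by rw [hau]
          _ = u * a⁻¹ := by group
      have hbi : b⁻¹ * u = u * b⁻¹ := by
        calc b⁻¹ * u = b⁻¹ * (u * b) * b⁻¹ := by group
          _ = b⁻¹ * (b * u) * b⁻¹ := by rw [hbu]
          _ = u * b⁻¹ := by group
      have hx' : (b * a)⁻¹ * x * (b * a) ∈ Q' := by
        have h1 := hDn b⁻¹ (Q.inv_mem hb) hbi x hx
        have h2 := hDn a⁻¹ (Q.inv_mem ha) hai _ h1
        have e : (b * a)⁻¹ * x * (b * a) = a⁻¹ * (b⁻¹ * x * b⁻¹⁻¹) * a⁻¹⁻¹ := by group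
        rw [e]; exact h2
      have hm := hkey a ha hau b hb hbu _ hx'
      have e1 : (a * b) * ((b * a)⁻¹ * x * (b * a)) * (a * b)⁻¹ = z * x * z⁻¹ := by
        rw [← hab]; group
      have e2 : (b * a) * ((b * a)⁻¹ * x * (b * a)) * (b * a)⁻¹ = x := by group
      rw [e1, e2] at hm
      rcases hm with h | h
      · calc z * x = (z * x * z⁻¹) * z := by group
          _ = x * z := by rw [h]
      · exfalso
        apply hB0 x hx
        rw [h]; group
    rcases L'.hC z hcent with h | h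
    · exact L.d.hz1 h
    · exact hne h.symm

end LargeData

end Cfsg.Agent.Lib.Helper30
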