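import Mathlib
import Cfsg.Agent.Lib.Helper30.LargeExtra3

/-!
Large extraspecial 2-subgroups, part 4: the symmetric pair `(Q₁, z)`, `(Q₂, u)` with `u ∈ Q₁`,
`z ∈ Q₂`, and the structure of `R = C_{Q₂}(z) C_{Q₁}(u)`.
-/

set_option autoImplicit false

namespace Cfsg.Agent.Lib.Helper30

open scoped commutatorElement

variable {G : Type*} [Group G]

theorem mem_normalizer_of_conj_mem {N : Subgroup G} {c : G} (h1 : ∀ n ∈ N, c * n * c⁻¹ ∈ N)
    (h2 : ∀ n ∈ N, c⁻¹ * n * c ∈ N) : c ∈ Subgroup.normalizer (N : Set G) := by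
  rw [Subgroup.mem_normalizer_iff]
  intro n
  constructor
  · intro hn; exact h1 n hn
  · intro hn
    have h3 := h2 _ hn
    have e : c⁻¹ * (c * n * c⁻¹) * c = n := by group
    rw [e] at h3
    exact h3

/-- Commutators of a generated subgroup with a set. -/
theorem comm_mem_closure_left (N : Subgroup G) (S T : Set G)
    (hS : S ⊆ (Subgroup.normalizer (N : Set G) : Set G))
    (h : ∀ s ∈ S, ∀ t ∈ T, s * t * s⁻¹ * t⁻¹ ∈ N) :
    ∀ x ∈ Subgroup.closure S, ∀ t ∈ T, x * t * x⁻¹ * t⁻¹ ∈ N := by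
  intro x hx
  have key : x ∈ Subgroup.normalizer (N : Set G) ∧ ∀ t ∈ T, x * t * x⁻¹ * t⁻¹ ∈ N := by
    induction hx using Subgroup.closure_induction with
    | mem s hs => exact ⟨hS hs, h s hs⟩
    | one =>
      refine ⟨Subgroup.one_mem _, fun t _ => ?_⟩
      have e : (1 : G) * t * 1⁻¹ * t⁻¹ = 1 := by group
      rw [e]; exact N.one_mem
    | mul x y _ _ hx hy =>
      refine ⟨Subgroup.mul_mem _ hx.1 hy.1, fun t ht => ?_⟩
      have e : x * y * t * (x * y)⁻¹ * t⁻¹ =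
          x * (y * t * y⁻¹ * t⁻¹) * x⁻¹ * (x * t * x⁻¹ * t⁻¹) := by group
      rw [e]
      exact N.mul_mem ((Subgroup.mem_normalizer_iff.1 hx.1 _).1 (hy.2 t ht)) (hx.2 t ht)
    | inv x _ hx =>
      refine ⟨Subgroup.inv_mem _ hx.1, fun t ht => ?_⟩
      have e : x⁻¹ * t * x⁻¹⁻¹ * t⁻¹ = x⁻¹ * (x * t * x⁻¹ * t⁻¹)⁻¹ * x⁻¹⁻¹ := by group
      rw [e]
      exact (Subgroup.mem_normalizer_iff.1 (Subgroup.inv_mem _ hx.1) _).1
        (N.inv_mem (hx.2 t ht))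
  exact key.2

/-- Commutators of two generated subgroups. -/
theorem comm_mem_closure (N : Subgroup G) (S T : Set G)
    (hS : S ⊆ (Subgroup.normalizer (N : Set G) : Set G))
    (hT : T ⊆ (Subgroup.normalizer (N : Set G) : Set G))
    (h : ∀ s ∈ S, ∀ t ∈ T, s * t * s⁻¹ * t⁻¹ ∈ N) :
    ∀ x ∈ Subgroup.closure S, ∀ y ∈ Subgroup.closure T, x * y * x⁻¹ * y⁻¹ ∈ N := by
  intro x hx y hy
  have h1 := comm_mem_closure_left N S T hS h
  have h2 := comm_mem_closure_left N T (Subgroup.closure S : Set G) hT (by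
    intro t ht x hx
    have e : t * x * t⁻¹ * x⁻¹ = (x * t * x⁻¹ * t⁻¹)⁻¹ := by group
    rw [e]; exact N.inv_mem (h1 x hx t ht))
  have e : x * y * x⁻¹ * y⁻¹ = (y * x * y⁻¹ * x⁻¹)⁻¹ := by group
  rw [e]; exact N.inv_mem (h2 y hy x hx)

/-- Squares in a generated subgroup. -/
theorem sq_mem_closure (N : Subgroup G) (S : Set G)
    (hc : ∀ x ∈ Subgroup.closure S, ∀ y ∈ Subgroup.closure S, x * y * x⁻¹ * y⁻¹ ∈ N)
    (hs : ∀ s ∈ S, s * s ∈ N) : ∀ x ∈ Subgroup.closure S, x * x ∈ N := by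
  intro x hx
  induction hx using Subgroup.closure_induction with
  | mem s hs' => exact hs s hs'
  | one => rw [one_mul]; exact N.one_mem
  | mul x y hx hy ihx ihy =>
    have e : x * y * (x * y) = (x * x) * (x⁻¹ * y * x⁻¹⁻¹ * y⁻¹) * (y * y) := by group
    rw [e]
    exact N.mul_mem (N.mul_mem ihx (hc _ (Subgroup.inv_mem _ hx) _ hy)) ihy
  | inv x hx ihx =>
    have e : x⁻¹ * x⁻¹ = (x * x)⁻¹ := by group
    rw [e]; exact N.inv_mem ihx

theorem mem_cent_sing {z c : G} : c ∈ Subgroup.centralizer ({z} : Set G) ↔ c * z = z * c := by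
  rw [Subgroup.mem_centralizer_iff]
  constructor
  · intro h; exact (h z rfl).symm
  · intro h k hk
    rw [Set.mem_singleton_iff] at hk
    rw [hk]; exact h.symm

theorem mem_cent_closure_pair {z u c : G} :
    c ∈ Subgroup.centralizer ((Subgroup.closure ({z, u} : Set G) : Subgroup G) : Set G) ↔
      c * z = z * c ∧ c * u = u * c := by
  constructor
  · intro h
    rw [Subgroup.mem_centralizer_iff] at h
    exact ⟨(h z (Subgroup.subset_closure (by simp))).symm,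
      (h u (Subgroup.subset_closure (by simp))).symm⟩
  · rintro ⟨h1, h2⟩
    rw [Subgroup.mem_centralizer_iff]
    intro v hv
    have hle : Subgroup.closure ({z, u} : Set G) ≤ Subgroup.centralizer ({c} : Set G) := by
      rw [Subgroup.closure_le]
      intro w hw
      rw [SetLike.mem_coe, Subgroup.mem_centralizer_iff]
      intro k hk
      rw [Set.mem_singleton_iff] at hk
      rw [hk]
      rcases hw with rfl | rfl
      · exact h1
      · exact h2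
    have h3 := Subgroup.mem_centralizer_iff.1 (hle hv) c rfl
    exact h3.symm

/-- The symmetric pair of large extraspecial subgroups. -/
structure LargePair (Q₁ Q₂ : Subgroup G) (z u : G) : Prop where
  L₁ : LargeData Q₁ z
  L₂ : LargeData Q₂ u
  hu : u ∈ Q₁
  hz : z ∈ Q₂
  hne : z ≠ u
  hconj : ∃ g : G, g * z * g⁻¹ = u ∧ ∀ y, y ∈ Q₂ ↔ g⁻¹ * y * g ∈ Q₁

theorem LargePair.of_conj [Finite G] {Q : Subgroup G} {z : G} (L : LargeData Q z) (g : G)
    (hu : g * z * g⁻¹ ∈ Q) (hne : g * z * g⁻¹ ≠ z) (Q' : Subgroup G)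
    (hQ' : ∀ y, y ∈ Q' ↔ g⁻¹ * y * g ∈ Q) : LargePair Q Q' z (g * z * g⁻¹) :=
  ⟨L, L.conj g Q' hQ', hu, L.mem_conj g hu hne Q' hQ', fun h => hne h.symm, g, rfl, hQ'⟩

namespace LargePair

variable {Q₁ Q₂ : Subgroup G} {z u : G}

theorem symm (P : LargePair Q₁ Q₂ z u) : LargePair Q₂ Q₁ u z := by
  obtain ⟨g, hg, hQ⟩ := P.hconj
  refine ⟨P.L₂, P.L₁, P.hz, P.hu, fun h => P.hne h.symm, g⁻¹, ?_, ?_⟩
  · rw [← hg]; group
  · intro y
    rw [hQ]
    have e : g⁻¹ * (g⁻¹⁻¹ * y * g⁻¹) * g = y := by group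
    rw [e]

variable (P : LargePair Q₁ Q₂ z u)
include P

theorem zz : z * z = 1 := P.L₁.d.hzz
theorem uu : u * u = 1 := P.L₂.d.hzz
theorem z1 : z ≠ 1 := P.L₁.d.hz1
theorem u1 : u ≠ 1 := P.L₂.d.hz1
theorem zu : z * u = u * z := P.L₁.d.zu_comm P.hu
theorem zi : z⁻¹ = z := P.L₁.d.z_inv
theorem ui : u⁻¹ = u := P.L₂.d.z_inv

theorem mem_V {v : G} :
    v ∈ Subgroup.closure ({z, u} : Set G) ↔ v = 1 ∨ v = z ∨ v = u ∨ v = z * u := by
  rw [closure_pair_eq_fourGroup P.zz P.uu P.zu]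
  exact Iff.rfl

theorem comm_mem_E {a y : G} (ha : a ∈ Q₁) (hau : a * u = u * a) (hy : y ∈ Q₂)
    (hyz : y * z = z * y) : a * y * a⁻¹ * y⁻¹ ∈ Q₁ ⊓ Q₂ := by
  refine Subgroup.mem_inf.2 ⟨?_, ?_⟩
  · have e1 : a * y * a⁻¹ * y⁻¹ = a * (y * a⁻¹ * y⁻¹) := by group
    rw [e1]
    exact Q₁.mul_mem ha (P.L₁.hN y hyz _ (Q₁.inv_mem ha))
  · exact Q₂.mul_mem (P.L₂.hN a hau y hy) (Q₂.inv_mem hy)

theorem E_sq {e : G} (he : e ∈ Q₁ ⊓ Q₂) : e * e = 1 := by
  rcases P.L₁.d.sq_mem he.1 with h | h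
  · exact h
  · rcases P.L₂.d.sq_mem he.2 with h' | h'
    · exact h'
    · exact absurd (h.symm.trans h') P.hne

theorem E_comm {e e' : G} (he : e ∈ Q₁ ⊓ Q₂) (he' : e' ∈ Q₁ ⊓ Q₂) : e * e' = e' * e := by
  have h0 : e * e' * e⁻¹ * e'⁻¹ = 1 := by
    rcases P.L₁.d.hk e he.1 e' he'.1 with h | h
    · exact h
    · rcases P.L₂.d.hk e he.2 e' he'.2 with h' | h'
      · exact h'
      · exact absurd (h.symm.trans h') P.hne
  calc e * e' = (e * e' * e⁻¹ * e'⁻¹) * (e' * e) := by group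
    _ = e' * e := by rw [h0, one_mul]

theorem E_norm {c e : G} (hcz : c * z = z * c) (hcu : c * u = u * c) (he : e ∈ Q₁ ⊓ Q₂) :
    c * e * c⁻¹ ∈ Q₁ ⊓ Q₂ :=
  Subgroup.mem_inf.2 ⟨P.L₁.hN c hcz e he.1, P.L₂.hN c hcu e he.2⟩

theorem V_le_E : Subgroup.closure ({z, u} : Set G) ≤ Q₁ ⊓ Q₂ := by
  rw [Subgroup.closure_le]
  intro v hv
  rcases hv with rfl | rfl
  · exact Subgroup.mem_inf.2 ⟨P.L₁.d.hzQ, P.hz⟩
  · exact Subgroup.mem_inf.2 ⟨P.hu, P.L₂.d.hzQ⟩

theorem E_cent {e : G} (he : e ∈ Q₁ ⊓ Q₂) : e * z = z * e ∧ e * u = u * e :=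
  ⟨P.L₁.z_comm he.1, P.L₂.z_comm he.2⟩

theorem R_cent {r : G}
    (hr : r ∈ (Q₂ ⊓ Subgroup.centralizer ({z} : Set G)) ⊔
      (Q₁ ⊓ Subgroup.centralizer ({u} : Set G))) : r * z = z * r ∧ r * u = u * r := by
  have hle : (Q₂ ⊓ Subgroup.centralizer ({z} : Set G)) ⊔
      (Q₁ ⊓ Subgroup.centralizer ({u} : Set G)) ≤
      Subgroup.centralizer ({z} : Set G) ⊓ Subgroup.centralizer ({u} : Set G) := by
    apply sup_le
    · intro y hy
      exact Subgroup.mem_inf.2 ⟨hy.2, mem_cent_sing.2 (P.L₂.z_comm hy.1)⟩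
    · intro a ha
      exact Subgroup.mem_inf.2 ⟨mem_cent_sing.2 (P.L₁.z_comm ha.1), ha.2⟩
  have h := hle hr
  exact ⟨mem_cent_sing.1 h.1, mem_cent_sing.1 h.2⟩

theorem E_le_R : Q₁ ⊓ Q₂ ≤ (Q₂ ⊓ Subgroup.centralizer ({z} : Set G)) ⊔
      (Q₁ ⊓ Subgroup.centralizer ({u} : Set G)) := by
  intro e he
  exact Subgroup.mem_sup_right (Subgroup.mem_inf.2 ⟨he.1, mem_cent_sing.2 (P.E_cent he).2⟩)

omit P in
theorem inv_comm {c v : G} (h : c * v = v * c) : c⁻¹ * v = v * c⁻¹ := by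
  calc c⁻¹ * v = c⁻¹ * (v * c) * c⁻¹ := by group
    _ = c⁻¹ * (c * v) * c⁻¹ := by rw [h]
    _ = v * c⁻¹ := by group

theorem cent_le_normalizer_E {c : G} (hcz : c * z = z * c) (hcu : c * u = u * c) :
    c ∈ Subgroup.normalizer ((Q₁ ⊓ Q₂ : Subgroup G) : Set G) := by
  apply mem_normalizer_of_conj_mem
  · intro e he; exact P.E_norm hcz hcu he
  · intro e he
    have h := P.E_norm (inv_comm hcz) (inv_comm hcu) he
    rw [inv_inv] at h
    exact h

/-- `R / E` is abelian. -/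
theorem R_comm {x y : G}
    (hx : x ∈ (Q₂ ⊓ Subgroup.centralizer ({z} : Set G)) ⊔
      (Q₁ ⊓ Subgroup.centralizer ({u} : Set G)))
    (hy : y ∈ (Q₂ ⊓ Subgroup.centralizer ({z} : Set G)) ⊔
      (Q₁ ⊓ Subgroup.centralizer ({u} : Set G))) : x * y * x⁻¹ * y⁻¹ ∈ Q₁ ⊓ Q₂ := by
  have hcl : (Q₂ ⊓ Subgroup.centralizer ({z} : Set G)) ⊔
      (Q₁ ⊓ Subgroup.centralizer ({u} : Set G)) =
      Subgroup.closure (((Q₂ ⊓ Subgroup.centralizer ({z} : Set G) : Subgroup G) : Set G) ∪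
        ((Q₁ ⊓ Subgroup.centralizer ({u} : Set G) : Subgroup G) : Set G)) := by
    rw [Subgroup.closure_union, Subgroup.closure_eq, Subgroup.closure_eq]
  rw [hcl] at hx hy
  have hVE := P.V_le_E
  have hzE : z ∈ Q₁ ⊓ Q₂ := hVE (Subgroup.subset_closure (by simp))
  have huE : u ∈ Q₁ ⊓ Q₂ := hVE (Subgroup.subset_closure (by simp))
  have hSn : (((Q₂ ⊓ Subgroup.centralizer ({z} : Set G) : Subgroup G) : Set G) ∪
        ((Q₁ ⊓ Subgroup.centralizer ({u} : Set G) : Subgroup G) : Set G)) ⊆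
      (Subgroup.normalizer ((Q₁ ⊓ Q₂ : Subgroup G) : Set G) : Set G) := by
    intro s hs
    rcases hs with hs | hs
    · exact P.cent_le_normalizer_E (mem_cent_sing.1 hs.2) (P.L₂.z_comm hs.1)
    · exact P.cent_le_normalizer_E (P.L₁.z_comm hs.1) (mem_cent_sing.1 hs.2)
  refine comm_mem_closure (Q₁ ⊓ Q₂) _ _ hSn hSn ?_ x hx y hy
  intro s hs t ht
  rcases hs with hs | hs <;> rcases ht with ht | ht
  · rcases P.L₂.d.hk s hs.1 t ht.1 with h | h
    · rw [h]; exact Subgroup.one_mem _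
    · rw [h]; exact huE
  · have h := P.comm_mem_E ht.1 (mem_cent_sing.1 ht.2) hs.1 (mem_cent_sing.1 hs.2)
    have e : s * t * s⁻¹ * t⁻¹ = (t * s * t⁻¹ * s⁻¹)⁻¹ := by group
    rw [e]; exact Subgroup.inv_mem _ h
  · exact P.comm_mem_E hs.1 (mem_cent_sing.1 hs.2) ht.1 (mem_cent_sing.1 ht.2)
  · rcases P.L₁.d.hk s hs.1 t ht.1 with h | h
    · rw [h]; exact Subgroup.one_mem _
    · rw [h]; exact hzE

/-- Squares of elements of `R` lie in `E`. -/
theorem R_sq {x : G}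
    (hx : x ∈ (Q₂ ⊓ Subgroup.centralizer ({z} : Set G)) ⊔
      (Q₁ ⊓ Subgroup.centralizer ({u} : Set G))) : x * x ∈ Q₁ ⊓ Q₂ := by
  have hcl : (Q₂ ⊓ Subgroup.centralizer ({z} : Set G)) ⊔
      (Q₁ ⊓ Subgroup.centralizer ({u} : Set G)) =
      Subgroup.closure (((Q₂ ⊓ Subgroup.centralizer ({z} : Set G) : Subgroup G) : Set G) ∪
        ((Q₁ ⊓ Subgroup.centralizer ({u} : Set G) : Subgroup G) : Set G)) := by
    rw [Subgroup.closure_union, Subgroup.closure_eq, Subgroup.closure_eq]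
  have hVE := P.V_le_E
  have hzE : z ∈ Q₁ ⊓ Q₂ := hVE (Subgroup.subset_closure (by simp))
  have huE : u ∈ Q₁ ⊓ Q₂ := hVE (Subgroup.subset_closure (by simp))
  have hx' := hx
  rw [hcl] at hx'
  refine sq_mem_closure (Q₁ ⊓ Q₂) _ ?_ ?_ x hx'
  · intro a ha b hb
    rw [← hcl] at ha hb
    exact P.R_comm ha hb
  · intro s hs
    rcases hs with hs | hs
    · rcases P.L₂.d.sq_mem hs.1 with h | h
      · rw [h]; exact Subgroup.one_mem _
      · rw [h]; exact huE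
    · rcases P.L₁.d.sq_mem hs.1 with h | h
      · rw [h]; exact Subgroup.one_mem _
      · rw [h]; exact hzE

/-- `Q₁` normalizes `V`. -/
theorem Q₁_norm_V {q v : G} (hq : q ∈ Q₁) (hv : v ∈ Subgroup.closure ({z, u} : Set G)) :
    q * v * q⁻¹ ∈ Subgroup.closure ({z, u} : Set G) := by
  have hqz : q * z * q⁻¹ = z := by
    calc q * z * q⁻¹ = (q * z) * q⁻¹ := by group
      _ = (z * q) * q⁻¹ := by rw [P.L₁.z_comm hq]
      _ = z := by group
  rw [P.mem_V] at hv ⊢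
  rcases hv with rfl | rfl | rfl | rfl
  · left; group
  · right; left; exact hqz
  · rcases P.L₁.d.conj_eq_or hq P.hu with h | h
    · right; right; left; exact h
    · right; right; right; exact h
  · have e : q * (z * u) * q⁻¹ = (q * z * q⁻¹) * (q * u * q⁻¹) := by group
    rw [e, hqz]
    rcases P.L₁.d.conj_eq_or hq P.hu with h | h
    · right; right; right; rw [h]
    · right; right; left
      rw [h, ← mul_assoc, P.zz, one_mul]

omit P in
theorem V_symm : Subgroup.closure ({u, z} : Set G) = Subgroup.closure ({z, u} : Set G) := by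
  rw [Set.pair_comm]

theorem Q₂_norm_V {q v : G} (hq : q ∈ Q₂) (hv : v ∈ Subgroup.closure ({z, u} : Set G)) :
    q * v * q⁻¹ ∈ Subgroup.closure ({z, u} : Set G) := by
  rw [← V_symm] at hv ⊢
  exact P.symm.Q₁_norm_V hq hv

/-- `[X, E] ≤ V`. -/
theorem XE_comm {x e : G} (hx : x ∈ Q₁ ⊔ Q₂) (he : e ∈ Q₁ ⊓ Q₂) :
    x * e * x⁻¹ * e⁻¹ ∈ Subgroup.closure ({z, u} : Set G) := by
  have hcl : Q₁ ⊔ Q₂ = Subgroup.closure ((Q₁ : Set G) ∪ (Q₂ : Set G)) := by
    rw [Subgroup.closure_union, Subgroup.closure_eq, Subgroup.closure_eq]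
  have hclE : Q₁ ⊓ Q₂ = Subgroup.closure (((Q₁ ⊓ Q₂ : Subgroup G) : Set G)) := by
    rw [Subgroup.closure_eq]
  rw [hcl] at hx
  rw [hclE] at he
  have hzV : z ∈ Subgroup.closure ({z, u} : Set G) := Subgroup.subset_closure (by simp)
  have huV : u ∈ Subgroup.closure ({z, u} : Set G) := Subgroup.subset_closure (by simp)
  refine comm_mem_closure (Subgroup.closure ({z, u} : Set G)) _ _ ?_ ?_ ?_ x hx e he
  · intro s hs
    rcases hs with hs | hs
    · exact mem_normalizer_of_conj_mem (fun v hv => P.Q₁_norm_V hs hv) (fun v hv => by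
        have h := P.Q₁_norm_V (Q₁.inv_mem hs) hv
        rw [inv_inv] at h; exact h)
    · exact mem_normalizer_of_conj_mem (fun v hv => P.Q₂_norm_V hs hv) (fun v hv => by
        have h := P.Q₂_norm_V (Q₂.inv_mem hs) hv
        rw [inv_inv] at h; exact h)
  · intro s hs
    have hs1 : s ∈ Q₁ := hs.1
    exact mem_normalizer_of_conj_mem (fun v hv => P.Q₁_norm_V hs1 hv) (fun v hv => by
        have h := P.Q₁_norm_V (Q₁.inv_mem hs1) hv
        rw [inv_inv] at h; exact h)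
  · intro s hs t ht
    rcases hs with hs | hs
    · rcases P.L₁.d.hk s hs t ht.1 with h | h
      · rw [h]; exact Subgroup.one_mem _
      · rw [h]; exact hzV
    · rcases P.L₂.d.hk s hs t ht.2 with h | h
      · rw [h]; exact Subgroup.one_mem _
      · rw [h]; exact huV

omit P in
theorem R_le_X : (Q₂ ⊓ Subgroup.centralizer ({z} : Set G)) ⊔
      (Q₁ ⊓ Subgroup.centralizer ({u} : Set G)) ≤ Q₁ ⊔ Q₂ :=
  sup_le (inf_le_left.trans le_sup_right) (inf_le_left.trans le_sup_left)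

/-- The centre of `R` is `V`. -/
theorem center_R [Finite G] {c : G} (hcz : c * z = z * c)
    (hcR : ∀ r ∈ (Q₂ ⊓ Subgroup.centralizer ({z} : Set G)) ⊔
      (Q₁ ⊓ Subgroup.centralizer ({u} : Set G)), c * r = r * c) :
    c ∈ Subgroup.closure ({z, u} : Set G) := by
  rw [P.mem_V]
  apply P.L₁.cent_D P.hu P.u1 (fun h => P.hne h.symm) P.uu hcz
  intro a ha hau
  exact hcR a (Subgroup.mem_sup_right (Subgroup.mem_inf.2 ⟨ha, mem_cent_sing.2 hau⟩))

/-- The structure of `R`. -/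
theorem radical_structure [Finite G] (V X R E : Subgroup G)
    (hV : V = Subgroup.closure ({z, u} : Set G)) (hX : X = Q₁ ⊔ Q₂)
    (hR : R = (Q₂ ⊓ Subgroup.centralizer ({z} : Set G)) ⊔
      (Q₁ ⊓ Subgroup.centralizer ({u} : Set G)))
    (hE : E = Q₁ ⊓ Q₂) :
    (Subgroup.center ↥R).map R.subtype = V ∧
    E ≤ (Subgroup.upperCentralSeries ↥R 2).map R.subtype ∧
    Subgroup.upperCentralSeries ↥R 3 = ⊤ ∧
    Cfsg.IsElementaryAbelian 2 E ∧
    (∀ x ∈ R, ∀ y ∈ R, x * y * x⁻¹ * y⁻¹ ∈ E ∧ x ^ 2 ∈ E) ∧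
    (Q₂ ⊓ Subgroup.centralizer ({z} : Set G)) ⊓ (Q₁ ⊓ Subgroup.centralizer ({u} : Set G)) = E ∧
    ⁅X, E⁆ ≤ V := by
  have hER : E ≤ R := by rw [hE, hR]; exact P.E_le_R
  have hVE : V ≤ E := by rw [hV, hE]; exact P.V_le_E
  have hRc : ∀ r ∈ R, r * z = z * r ∧ r * u = u * r := by
    intro r hr; rw [hR] at hr; exact P.R_cent hr
  have hRX : R ≤ X := by rw [hR, hX]; exact R_le_X
  -- the centre
  have hcenter : (Subgroup.center ↥R).map R.subtype = V := by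
    ext v
    constructor
    · rintro ⟨r, hr, rfl⟩
      rw [hV]
      apply P.center_R (hRc _ r.2).1
      intro r' hr'
      rw [← hR] at hr'
      have h := Subgroup.mem_center_iff.1 hr ⟨r', hr'⟩
      exact (congrArg Subtype.val h).symm
    · intro hv
      refine ⟨⟨v, hER (hVE hv)⟩, Subgroup.mem_center_iff.2 ?_, rfl⟩
      intro r
      apply Subtype.ext
      show (r : G) * v = v * (r : G)
      have hc : (r : G) ∈ Subgroup.centralizer ((Subgroup.closure ({z, u} : Set G) : Subgroup G)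
          : Set G) := mem_cent_closure_pair.2 (hRc _ r.2)
      rw [hV] at hv
      exact (Subgroup.mem_centralizer_iff.1 hc v hv).symm
  have hcomm : ∀ x ∈ R, ∀ y ∈ R, x * y * x⁻¹ * y⁻¹ ∈ E := by
    intro x hx y hy
    rw [hR] at hx hy; rw [hE]; exact P.R_comm hx hy
  have hXE : ∀ x ∈ X, ∀ e ∈ E, x * e * x⁻¹ * e⁻¹ ∈ V := by
    intro x hx e he
    rw [hX] at hx; rw [hE] at he; rw [hV]; exact P.XE_comm hx he
  -- `E ≤ Z₂(R)`
  have hZ2 : ∀ e (he : e ∈ E), (⟨e, hER he⟩ : ↥R) ∈ Subgroup.upperCentralSeries ↥R 2 := by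
    intro e he
    rw [Subgroup.mem_upperCentralSeries_succ_iff]
    intro y
    rw [Subgroup.upperCentralSeries_one]
    have h1 : e * (y : G) * e⁻¹ * (y : G)⁻¹ ∈ V := by
      have h2 := hXE (y : G) (hRX y.2) e he
      have e2 : e * (y : G) * e⁻¹ * (y : G)⁻¹ = ((y : G) * e * (y : G)⁻¹ * e⁻¹)⁻¹ := by group
      rw [e2]; exact V.inv_mem h2
    rw [← hcenter] at h1
    obtain ⟨c, hc, hc'⟩ := h1
    have h3 : c = ⁅(⟨e, hER he⟩ : ↥R), y⁆ := by
      apply Subtype.ext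
      rw [commutatorElement_def]
      exact hc'
    rw [← h3]; exact hc
  refine ⟨hcenter, ?_, ?_, ?_, ?_, ?_, ?_⟩
  · intro e he
    exact ⟨⟨e, hER he⟩, hZ2 e he, rfl⟩
  · rw [eq_top_iff]
    intro x _
    rw [Subgroup.mem_upperCentralSeries_succ_iff]
    intro y
    have h1 := hcomm (x : G) x.2 (y : G) y.2
    have h2 := hZ2 _ h1
    have h3 : (⟨(x : G) * (y : G) * (x : G)⁻¹ * (y : G)⁻¹, hER h1⟩ : ↥R) = ⁅x, y⁆ := by
      apply Subtype.ext
      rw [commutatorElement_def]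
      rfl
    rw [← h3]; exact h2
  · refine ⟨⟨⟨fun a b => ?_⟩⟩, ?_⟩
    · apply Subtype.ext
      have ha : (a : G) ∈ Q₁ ⊓ Q₂ := by rw [← hE]; exact a.2
      have hb : (b : G) ∈ Q₁ ⊓ Q₂ := by rw [← hE]; exact b.2
      exact P.E_comm ha hb
    · intro a ha
      rw [hE] at ha
      rw [pow_two]; exact P.E_sq ha
  · intro x hx y hy
    refine ⟨hcomm x hx y hy, ?_⟩
    rw [hR] at hx; rw [hE, pow_two]; exact P.R_sq hx
  · rw [hE]
    apply le_antisymm
    · intro e he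
      exact Subgroup.mem_inf.2 ⟨he.2.1, he.1.1⟩
    · intro e he
      have hc := P.E_cent he
      exact Subgroup.mem_inf.2 ⟨Subgroup.mem_inf.2 ⟨he.2, mem_cent_sing.2 hc.1⟩,
        Subgroup.mem_inf.2 ⟨he.1, mem_cent_sing.2 hc.2⟩⟩
  · rw [Subgroup.commutator_le]
    intro x hx e he
    rw [commutatorElement_def]
    exact hXE x hx e he

end LargePair

end Cfsg.Agent.Lib.Helper30
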