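import Mathlib
import Cfsg.Prelude.Def_MonsterType
import Cfsg.Agent.Lib.Helper30.LargeExtra4

/-!
Large extraspecial 2-subgroups, part 5: `Cfsg.IsLargeExtraspecial` gives `LargeData`.
-/

set_option autoImplicit false

namespace Cfsg.Agent.Lib.Helper30

open scoped commutatorElement

variable {G : Type*} [Group G]

theorem largeData_of_isLargeExtraspecial (Q : Subgroup G)
    (hQ : Cfsg.IsLargeExtraspecial Q) (z : G)
    (hz : (Subgroup.center ↥Q).map Q.subtype = Subgroup.zpowers z) (hz2 : orderOf z = 2)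
    (w : ℕ) (hw : 2 ≤ w) (hcard : Nat.card ↥Q = 2 ^ (2 * w + 1)) : LargeData Q z := by
  obtain ⟨hE, hcent, hnorm, -⟩ := hQ
  obtain ⟨⟨-, -, hcomm⟩, -⟩ := hE
  have hzz : z * z = 1 := by
    have h := pow_orderOf_eq_one z
    rw [hz2, pow_two] at h
    exact h
  have hz1 : z ≠ 1 := by
    intro h
    rw [h, orderOf_one] at hz2
    norm_num at hz2
  have hzmem : z ∈ (Subgroup.center ↥Q).map Q.subtype := by
    rw [hz]; exact Subgroup.mem_zpowers z
  obtain ⟨ζ, hζ, hζz⟩ := hzmem
  have hζz' : (ζ : G) = z := hζz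
  have hzQ : z ∈ Q := by rw [← hζz']; exact ζ.2
  have hcen : ∀ c : ↥Q, c ∈ Subgroup.center ↥Q → (c : G) = 1 ∨ (c : G) = z := by
    intro c hc
    have h1 : (c : G) ∈ (Subgroup.center ↥Q).map Q.subtype := ⟨c, hc, rfl⟩
    rw [hz] at h1
    exact (mem_zpowers_of_sq hzz).1 h1
  have hzc : ∀ q ∈ Q, z * q = q * z := by
    intro q hq
    have h1 := Subgroup.mem_center_iff.1 hζ ⟨q, hq⟩
    have h2 := congrArg Subtype.val h1
    rw [← hζz']
    exact h2.symm
  refine ⟨⟨hzQ, hz1, hzz, hzc, ?_, ?_⟩, ?_, ?_, ?_⟩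
  · intro x hx y hy
    have h1 : ⁅(⟨x, hx⟩ : ↥Q), (⟨y, hy⟩ : ↥Q)⁆ ∈ commutator ↥Q := by
      rw [commutator_def]
      exact Subgroup.commutator_mem_commutator (Subgroup.mem_top _) (Subgroup.mem_top _)
    rw [hcomm] at h1
    have h2 := hcen _ h1
    rw [commutatorElement_def] at h2
    exact h2
  · intro x hx hxc
    have h1 : (⟨x, hx⟩ : ↥Q) ∈ Subgroup.center ↥Q := by
      rw [Subgroup.mem_center_iff]
      intro g
      apply Subtype.ext
      exact (hxc (g : G) g.2).symm
    exact hcen _ h1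
  · intro c hc q hq
    have h1 : c ∈ Subgroup.centralizer
        (((Subgroup.center ↥Q).map Q.subtype : Subgroup G) : Set G) := by
      rw [hz, Subgroup.mem_centralizer_iff]
      intro h hh
      rcases (mem_zpowers_of_sq hzz).1 hh with rfl | rfl
      · simp
      · exact hc.symm
    have h2 := hnorm h1
    exact (Subgroup.mem_normalizer_iff.1 h2 q).1 hq
  · intro c hc
    have h1 : c ∈ Subgroup.centralizer (Q : Set G) := by
      rw [Subgroup.mem_centralizer_iff]
      intro q hq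
      exact (hc q hq).symm
    rw [hcent, hz] at h1
    exact (mem_zpowers_of_sq hzz).1 h1
  · rw [hcard]
    calc 8 < 2 ^ 5 := by norm_num
      _ ≤ 2 ^ (2 * w + 1) := Nat.pow_le_pow_right (by norm_num) (by omega)

/-- The pair attached to a large extraspecial subgroup and a conjugate of its centre. -/
theorem largePair_of_isLargeExtraspecial [Finite G] (Q : Subgroup G)
    (hQ : Cfsg.IsLargeExtraspecial Q) (z : G)
    (hz : (Subgroup.center ↥Q).map Q.subtype = Subgroup.zpowers z) (hz2 : orderOf z = 2)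
    (w : ℕ) (hw : 2 ≤ w) (hcard : Nat.card ↥Q = 2 ^ (2 * w + 1)) (g : G)
    (hgH : g ∉ Subgroup.centralizer ({z} : Set G)) (hgQ : g * z * g⁻¹ ∈ Q) :
    LargePair Q (Q.map (MulAut.conj g).toMonoidHom) z (g * z * g⁻¹) := by
  have L := largeData_of_isLargeExtraspecial Q hQ z hz hz2 w hw hcard
  have hgz : g * z * g⁻¹ ≠ z := by
    intro h
    apply hgH
    rw [mem_cent_sing]
    calc g * z = (g * z * g⁻¹) * g := by group
      _ = z * g := by rw [h]
  have hQ' : ∀ y, y ∈ (Q).map (MulAut.conj g).toMonoidHom ↔ g⁻¹ * y * g ∈ Q := by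
    intro y; rw [Subgroup.mem_map_equiv, MulAut.conj_symm_apply]
  exact LargePair.of_conj L g hgQ hgz _ hQ'

end Cfsg.Agent.Lib.Helper30
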