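import Mathlib
import Cfsg.Agent.Lib.Helper30.LargeExtra5

/-!
Large extraspecial 2-subgroups, part 6: `X = ⟨Q₁, Q₂⟩` normalizes `R`, the braid relation
modulo `R`, `X ∩ C(V) = R`, and the transitivity of `X` on ordered pairs of involutions of `V`.
-/

set_option autoImplicit false

namespace Cfsg.Agent.Lib.Helper30

open scoped commutatorElement

variable {G : Type*} [Group G]

theorem conj_mem_centralizer_of_mem_normalizer {N : Subgroup G} {w c : G}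
    (hw : w ∈ Subgroup.normalizer (N : Set G)) (hc : c ∈ Subgroup.centralizer (N : Set G)) :
    w * c * w⁻¹ ∈ Subgroup.centralizer (N : Set G) := by
  rw [Subgroup.mem_centralizer_iff] at hc ⊢
  intro n hn
  have h1 : w⁻¹ * n * w ∈ N := by
    have h2 := (Subgroup.mem_normalizer_iff.1 (Subgroup.inv_mem _ hw) n).1 hn
    rw [inv_inv] at h2
    exact h2
  have h3 := hc _ h1
  calc n * (w * c * w⁻¹) = w * ((w⁻¹ * n * w) * c) * w⁻¹ := by group
    _ = w * (c * (w⁻¹ * n * w)) * w⁻¹ := by rw [h3]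
    _ = w * c * w⁻¹ * n := by group

/-- A group generated by two involutions satisfying the braid relation has at most six
elements. -/
theorem six_of_braid {M : Type*} [Group M] (a b : M) (ha : a * a = 1) (hb : b * b = 1)
    (hbr : b * a * b = a * b * a) :
    ∀ w ∈ Subgroup.closure ({a, b} : Set M),
      w = 1 ∨ w = a ∨ w = b ∨ w = a * b ∨ w = b * a ∨ w = a * b * a := by
  have h1 : ∀ x : M, a * (a * x) = x := fun x => by rw [← mul_assoc, ha, one_mul]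
  have h2 : ∀ x : M, b * (b * x) = x := fun x => by rw [← mul_assoc, hb, one_mul]
  have h3 : b * (a * b) = a * (b * a) := by rw [← mul_assoc, hbr, mul_assoc]
  have h4 : ∀ x : M, b * (a * (b * x)) = a * (b * (a * x)) := fun x => by
    rw [← mul_assoc, ← mul_assoc, hbr, mul_assoc, mul_assoc]
  have hai : a⁻¹ = a := inv_eq_of_mul_eq_one_left ha
  have hbi : b⁻¹ = b := inv_eq_of_mul_eq_one_left hb
  intro w hw
  induction hw using Subgroup.closure_induction with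
  | mem s hs =>
    rcases hs with rfl | rfl
    · right; left; rfl
    · right; right; left; rfl
  | one => left; rfl
  | mul x y _ _ hx hy =>
    rcases hx with rfl | rfl | rfl | rfl | rfl | rfl <;>
      rcases hy with rfl | rfl | rfl | rfl | rfl | rfl <;>
      simp [mul_assoc, ha, hb, h1, h2, h3, h4]
  | inv x _ hx =>
    rcases hx with rfl | rfl | rfl | rfl | rfl | rfl <;>
      simp [mul_assoc, hai, hbi]

/-- The action of `q ∈ Q₁ ∖ C(u)` and `x ∈ Q₂ ∖ C(z)` on `V`. -/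
structure Moves (z u q x : G) : Prop where
  qz : q * z * q⁻¹ = z
  qu : q * u * q⁻¹ = z * u
  qzu : q * (z * u) * q⁻¹ = u
  qiz : q⁻¹ * z * q = z
  qiu : q⁻¹ * u * q = z * u
  qizu : q⁻¹ * (z * u) * q = u
  xz : x * z * x⁻¹ = z * u
  xu : x * u * x⁻¹ = u
  xzu : x * (z * u) * x⁻¹ = z
  xiz : x⁻¹ * z * x = z * u
  xiu : x⁻¹ * u * x = u
  xizu : x⁻¹ * (z * u) * x = z

namespace LargePair

variable {Q₁ Q₂ : Subgroup G} {z u : G} (P : LargePair Q₁ Q₂ z u)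
include P

theorem moves {q x : G} (hq : q ∈ Q₁) (hqu : q * u * q⁻¹ = z * u) (hx : x ∈ Q₂)
    (hxz : x * z * x⁻¹ = z * u) : Moves z u q x := by
  have hqz : q * z = z * q := P.L₁.z_comm hq
  have hxu : x * u = u * x := P.L₂.z_comm hx
  have qz : q * z * q⁻¹ = z := by
    calc q * z * q⁻¹ = (q * z) * q⁻¹ := by group
      _ = (z * q) * q⁻¹ := by rw [hqz]
      _ = z := by group
  have xu : x * u * x⁻¹ = u := by
    calc x * u * x⁻¹ = (x * u) * x⁻¹ := by group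
      _ = (u * x) * x⁻¹ := by rw [hxu]
      _ = u := by group
  have qzu : q * (z * u) * q⁻¹ = u := by
    calc q * (z * u) * q⁻¹ = (q * z * q⁻¹) * (q * u * q⁻¹) := by group
      _ = z * (z * u) := by rw [qz, hqu]
      _ = (z * z) * u := by group
      _ = u := by rw [P.zz, one_mul]
  have xzu : x * (z * u) * x⁻¹ = z := by
    calc x * (z * u) * x⁻¹ = (x * z * x⁻¹) * (x * u * x⁻¹) := by group
      _ = (z * u) * u := by rw [hxz, xu]
      _ = z * (u * u) := by group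
      _ = z := by rw [P.uu, mul_one]
  refine ⟨qz, hqu, qzu, ?_, ?_, ?_, hxz, xu, xzu, ?_, ?_, ?_⟩
  · calc q⁻¹ * z * q = q⁻¹ * (z * q) := by group
      _ = q⁻¹ * (q * z) := by rw [hqz]
      _ = z := by group
  · calc q⁻¹ * u * q = q⁻¹ * (q * (z * u) * q⁻¹) * q := by rw [qzu]
      _ = z * u := by group
  · calc q⁻¹ * (z * u) * q = q⁻¹ * (q * u * q⁻¹) * q := by rw [hqu]
      _ = u := by group
  · calc x⁻¹ * z * x = x⁻¹ * (x * (z * u) * x⁻¹) * x := by rw [xzu]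
      _ = z * u := by group
  · calc x⁻¹ * u * x = x⁻¹ * (u * x) := by group
      _ = x⁻¹ * (x * u) := by rw [hxu]
      _ = u := by group
  · calc x⁻¹ * (z * u) * x = x⁻¹ * (x * z * x⁻¹) * x := by rw [hxz]
      _ = z := by group

theorem exists_moves : ∃ q ∈ Q₁, ∃ x ∈ Q₂, Moves z u q x := by
  obtain ⟨q, hq, hqu⟩ := P.L₁.d.exists_conj_eq P.hu P.u1 (fun h => P.hne h.symm)
  obtain ⟨x, hx, hxz⟩ := P.L₂.d.exists_conj_eq P.hz P.z1 P.hne
  rw [← P.zu] at hxz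
  exact ⟨q, hq, x, hx, P.moves hq hqu hx hxz⟩

theorem Q₁_le_normalizer_V : Q₁ ≤ Subgroup.normalizer
    ((Subgroup.closure ({z, u} : Set G) : Subgroup G) : Set G) := by
  intro s hs
  exact mem_normalizer_of_conj_mem (fun v hv => P.Q₁_norm_V hs hv) (fun v hv => by
    have h := P.Q₁_norm_V (Q₁.inv_mem hs) hv
    rw [inv_inv] at h; exact h)

theorem Q₂_le_normalizer_V : Q₂ ≤ Subgroup.normalizer
    ((Subgroup.closure ({z, u} : Set G) : Subgroup G) : Set G) := by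
  intro s hs
  exact mem_normalizer_of_conj_mem (fun v hv => P.Q₂_norm_V hs hv) (fun v hv => by
    have h := P.Q₂_norm_V (Q₂.inv_mem hs) hv
    rw [inv_inv] at h; exact h)

theorem X_le_normalizer_V : Q₁ ⊔ Q₂ ≤ Subgroup.normalizer
    ((Subgroup.closure ({z, u} : Set G) : Subgroup G) : Set G) :=
  sup_le P.Q₁_le_normalizer_V P.Q₂_le_normalizer_V

/-- Conjugating an element of `C(V)` by an element of `X` stays in `C(V)`. -/
theorem conj_cent {w c : G} (hw : w ∈ Q₁ ⊔ Q₂) (hcz : c * z = z * c) (hcu : c * u = u * c) :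
    (w * c * w⁻¹) * z = z * (w * c * w⁻¹) ∧ (w * c * w⁻¹) * u = u * (w * c * w⁻¹) :=
  mem_cent_closure_pair.1 (conj_mem_centralizer_of_mem_normalizer (P.X_le_normalizer_V hw)
    (mem_cent_closure_pair.2 ⟨hcz, hcu⟩))

omit P in
theorem D₁_le_R : Q₁ ⊓ Subgroup.centralizer ({u} : Set G) ≤
    (Q₂ ⊓ Subgroup.centralizer ({z} : Set G)) ⊔ (Q₁ ⊓ Subgroup.centralizer ({u} : Set G)) :=
  le_sup_right

omit P in
theorem D₂_le_R : Q₂ ⊓ Subgroup.centralizer ({z} : Set G) ≤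
    (Q₂ ⊓ Subgroup.centralizer ({z} : Set G)) ⊔ (Q₁ ⊓ Subgroup.centralizer ({u} : Set G)) :=
  le_sup_left

/-- `Q₁` normalizes `R`. -/
theorem Q₁_norm_R {q r : G} (hq : q ∈ Q₁)
    (hr : r ∈ (Q₂ ⊓ Subgroup.centralizer ({z} : Set G)) ⊔
      (Q₁ ⊓ Subgroup.centralizer ({u} : Set G))) :
    q * r * q⁻¹ ∈ (Q₂ ⊓ Subgroup.centralizer ({z} : Set G)) ⊔
      (Q₁ ⊓ Subgroup.centralizer ({u} : Set G)) := by
  have hqX : q ∈ Q₁ ⊔ Q₂ := Subgroup.mem_sup_left hq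
  have hle : (Q₂ ⊓ Subgroup.centralizer ({z} : Set G)) ⊔
      (Q₁ ⊓ Subgroup.centralizer ({u} : Set G)) ≤
      ((Q₂ ⊓ Subgroup.centralizer ({z} : Set G)) ⊔
        (Q₁ ⊓ Subgroup.centralizer ({u} : Set G))).comap (MulAut.conj q).toMonoidHom := by
    apply sup_le
    · intro y hy
      rw [Subgroup.mem_comap]
      show q * y * q⁻¹ ∈ _
      have hyz : y * z = z * y := mem_cent_sing.1 hy.2
      have hyu : y * u = u * y := P.L₂.z_comm hy.1
      have hc := P.conj_cent hqX hyz hyu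
      have h1 : q * y * q⁻¹ * y⁻¹ ∈ Q₁ ⊓ Subgroup.centralizer ({u} : Set G) := by
        refine Subgroup.mem_inf.2 ⟨?_, ?_⟩
        · have e1 : q * y * q⁻¹ * y⁻¹ = q * (y * q⁻¹ * y⁻¹) := by group
          rw [e1]
          exact Q₁.mul_mem hq (P.L₁.hN y hyz _ (Q₁.inv_mem hq))
        · rw [mem_cent_sing]
          have hyiu : y⁻¹ * u = u * y⁻¹ := inv_comm hyu
          calc q * y * q⁻¹ * y⁻¹ * u = (q * y * q⁻¹) * (y⁻¹ * u) := by group
            _ = (q * y * q⁻¹) * (u * y⁻¹) := by rw [hyiu]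
            _ = ((q * y * q⁻¹) * u) * y⁻¹ := by group
            _ = (u * (q * y * q⁻¹)) * y⁻¹ := by rw [hc.2]
            _ = u * (q * y * q⁻¹ * y⁻¹) := by group
      have e2 : q * y * q⁻¹ = (q * y * q⁻¹ * y⁻¹) * y := by group
      rw [e2]
      exact Subgroup.mul_mem _ (D₁_le_R h1) (D₂_le_R hy)
    · intro a ha
      rw [Subgroup.mem_comap]
      show q * a * q⁻¹ ∈ _
      have haz : a * z = z * a := P.L₁.z_comm ha.1
      have hau : a * u = u * a := mem_cent_sing.1 ha.2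
      have hc := P.conj_cent hqX haz hau
      exact D₁_le_R (Subgroup.mem_inf.2
        ⟨Q₁.mul_mem (Q₁.mul_mem hq ha.1) (Q₁.inv_mem hq), mem_cent_sing.2 hc.2⟩)
  exact hle hr

omit P in
theorem R_symm : (Q₁ ⊓ Subgroup.centralizer ({u} : Set G)) ⊔
      (Q₂ ⊓ Subgroup.centralizer ({z} : Set G)) =
    (Q₂ ⊓ Subgroup.centralizer ({z} : Set G)) ⊔ (Q₁ ⊓ Subgroup.centralizer ({u} : Set G)) :=
  sup_comm _ _

/-- `Q₂` normalizes `R`. -/
theorem Q₂_norm_R {q r : G} (hq : q ∈ Q₂)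
    (hr : r ∈ (Q₂ ⊓ Subgroup.centralizer ({z} : Set G)) ⊔
      (Q₁ ⊓ Subgroup.centralizer ({u} : Set G))) :
    q * r * q⁻¹ ∈ (Q₂ ⊓ Subgroup.centralizer ({z} : Set G)) ⊔
      (Q₁ ⊓ Subgroup.centralizer ({u} : Set G)) := by
  rw [← R_symm] at hr ⊢
  exact P.symm.Q₁_norm_R hq hr

theorem X_le_normalizer_R : Q₁ ⊔ Q₂ ≤ Subgroup.normalizer
    (((Q₂ ⊓ Subgroup.centralizer ({z} : Set G)) ⊔
      (Q₁ ⊓ Subgroup.centralizer ({u} : Set G)) : Subgroup G) : Set G) := by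
  apply sup_le
  · intro s hs
    exact mem_normalizer_of_conj_mem (fun v hv => P.Q₁_norm_R hs hv) (fun v hv => by
      have h := P.Q₁_norm_R (Q₁.inv_mem hs) hv
      rw [inv_inv] at h; exact h)
  · intro s hs
    exact mem_normalizer_of_conj_mem (fun v hv => P.Q₂_norm_R hs hv) (fun v hv => by
      have h := P.Q₂_norm_R (Q₂.inv_mem hs) hv
      rw [inv_inv] at h; exact h)

/-- The braid relation modulo `R`. -/
theorem braid {q x : G} (Mv : Moves z u q x) (hq : q ∈ Q₁) (hx : x ∈ Q₂) :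
    ∃ d ∈ Q₂, d * z = z * d ∧ x * q * x⁻¹ = q * (x * d) * q⁻¹ := by
  obtain ⟨g, hg, hQ⟩ := P.hconj
  obtain ⟨p, hp⟩ : ∃ p, p = q⁻¹ * x * q * x⁻¹ * q := ⟨_, rfl⟩
  have hpQ : p ∈ Q₂ := by
    rw [hQ]
    have hh : (g⁻¹ * q⁻¹ * x) * z = z * (g⁻¹ * q⁻¹ * x) := by
      have e1 : (g⁻¹ * q⁻¹ * x) * z * (g⁻¹ * q⁻¹ * x)⁻¹ = z := by
        calc (g⁻¹ * q⁻¹ * x) * z * (g⁻¹ * q⁻¹ * x)⁻¹
            = g⁻¹ * (q⁻¹ * (x * z * x⁻¹) * q) * g := by group
          _ = g⁻¹ * (q⁻¹ * (z * u) * q) * g := by rw [Mv.xz]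
          _ = g⁻¹ * u * g := by rw [Mv.qizu]
          _ = g⁻¹ * (g * z * g⁻¹) * g := by rw [hg]
          _ = z := by group
      calc (g⁻¹ * q⁻¹ * x) * z
          = ((g⁻¹ * q⁻¹ * x) * z * (g⁻¹ * q⁻¹ * x)⁻¹) * (g⁻¹ * q⁻¹ * x) := by group
        _ = z * (g⁻¹ * q⁻¹ * x) := by rw [e1]
    have h1 := P.L₁.hN _ hh q hq
    have e2 : g⁻¹ * p * g = (g⁻¹ * q⁻¹ * x) * q * (g⁻¹ * q⁻¹ * x)⁻¹ := by rw [hp]; group
    rw [e2]; exact h1
  have hpz : p * z * p⁻¹ = z * u := by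
    calc p * z * p⁻¹ = q⁻¹ * (x * (q * (x⁻¹ * (q * z * q⁻¹) * x) * q⁻¹) * x⁻¹) * q := by
          rw [hp]; group
      _ = q⁻¹ * (x * (q * (x⁻¹ * z * x) * q⁻¹) * x⁻¹) * q := by rw [Mv.qz]
      _ = q⁻¹ * (x * (q * (z * u) * q⁻¹) * x⁻¹) * q := by rw [Mv.xiz]
      _ = q⁻¹ * (x * u * x⁻¹) * q := by rw [Mv.qzu]
      _ = q⁻¹ * u * q := by rw [Mv.xu]
      _ = z * u := Mv.qiu
  refine ⟨x⁻¹ * p, Q₂.mul_mem (Q₂.inv_mem hx) hpQ, ?_, ?_⟩
  · have e1 : (x⁻¹ * p) * z * (x⁻¹ * p)⁻¹ = z := by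
      calc (x⁻¹ * p) * z * (x⁻¹ * p)⁻¹ = x⁻¹ * (p * z * p⁻¹) * x := by group
        _ = x⁻¹ * (z * u) * x := by rw [hpz]
        _ = z := Mv.xizu
    calc (x⁻¹ * p) * z = ((x⁻¹ * p) * z * (x⁻¹ * p)⁻¹) * (x⁻¹ * p) := by group
      _ = z * (x⁻¹ * p) := by rw [e1]
  · rw [hp]; group

/-- `X ∩ C(V) ≤ R`. -/
theorem X_inf_cent {q x : G} (Mv : Moves z u q x) (hq : q ∈ Q₁) (hx : x ∈ Q₂) {w : G}
    (hw : w ∈ Q₁ ⊔ Q₂) (hwz : w * z = z * w) (hwu : w * u = u * w) :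
    w ∈ (Q₂ ⊓ Subgroup.centralizer ({z} : Set G)) ⊔
      (Q₁ ⊓ Subgroup.centralizer ({u} : Set G)) := by
  obtain ⟨X, hX⟩ : ∃ X : Subgroup G, X = Q₁ ⊔ Q₂ := ⟨_, rfl⟩
  obtain ⟨R, hR⟩ : ∃ R : Subgroup G, R = (Q₂ ⊓ Subgroup.centralizer ({z} : Set G)) ⊔
      (Q₁ ⊓ Subgroup.centralizer ({u} : Set G)) := ⟨_, rfl⟩
  rw [← hX] at hw
  rw [← hR]
  have hRX : R ≤ X := by rw [hR, hX]; exact R_le_X
  have hQ₁X : Q₁ ≤ X := by rw [hX]; exact le_sup_left
  have hQ₂X : Q₂ ≤ X := by rw [hX]; exact le_sup_right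
  have hD₁R : ∀ a ∈ Q₁, a * u = u * a → a ∈ R := by
    intro a ha hau
    rw [hR]; exact D₁_le_R (Subgroup.mem_inf.2 ⟨ha, mem_cent_sing.2 hau⟩)
  have hD₂R : ∀ a ∈ Q₂, a * z = z * a → a ∈ R := by
    intro a ha haz
    rw [hR]; exact D₂_le_R (Subgroup.mem_inf.2 ⟨ha, mem_cent_sing.2 haz⟩)
  have hRc : ∀ r ∈ R, r * z = z * r ∧ r * u = u * r := by
    intro r hr; rw [hR] at hr; exact P.R_cent hr
  have hzR : z ∈ R := hD₁R z P.L₁.d.hzQ P.zu
  have huR : u ∈ R := hD₂R u P.L₂.d.hzQ P.zu.symm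
  have hnorm : (R.subgroupOf X).Normal := by
    rw [Subgroup.normal_subgroupOf_iff_le_normalizer hRX, hR, hX]
    exact P.X_le_normalizer_R
  obtain ⟨ψ, hψ⟩ : ∃ ψ : ↥X →* ↥X ⧸ R.subgroupOf X, ψ = QuotientGroup.mk' (R.subgroupOf X) :=
    ⟨_, rfl⟩
  have hψ1 : ∀ k : ↥X, (k : G) ∈ R → ψ k = 1 := by
    intro k hk
    rw [hψ, QuotientGroup.mk'_apply, QuotientGroup.eq_one_iff, Subgroup.mem_subgroupOf]
    exact hk
  have hψ1' : ∀ k : ↥X, ψ k = 1 → (k : G) ∈ R := by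
    intro k hk
    rw [hψ, QuotientGroup.mk'_apply, QuotientGroup.eq_one_iff, Subgroup.mem_subgroupOf] at hk
    exact hk
  obtain ⟨a, ha⟩ : ∃ a, a = ψ ⟨q, hQ₁X hq⟩ := ⟨_, rfl⟩
  obtain ⟨b, hb⟩ : ∃ b, b = ψ ⟨x, hQ₂X hx⟩ := ⟨_, rfl⟩
  have haa : a * a = 1 := by
    rw [ha, ← map_mul]
    apply hψ1
    show q * q ∈ R
    rcases P.L₁.d.sq_mem hq with h | h
    · rw [h]; exact R.one_mem
    · rw [h]; exact hzR
  have hbb : b * b = 1 := by
    rw [hb, ← map_mul]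
    apply hψ1
    show x * x ∈ R
    rcases P.L₂.d.sq_mem hx with h | h
    · rw [h]; exact R.one_mem
    · rw [h]; exact huR
  have hai : a⁻¹ = a := inv_eq_of_mul_eq_one_left haa
  have hbi : b⁻¹ = b := inv_eq_of_mul_eq_one_left hbb
  have hbr : b * a * b = a * b * a := by
    obtain ⟨d, hd, hdz, hbraid⟩ := P.braid Mv hq hx
    have hd1 : ψ ⟨d, hQ₂X hd⟩ = 1 := hψ1 _ (hD₂R d hd hdz)
    have e1 : (⟨x, hQ₂X hx⟩ : ↥X) * ⟨q, hQ₁X hq⟩ * (⟨x, hQ₂X hx⟩ : ↥X)⁻¹ =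
        ⟨q, hQ₁X hq⟩ * (⟨x, hQ₂X hx⟩ * ⟨d, hQ₂X hd⟩) * (⟨q, hQ₁X hq⟩ : ↥X)⁻¹ :=
      Subtype.ext hbraid
    have e2 := congrArg ψ e1
    rw [map_mul, map_mul, map_inv, map_mul, map_mul, map_mul, map_inv, hd1, ← ha, ← hb,
      mul_one, hai, hbi] at e2
    exact e2
  -- generation
  have hgen : ∀ k : ↥X, ψ k ∈ Subgroup.closure ({a, b} : Set (↥X ⧸ R.subgroupOf X)) := by
    have haC : a ∈ Subgroup.closure ({a, b} : Set (↥X ⧸ R.subgroupOf X)) :=
      Subgroup.subset_closure (by simp)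
    have hbC : b ∈ Subgroup.closure ({a, b} : Set (↥X ⧸ R.subgroupOf X)) :=
      Subgroup.subset_closure (by simp)
    have hle : X ≤ ((Subgroup.closure ({a, b} : Set (↥X ⧸ R.subgroupOf X))).comap ψ).map
        X.subtype := by
      refine le_trans (le_of_eq hX) (sup_le ?_ ?_)
      · intro q₁ hq₁
        refine ⟨⟨q₁, hQ₁X hq₁⟩, ?_, rfl⟩
        rw [SetLike.mem_coe, Subgroup.mem_comap]
        rcases P.L₁.d.conj_eq_or hq₁ P.hu with h | h
        · have h1 : q₁ * u = u * q₁ := by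
            calc q₁ * u = (q₁ * u * q₁⁻¹) * q₁ := by group
              _ = u * q₁ := by rw [h]
          rw [hψ1 _ (hD₁R q₁ hq₁ h1)]
          exact Subgroup.one_mem _
        · have h1 := ClassTwoData.inv_mul_comm (z := z) Mv.qu h
          have h2 : ψ ((⟨q, hQ₁X hq⟩ : ↥X)⁻¹ * ⟨q₁, hQ₁X hq₁⟩) = 1 :=
            hψ1 _ (hD₁R _ (Q₁.mul_mem (Q₁.inv_mem hq) hq₁) h1)
          have h3 : ψ ⟨q₁, hQ₁X hq₁⟩ = a := by
            have e : (⟨q₁, hQ₁X hq₁⟩ : ↥X) =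
                ⟨q, hQ₁X hq⟩ * ((⟨q, hQ₁X hq⟩ : ↥X)⁻¹ * ⟨q₁, hQ₁X hq₁⟩) := by group
            rw [e, map_mul, h2, mul_one, ha]
          rw [h3]; exact haC
      · intro x₁ hx₁
        refine ⟨⟨x₁, hQ₂X hx₁⟩, ?_, rfl⟩
        rw [SetLike.mem_coe, Subgroup.mem_comap]
        rcases P.L₂.d.conj_eq_or hx₁ P.hz with h | h
        · have h1 : x₁ * z = z * x₁ := by
            calc x₁ * z = (x₁ * z * x₁⁻¹) * x₁ := by group
              _ = z * x₁ := by rw [h]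
          rw [hψ1 _ (hD₂R x₁ hx₁ h1)]
          exact Subgroup.one_mem _
        · have hxz' : x * z * x⁻¹ = u * z := by rw [Mv.xz, P.zu]
          have h1 := ClassTwoData.inv_mul_comm (z := u) hxz' h
          have h2 : ψ ((⟨x, hQ₂X hx⟩ : ↥X)⁻¹ * ⟨x₁, hQ₂X hx₁⟩) = 1 :=
            hψ1 _ (hD₂R _ (Q₂.mul_mem (Q₂.inv_mem hx) hx₁) h1)
          have h3 : ψ ⟨x₁, hQ₂X hx₁⟩ = b := by
            have e : (⟨x₁, hQ₂X hx₁⟩ : ↥X) =
                ⟨x, hQ₂X hx⟩ * ((⟨x, hQ₂X hx⟩ : ↥X)⁻¹ * ⟨x₁, hQ₂X hx₁⟩) := by group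
            rw [e, map_mul, h2, mul_one, hb]
          rw [h3]; exact hbC
    intro k
    obtain ⟨k', hk', hkk⟩ := hle k.2
    have e : k' = k := Subtype.ext hkk
    rw [← e]
    exact hk'
  have hsix := fun k : ↥X => six_of_braid a b haa hbb hbr (ψ k) (hgen k)
  -- an element with the same image as `w` centralizes `V`
  have hcontra : ∀ t : ↥X, ψ ⟨w, hw⟩ = ψ t →
      (t : G) * z = z * (t : G) ∧ (t : G) * u = u * (t : G) := by
    intro t ht
    have h1 : ψ (t⁻¹ * ⟨w, hw⟩) = 1 := by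
      rw [map_mul, map_inv, ht]; group
    have h2 : (t : G)⁻¹ * w ∈ R := hψ1' _ h1
    obtain ⟨r, hr⟩ : ∃ r, r = ((t : G)⁻¹ * w)⁻¹ := ⟨_, rfl⟩
    have h3 : r * z = z * r ∧ r * u = u * r := by rw [hr]; exact hRc _ (R.inv_mem h2)
    have e : (t : G) = w * r := by rw [hr]; group
    rw [e]
    constructor
    · calc w * r * z = w * (r * z) := by group
        _ = w * (z * r) := by rw [h3.1]
        _ = (w * z) * r := by group
        _ = (z * w) * r := by rw [hwz]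
        _ = z * (w * r) := by group
    · calc w * r * u = w * (r * u) := by group
        _ = w * (u * r) := by rw [h3.2]
        _ = (w * u) * r := by group
        _ = (u * w) * r := by rw [hwu]
        _ = u * (w * r) := by group
  have hconj : ∀ t v : G, t * v = v * t → t * v * t⁻¹ = v := by
    intro t v h
    calc t * v * t⁻¹ = (t * v) * t⁻¹ := by group
      _ = (v * t) * t⁻¹ := by rw [h]
      _ = v := by group
  have hzzu : z ≠ z * u := by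
    intro h
    apply P.u1
    calc u = z⁻¹ * (z * u) := by group
      _ = 1 := by rw [← h]; group
  have huzu : u ≠ z * u := by
    intro h
    apply P.z1
    calc z = (z * u) * u⁻¹ := by group
      _ = 1 := by rw [← h]; group
  rcases hsix ⟨w, hw⟩ with h | h | h | h | h | h
  · exact hψ1' _ h
  · exfalso
    rw [ha] at h
    have h1 := (hcontra _ h).2
    have h2 := hconj _ _ h1
    exact huzu (h2.symm.trans Mv.qu)
  · exfalso
    rw [hb] at h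
    have h1 := (hcontra _ h).1
    have h2 := hconj _ _ h1
    exact hzzu (h2.symm.trans Mv.xz)
  · exfalso
    rw [ha, hb, ← map_mul] at h
    have h1 := (hcontra _ h).1
    have h2 := hconj _ _ h1
    have h3 : (q * x) * z * (q * x)⁻¹ = u := by
      calc (q * x) * z * (q * x)⁻¹ = q * (x * z * x⁻¹) * q⁻¹ := by group
        _ = q * (z * u) * q⁻¹ := by rw [Mv.xz]
        _ = u := Mv.qzu
    exact P.hne (h2.symm.trans h3)
  · exfalso
    rw [ha, hb, ← map_mul] at h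
    have h1 := (hcontra _ h).1
    have h2 := hconj _ _ h1
    have h3 : (x * q) * z * (x * q)⁻¹ = z * u := by
      calc (x * q) * z * (x * q)⁻¹ = x * (q * z * q⁻¹) * x⁻¹ := by group
        _ = x * z * x⁻¹ := by rw [Mv.qz]
        _ = z * u := Mv.xz
    exact hzzu (h2.symm.trans h3)
  · exfalso
    rw [ha, hb, ← map_mul, ← map_mul] at h
    have h1 := (hcontra _ h).1
    have h2 := hconj _ _ h1
    have h3 : (q * x * q) * z * (q * x * q)⁻¹ = u := by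
      calc (q * x * q) * z * (q * x * q)⁻¹ = q * (x * (q * z * q⁻¹) * x⁻¹) * q⁻¹ := by group
        _ = q * (x * z * x⁻¹) * q⁻¹ := by rw [Mv.qz]
        _ = q * (z * u) * q⁻¹ := by rw [Mv.xz]
        _ = u := Mv.qzu
    exact P.hne (h2.symm.trans h3)

omit P in
/-- `X` is transitive on ordered pairs of distinct involutions of `V`. -/
theorem exists_X_conj {q x : G} (Mv : Moves z u q x) (hq : q ∈ Q₁) (hx : x ∈ Q₂) {a' b' : G}
    (ha : a' = z ∨ a' = u ∨ a' = z * u) (hb : b' = z ∨ b' = u ∨ b' = z * u) (hab : a' ≠ b') :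
    ∃ w ∈ Q₁ ⊔ Q₂, w * z * w⁻¹ = a' ∧ w * u * w⁻¹ = b' := by
  have hqX : q ∈ Q₁ ⊔ Q₂ := Subgroup.mem_sup_left hq
  have hxX : x ∈ Q₁ ⊔ Q₂ := Subgroup.mem_sup_right hx
  rcases ha with ha | ha | ha <;> rcases hb with hb | hb | hb
  · exact absurd (ha.trans hb.symm) hab
  · refine ⟨1, Subgroup.one_mem _, ?_, ?_⟩
    · rw [ha]; group
    · rw [hb]; group
  · refine ⟨q, hqX, ?_, ?_⟩
    · rw [ha]; exact Mv.qz
    · rw [hb]; exact Mv.qu
  · refine ⟨q * x * q, Subgroup.mul_mem _ (Subgroup.mul_mem _ hqX hxX) hqX, ?_, ?_⟩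
    · rw [ha]
      calc (q * x * q) * z * (q * x * q)⁻¹ = q * (x * (q * z * q⁻¹) * x⁻¹) * q⁻¹ := by group
        _ = q * (x * z * x⁻¹) * q⁻¹ := by rw [Mv.qz]
        _ = q * (z * u) * q⁻¹ := by rw [Mv.xz]
        _ = u := Mv.qzu
    · rw [hb]
      calc (q * x * q) * u * (q * x * q)⁻¹ = q * (x * (q * u * q⁻¹) * x⁻¹) * q⁻¹ := by group
        _ = q * (x * (z * u) * x⁻¹) * q⁻¹ := by rw [Mv.qu]
        _ = q * z * q⁻¹ := by rw [Mv.xzu]
        _ = z := Mv.qz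
  · exact absurd (ha.trans hb.symm) hab
  · refine ⟨q * x, Subgroup.mul_mem _ hqX hxX, ?_, ?_⟩
    · rw [ha]
      calc (q * x) * z * (q * x)⁻¹ = q * (x * z * x⁻¹) * q⁻¹ := by group
        _ = q * (z * u) * q⁻¹ := by rw [Mv.xz]
        _ = u := Mv.qzu
    · rw [hb]
      calc (q * x) * u * (q * x)⁻¹ = q * (x * u * x⁻¹) * q⁻¹ := by group
        _ = q * u * q⁻¹ := by rw [Mv.xu]
        _ = z * u := Mv.qu
  · refine ⟨x * q, Subgroup.mul_mem _ hxX hqX, ?_, ?_⟩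
    · rw [ha]
      calc (x * q) * z * (x * q)⁻¹ = x * (q * z * q⁻¹) * x⁻¹ := by group
        _ = x * z * x⁻¹ := by rw [Mv.qz]
        _ = z * u := Mv.xz
    · rw [hb]
      calc (x * q) * u * (x * q)⁻¹ = x * (q * u * q⁻¹) * x⁻¹ := by group
        _ = x * (z * u) * x⁻¹ := by rw [Mv.qu]
        _ = z := Mv.xzu
  · refine ⟨x, hxX, ?_, ?_⟩
    · rw [ha]; exact Mv.xz
    · rw [hb]; exact Mv.xu
  · exact absurd (ha.trans hb.symm) hab

end LargePair

end Cfsg.Agent.Lib.Helper30
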