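import Mathlib
import Cfsg.Prelude.Def_Solvable
import Cfsg.Agent.Lib.Helper30.LargeExtra6

/-!
Large extraspecial 2-subgroups, part 7: `X / R ≅ S₃`, `R = O₂(X)`, and the normalizer of `V`.
-/

set_option autoImplicit false

namespace Cfsg.Agent.Lib.Helper30

open scoped commutatorElement

variable {G : Type*} [Group G]

set_option maxRecDepth 100000 in
theorem perm3_aux : ∀ σ : Equiv.Perm (Fin 3), σ = 1 ∨ σ ^ 3 = 1 ∨
    ∃ τ : Equiv.Perm (Fin 3), σ * (τ * σ * τ⁻¹) ≠ 1 ∧ (σ * (τ * σ * τ⁻¹)) ^ 3 = 1 := by decide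

set_option maxRecDepth 100000 in
theorem perm3_ext : ∀ σ τ : Equiv.Perm (Fin 3), σ 0 = τ 0 → σ 1 = τ 1 → σ = τ := by decide

/-- A normal 2-subgroup of the symmetric group of degree 3 is trivial. -/
theorem normal_two_subgroup_perm3 (N : Subgroup (Equiv.Perm (Fin 3))) (hn : N.Normal)
    (hN : IsPGroup 2 N) : N = ⊥ := by
  rw [Subgroup.eq_bot_iff_forall]
  intro σ hσ
  by_contra h1
  have key : ∃ ρ ∈ N, ρ ≠ 1 ∧ ρ ^ 3 = 1 := by
    rcases perm3_aux σ with h | h | ⟨τ, h2, h3⟩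
    · exact absurd h h1
    · exact ⟨σ, hσ, h1, h⟩
    · exact ⟨_, N.mul_mem hσ (hn.conj_mem σ hσ τ), h2, h3⟩
  obtain ⟨ρ, hρ, hρ1, hρ3⟩ := key
  obtain ⟨k, hk⟩ := hN ⟨ρ, hρ⟩
  have hk' : ρ ^ (2 ^ k) = 1 := by
    have := congrArg Subtype.val hk
    simpa using this
  have hcop : Nat.gcd 3 (2 ^ k) = 1 := Nat.Coprime.pow_right k (by norm_num)
  have h2 : ρ ^ (Nat.gcd 3 (2 ^ k)) = 1 := pow_gcd_eq_one.2 ⟨hρ3, hk'⟩
  rw [hcop, pow_one] at h2
  exact hρ1 h2

theorem pow_four_eq' (a : G) : a ^ 4 = (a * a) * (a * a) := by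
  rw [pow_succ, pow_succ, pow_succ, pow_one, mul_assoc]

/-- The conjugation action on the three involutions of a four-group. -/
def threeAction (z u : G) (X : Subgroup G)
    (h : ∀ w ∈ X, ∀ v : G, (v = z ∨ v = u ∨ v = z * u) →
      (w * v * w⁻¹ = z ∨ w * v * w⁻¹ = u ∨ w * v * w⁻¹ = z * u)) :
    MulAction ↥X {v : G // v = z ∨ v = u ∨ v = z * u} where
  smul w v := ⟨(w : G) * v * (w : G)⁻¹, h w w.2 v v.2⟩
  one_smul v := Subtype.ext (by
    show ((1 : ↥X) : G) * (v : G) * ((1 : ↥X) : G)⁻¹ = (v : G)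
    simp)
  mul_smul a b v := Subtype.ext (by
    show ((a * b : ↥X) : G) * (v : G) * ((a * b : ↥X) : G)⁻¹ =
      (a : G) * ((b : G) * (v : G) * (b : G)⁻¹) * (a : G)⁻¹
    simp [mul_assoc])

def threeFun (z u : G) : Fin 3 → {v : G // v = z ∨ v = u ∨ v = z * u} :=
  ![⟨z, Or.inl rfl⟩, ⟨u, Or.inr (Or.inl rfl)⟩, ⟨z * u, Or.inr (Or.inr rfl)⟩]

theorem threeFun_bijective (z u : G) (h1 : z ≠ u) (h2 : z ≠ z * u) (h3 : u ≠ z * u) :
    Function.Bijective (threeFun z u) := by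
  constructor
  · intro i j h
    have hv : (threeFun z u i : G) = (threeFun z u j : G) := congrArg Subtype.val h
    fin_cases i <;> fin_cases j
    · rfl
    · exact absurd hv h1
    · exact absurd hv h2
    · exact absurd hv.symm h1
    · rfl
    · exact absurd hv h3
    · exact absurd hv.symm h2
    · exact absurd hv.symm h3
    · rfl
  · rintro ⟨v, hv | hv | hv⟩
    · exact ⟨0, Subtype.ext hv.symm⟩
    · exact ⟨1, Subtype.ext hv.symm⟩
    · exact ⟨2, Subtype.ext hv.symm⟩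

/-- A subgroup permuting the three involutions `z, u, zu` maps to the symmetric group of
degree 3. -/
theorem exists_threeHom (z u : G) (X : Subgroup G)
    (h : ∀ w ∈ X, ∀ v : G, (v = z ∨ v = u ∨ v = z * u) →
      (w * v * w⁻¹ = z ∨ w * v * w⁻¹ = u ∨ w * v * w⁻¹ = z * u))
    (h1 : z ≠ u) (h2 : z ≠ z * u) (h3 : u ≠ z * u) :
    ∃ φ : ↥X →* Equiv.Perm (Fin 3), ∃ f : Fin 3 → G, f 0 = z ∧ f 1 = u ∧ f 2 = z * u ∧
      Function.Injective f ∧ ∀ (w : ↥X) (i : Fin 3), f (φ w i) = (w : G) * f i * (w : G)⁻¹ := by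
  let _inst := threeAction z u X h
  have hbij := threeFun_bijective z u h1 h2 h3
  obtain ⟨e, he⟩ : ∃ e : {v : G // v = z ∨ v = u ∨ v = z * u} ≃ Fin 3,
      e = (Equiv.ofBijective (threeFun z u) hbij).symm := ⟨_, rfl⟩
  refine ⟨(e.permCongrHom).toMonoidHom.comp
    (MulAction.toPermHom ↥X {v : G // v = z ∨ v = u ∨ v = z * u}),
    fun i => (threeFun z u i : G), rfl, rfl, rfl, ?_, ?_⟩
  · intro i j hij
    exact hbij.1 (Subtype.ext hij)
  · intro w i
    have e1 : ∀ y, threeFun z u (e y) = y := by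
      intro y
      rw [he]
      exact Equiv.apply_symm_apply (Equiv.ofBijective (threeFun z u) hbij) y
    have e2 : e.symm i = threeFun z u i := by
      rw [he]; rfl
    show (threeFun z u (e (w • e.symm i)) : G) = (w : G) * (threeFun z u i : G) * (w : G)⁻¹
    rw [e1, e2]
    rfl

namespace LargePair

variable {Q₁ Q₂ : Subgroup G} {z u : G} (P : LargePair Q₁ Q₂ z u)
include P

/-- Elements of `C(V)` normalize `X`. -/
theorem cent_norm_X {c t : G} (hcz : c * z = z * c) (hcu : c * u = u * c)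
    (ht : t ∈ Q₁ ⊔ Q₂) : c * t * c⁻¹ ∈ Q₁ ⊔ Q₂ := by
  have hle : Q₁ ⊔ Q₂ ≤ (Q₁ ⊔ Q₂).comap (MulAut.conj c).toMonoidHom := by
    apply sup_le
    · intro a ha
      rw [Subgroup.mem_comap]
      show c * a * c⁻¹ ∈ _
      exact Subgroup.mem_sup_left (P.L₁.hN c hcz a ha)
    · intro a ha
      rw [Subgroup.mem_comap]
      show c * a * c⁻¹ ∈ _
      exact Subgroup.mem_sup_right (P.L₂.hN c hcu a ha)
  exact hle ht

theorem zzu : z ≠ z * u := by
  intro h
  apply P.u1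
  calc u = z⁻¹ * (z * u) := by group
    _ = 1 := by rw [← h]; group

theorem uzu : u ≠ z * u := by
  intro h
  apply P.z1
  calc z = (z * u) * u⁻¹ := by group
    _ = 1 := by rw [← h]; group

theorem zu1 : z * u ≠ 1 := by
  intro h
  apply P.hne
  calc z = (z * u) * u⁻¹ := by group
    _ = u := by rw [h, one_mul, P.ui]

/-- Elements of the normalizer of `V` permute the three involutions. -/
theorem norm_three {y v : G}
    (hy : y ∈ Subgroup.normalizer ((Subgroup.closure ({z, u} : Set G) : Subgroup G) : Set G))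
    (hv : v = z ∨ v = u ∨ v = z * u) :
    y * v * y⁻¹ = z ∨ y * v * y⁻¹ = u ∨ y * v * y⁻¹ = z * u := by
  have hvV : v ∈ Subgroup.closure ({z, u} : Set G) := P.mem_V.2 (Or.inr hv)
  have h1 := (Subgroup.mem_normalizer_iff.1 hy v).1 hvV
  rcases P.mem_V.1 h1 with h | h
  · exfalso
    have hv1 : v = 1 := by
      calc v = y⁻¹ * (y * v * y⁻¹) * y := by group
        _ = 1 := by rw [h]; group
    rcases hv with h' | h' | h'
    · exact P.z1 (h'.symm.trans hv1)
    · exact P.u1 (h'.symm.trans hv1)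
    · exact P.zu1 (h'.symm.trans hv1)
  · exact h

/-- `N(V) = X C(V)`. -/
theorem norm_V_decomp {q x : G} (Mv : Moves z u q x) (hq : q ∈ Q₁) (hx : x ∈ Q₂) {y : G}
    (hy : y ∈ Subgroup.normalizer ((Subgroup.closure ({z, u} : Set G) : Subgroup G) : Set G)) :
    ∃ w ∈ Q₁ ⊔ Q₂, ∃ c : G, c * z = z * c ∧ c * u = u * c ∧ y = w * c := by
  have ha := P.norm_three hy (Or.inl rfl)
  have hb := P.norm_three hy (Or.inr (Or.inl rfl))
  have hab : y * z * y⁻¹ ≠ y * u * y⁻¹ := by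
    intro h
    apply P.hne
    calc z = y⁻¹ * (y * z * y⁻¹) * y := by group
      _ = y⁻¹ * (y * u * y⁻¹) * y := by rw [h]
      _ = u := by group
  obtain ⟨w, hw, hwz, hwu⟩ := exists_X_conj Mv hq hx ha hb hab
  refine ⟨w, hw, w⁻¹ * y, ?_, ?_, by group⟩
  · have e1 : (w⁻¹ * y) * z * (w⁻¹ * y)⁻¹ = z := by
      calc (w⁻¹ * y) * z * (w⁻¹ * y)⁻¹ = w⁻¹ * (y * z * y⁻¹) * w := by group
        _ = w⁻¹ * (w * z * w⁻¹) * w := by rw [hwz]
        _ = z := by group
    calc (w⁻¹ * y) * z = ((w⁻¹ * y) * z * (w⁻¹ * y)⁻¹) * (w⁻¹ * y) := by group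
      _ = z * (w⁻¹ * y) := by rw [e1]
  · have e1 : (w⁻¹ * y) * u * (w⁻¹ * y)⁻¹ = u := by
      calc (w⁻¹ * y) * u * (w⁻¹ * y)⁻¹ = w⁻¹ * (y * u * y⁻¹) * w := by group
        _ = w⁻¹ * (w * u * w⁻¹) * w := by rw [hwu]
        _ = u := by group
    calc (w⁻¹ * y) * u = ((w⁻¹ * y) * u * (w⁻¹ * y)⁻¹) * (w⁻¹ * y) := by group
      _ = u * (w⁻¹ * y) := by rw [e1]

/-- The subgroup `X = ⟨Q₁, Q₂⟩` is an extension of `R` by the symmetric group of degree 3. -/
theorem sym3_extension [Finite G] (V X R : Subgroup G)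
    (hV : V = Subgroup.closure ({z, u} : Set G)) (hX : X = Q₁ ⊔ Q₂)
    (hR : R = (Q₂ ⊓ Subgroup.centralizer ({z} : Set G)) ⊔
      (Q₁ ⊓ Subgroup.centralizer ({u} : Set G))) :
    R = X ⊓ Subgroup.centralizer (V : Set G) ∧
    R = (Cfsg.pCore 2 ↥X).map X.subtype ∧
    (∃ h : (R.subgroupOf X).Normal, Nonempty (↥X ⧸ R.subgroupOf X ≃* Equiv.Perm (Fin 3))) ∧
    Subgroup.normalizer (V : Set G) =
      X ⊔ (Subgroup.centralizer ({z} : Set G) ⊓ Subgroup.centralizer (V : Set G)) ∧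
    (∀ y ∈ Subgroup.normalizer (V : Set G), ∀ x ∈ X, y * x * y⁻¹ ∈ X) ∧
    R ≤ Subgroup.centralizer ({z} : Set G) ⊓ Subgroup.centralizer (V : Set G) ∧
    (∀ x ∈ X, ∀ c ∈ Subgroup.centralizer ({z} : Set G) ⊓ Subgroup.centralizer (V : Set G),
      x * c * x⁻¹ * c⁻¹ ∈ R) ∧
    X ⊓ (Subgroup.centralizer ({z} : Set G) ⊓ Subgroup.centralizer (V : Set G)) = R := by
  obtain ⟨q, hq, x, hx, Mv⟩ := P.exists_moves
  have hRX : R ≤ X := by rw [hR, hX]; exact R_le_X
  have hRc : ∀ r ∈ R, r * z = z * r ∧ r * u = u * r := by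
    intro r hr; rw [hR] at hr; exact P.R_cent hr
  have hXC : ∀ w ∈ X, w * z = z * w → w * u = u * w → w ∈ R := by
    intro w hw hwz hwu
    rw [hX] at hw; rw [hR]
    exact P.X_inf_cent Mv hq hx hw hwz hwu
  have hCV : ∀ c : G, c ∈ Subgroup.centralizer (V : Set G) ↔ c * z = z * c ∧ c * u = u * c := by
    intro c; rw [hV]; exact mem_cent_closure_pair
  have hXN : X ≤ Subgroup.normalizer (V : Set G) := by
    rw [hX, hV]; exact P.X_le_normalizer_V
  have hdec : ∀ y ∈ Subgroup.normalizer (V : Set G),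
      ∃ w ∈ X, ∃ c : G, c * z = z * c ∧ c * u = u * c ∧ y = w * c := by
    intro y hy
    rw [hV] at hy; rw [hX]
    exact P.norm_V_decomp Mv hq hx hy
  have hcX : ∀ c : G, c * z = z * c → c * u = u * c → ∀ t ∈ X, c * t * c⁻¹ ∈ X := by
    intro c hcz hcu t ht
    rw [hX] at ht ⊢
    exact P.cent_norm_X hcz hcu ht
  -- the homomorphism onto the symmetric group
  have hthree : ∀ w ∈ X, ∀ v : G, (v = z ∨ v = u ∨ v = z * u) →
      (w * v * w⁻¹ = z ∨ w * v * w⁻¹ = u ∨ w * v * w⁻¹ = z * u) := by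
    intro w hw v hv
    have hwN := hXN hw
    rw [hV] at hwN
    exact P.norm_three hwN hv
  obtain ⟨φ, f, hf0, hf1, hf2, hfinj, hφ⟩ :=
    exists_threeHom z u X hthree P.hne P.zzu P.uzu
  have hconj : ∀ t v : G, t * v = v * t → t * v * t⁻¹ = v := by
    intro t v h
    calc t * v * t⁻¹ = (t * v) * t⁻¹ := by group
      _ = (v * t) * t⁻¹ := by rw [h]
      _ = v := by group
  have hconj' : ∀ t v : G, t * v * t⁻¹ = v → t * v = v * t := by
    intro t v h
    calc t * v = (t * v * t⁻¹) * t := by group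
      _ = v * t := by rw [h]
  have hker : φ.ker = R.subgroupOf X := by
    ext w
    rw [MonoidHom.mem_ker, Subgroup.mem_subgroupOf]
    constructor
    · intro hw
      apply hXC _ w.2
      · apply hconj'
        have h1 := hφ w 0
        rw [hw, Equiv.Perm.one_apply, hf0] at h1
        exact h1.symm
      · apply hconj'
        have h1 := hφ w 1
        rw [hw, Equiv.Perm.one_apply, hf1] at h1
        exact h1.symm
    · intro hw
      have hc := hRc _ hw
      apply Equiv.ext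
      intro i
      apply hfinj
      rw [hφ w i]
      show (w : G) * f i * (w : G)⁻¹ = f i
      apply hconj
      fin_cases i
      · show (w : G) * f 0 = f 0 * (w : G)
        rw [hf0]; exact hc.1
      · show (w : G) * f 1 = f 1 * (w : G)
        rw [hf1]; exact hc.2
      · show (w : G) * f 2 = f 2 * (w : G)
        rw [hf2]
        calc (w : G) * (z * u) = ((w : G) * z) * u := by group
          _ = (z * (w : G)) * u := by rw [hc.1]
          _ = z * ((w : G) * u) := by group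
          _ = z * (u * (w : G)) := by rw [hc.2]
          _ = z * u * (w : G) := by group
  have hsurj : Function.Surjective φ := by
    intro σ
    have hfmem : ∀ i : Fin 3, f i = z ∨ f i = u ∨ f i = z * u := by
      intro i
      fin_cases i
      · exact Or.inl hf0
      · exact Or.inr (Or.inl hf1)
      · exact Or.inr (Or.inr hf2)
    have hne01 : f (σ 0) ≠ f (σ 1) := by
      intro h
      have h1 := σ.injective (hfinj h)
      exact absurd h1 (by decide)
    obtain ⟨w, hw, hwz, hwu⟩ := exists_X_conj Mv hq hx (hfmem (σ 0)) (hfmem (σ 1)) hne01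
    have hwX : w ∈ X := by rw [hX]; exact hw
    refine ⟨⟨w, hwX⟩, ?_⟩
    apply perm3_ext
    · apply hfinj
      rw [hφ, hf0]
      exact hwz
    · apply hfinj
      rw [hφ, hf1]
      exact hwu
  have hnormal : (R.subgroupOf X).Normal := by
    rw [← hker]; exact MonoidHom.normal_ker φ
  -- `R` is a 2-group
  have hR2 : IsPGroup 2 ↥(R.subgroupOf X) := by
    intro g
    refine ⟨2, ?_⟩
    apply Subtype.ext
    apply Subtype.ext
    have hg : ((g : ↥X) : G) ∈ R := Subgroup.mem_subgroupOf.1 g.2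
    have h1 : ((g : ↥X) : G) * ((g : ↥X) : G) ∈ Q₁ ⊓ Q₂ := P.R_sq ((le_of_eq hR) hg)
    have h2 := P.E_sq h1
    show (((g ^ 2 ^ 2 : ↥(R.subgroupOf X)) : ↥X) : G) = 1
    rw [Subgroup.coe_pow, Subgroup.coe_pow]
    have e4 : (2 : ℕ) ^ 2 = 4 := by norm_num
    calc ((g : ↥X) : G) ^ 2 ^ 2 = ((g : ↥X) : G) ^ 4 := by rw [e4]
      _ = (((g : ↥X) : G) * ((g : ↥X) : G)) * (((g : ↥X) : G) * ((g : ↥X) : G)) :=
          pow_four_eq' _
      _ = 1 := h2
  refine ⟨?_, ?_, ⟨hnormal, ?_⟩, ?_, ?_, ?_, ?_, ?_⟩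
  · apply le_antisymm
    · intro r hr
      exact Subgroup.mem_inf.2 ⟨hRX hr, (hCV r).2 (hRc r hr)⟩
    · intro w hw
      have hc := (hCV w).1 hw.2
      exact hXC w hw.1 hc.1 hc.2
  · have hp : Cfsg.pCore 2 ↥X = R.subgroupOf X := by
      apply le_antisymm
      · apply sSup_le
        rintro N ⟨hNn, hNp⟩
        have h1 : N.map φ = ⊥ :=
          normal_two_subgroup_perm3 _ (hNn.map φ hsurj) (hNp.map φ)
        rw [← hker]
        exact (Subgroup.map_eq_bot_iff N).1 h1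
      · exact le_sSup ⟨hnormal, hR2⟩
    rw [hp, Subgroup.map_subgroupOf_eq_of_le hRX]
  · have _inst := hnormal
    exact ⟨(QuotientGroup.quotientMulEquivOfEq hker.symm).trans
      (QuotientGroup.quotientKerEquivOfSurjective φ hsurj)⟩
  · apply le_antisymm
    · intro y hy
      obtain ⟨w, hw, c, hcz, hcu, rfl⟩ := hdec y hy
      exact Subgroup.mul_mem _ (Subgroup.mem_sup_left hw)
        (Subgroup.mem_sup_right (Subgroup.mem_inf.2 ⟨mem_cent_sing.2 hcz, (hCV c).2 ⟨hcz, hcu⟩⟩))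
    · apply sup_le hXN
      exact inf_le_right.trans (Subgroup.centralizer_le_normalizer _)
  · intro y hy t ht
    obtain ⟨w, hw, c, hcz, hcu, rfl⟩ := hdec y hy
    have h1 := hcX c hcz hcu t ht
    have e : w * c * t * (w * c)⁻¹ = w * (c * t * c⁻¹) * w⁻¹ := by group
    rw [e]
    exact X.mul_mem (X.mul_mem hw h1) (X.inv_mem hw)
  · intro r hr
    have hc := hRc r hr
    exact Subgroup.mem_inf.2 ⟨mem_cent_sing.2 hc.1, (hCV r).2 hc⟩
  · intro t ht c hc
    have hcc := (hCV c).1 hc.2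
    have ht' : t ∈ Q₁ ⊔ Q₂ := by rw [← hX]; exact ht
    have h1 := P.conj_cent ht' hcc.1 hcc.2
    have h2 : c⁻¹ * z = z * c⁻¹ := inv_comm hcc.1
    have h3 : c⁻¹ * u = u * c⁻¹ := inv_comm hcc.2
    apply hXC
    · have e : t * c * t⁻¹ * c⁻¹ = t * (c * t⁻¹ * c⁻¹) := by group
      rw [e]
      exact X.mul_mem ht (hcX c hcc.1 hcc.2 _ (X.inv_mem ht))
    · calc t * c * t⁻¹ * c⁻¹ * z = (t * c * t⁻¹) * (c⁻¹ * z) := by group
        _ = (t * c * t⁻¹) * (z * c⁻¹) := by rw [h2]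
        _ = ((t * c * t⁻¹) * z) * c⁻¹ := by group
        _ = (z * (t * c * t⁻¹)) * c⁻¹ := by rw [h1.1]
        _ = z * (t * c * t⁻¹ * c⁻¹) := by group
    · calc t * c * t⁻¹ * c⁻¹ * u = (t * c * t⁻¹) * (c⁻¹ * u) := by group
        _ = (t * c * t⁻¹) * (u * c⁻¹) := by rw [h3]
        _ = ((t * c * t⁻¹) * u) * c⁻¹ := by group
        _ = (u * (t * c * t⁻¹)) * c⁻¹ := by rw [h1.2]
        _ = u * (t * c * t⁻¹ * c⁻¹) := by group
  · apply le_antisymm
    · intro w hw
      have hc := (hCV w).1 hw.2.2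
      exact hXC w hw.1 hc.1 hc.2
    · intro r hr
      have hc := hRc r hr
      exact Subgroup.mem_inf.2 ⟨hRX hr,
        Subgroup.mem_inf.2 ⟨mem_cent_sing.2 hc.1, (hCV r).2 hc⟩⟩

end LargePair

end Cfsg.Agent.Lib.Helper30
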