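import Mathlib
import Cfsg.Prelude.Def_Local
import Cfsg.Agent.Lib.Helper30.Bender
import Cfsg.Agent.Lib.Helper30.LargeExtra7

/-!
Large extraspecial 2-subgroups, part 8: a group in which the centralizer `C` of an involution
`z` has `F*(C) = Q` extraspecial of width at least 2, `z` is not weakly closed in `Q`, `C / Q` is
simple and `C` is irreducible on `Q / ⟨z⟩`, is simple.
-/

set_option autoImplicit false

namespace Cfsg.Agent.Lib.Helper30

open scoped commutatorElement

variable {G : Type*} [Group G]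

/-- A fixed-point-free involution inverts. -/
theorem fpf_inverts [Finite G] (N : Subgroup G) (t : G) (htt : t * t = 1)
    (hN : ∀ n ∈ N, t * n * t⁻¹ ∈ N) (hfix : ∀ n ∈ N, n * t = t * n → n = 1) :
    ∀ n ∈ N, t * n * t⁻¹ = n⁻¹ := by
  have hti : t⁻¹ = t := inv_eq_of_mul_eq_one_left htt
  obtain ⟨f, hf⟩ : ∃ f : ↥N → ↥N, ∀ n : ↥N, ((f n : ↥N) : G) = (n : G)⁻¹ * (t * n * t⁻¹) :=
    ⟨fun n => ⟨(n : G)⁻¹ * (t * n * t⁻¹), N.mul_mem (N.inv_mem n.2) (hN n n.2)⟩, fun _ => rfl⟩
  have hinj : Function.Injective f := by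
    intro a b hab
    have h1 : (a : G)⁻¹ * (t * a * t⁻¹) = (b : G)⁻¹ * (t * b * t⁻¹) := by
      rw [← hf a, ← hf b, hab]
    have h2 : ((b : G) * (a : G)⁻¹) * t = t * ((b : G) * (a : G)⁻¹) := by
      calc ((b : G) * (a : G)⁻¹) * t
          = (b : G) * ((a : G)⁻¹ * (t * a * t⁻¹)) * t * (a : G)⁻¹ := by group
        _ = (b : G) * ((b : G)⁻¹ * (t * b * t⁻¹)) * t * (a : G)⁻¹ := by rw [h1]
        _ = t * ((b : G) * (a : G)⁻¹) := by group
    have h3 := hfix _ (N.mul_mem b.2 (N.inv_mem a.2)) h2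
    apply Subtype.ext
    calc (a : G) = ((b : G) * (a : G)⁻¹)⁻¹ * b := by group
      _ = b := by rw [h3]; group
  have hsurj : Function.Surjective f := Finite.injective_iff_surjective.1 hinj
  intro n hn
  obtain ⟨m, hm⟩ := hsurj ⟨n, hn⟩
  have hm' : (m : G)⁻¹ * (t * m * t⁻¹) = n := by
    rw [← hf m, hm]
  rw [← hm']
  calc t * ((m : G)⁻¹ * (t * m * t⁻¹)) * t⁻¹
      = t * (m : G)⁻¹ * t * m * (t * t)⁻¹ := by group
    _ = t * (m : G)⁻¹ * t * m := by rw [htt, inv_one, mul_one]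
    _ = t * (m : G)⁻¹ * t⁻¹ * m := by rw [hti]
    _ = ((m : G)⁻¹ * (t * m * t⁻¹))⁻¹ := by group

/-- Simplicity from an extraspecial generalized Fitting subgroup of an involution
centralizer. -/
theorem simple_of_extraspecial_centralizer [Finite G] (z : G) (hz : orderOf z = 2)
    (C : Subgroup G) (hC : C = Subgroup.centralizer ({z} : Set G))
    (Q : Subgroup ↥C) [hQn : Q.Normal]
    (hF : Cfsg.generalizedFittingSubgroup ↥C = Q)
    (hQ : Cfsg.IsExtraspecial 2 ↥Q) (hcard : 8 < Nat.card ↥Q)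
    (hnwc : ∃ g : G, (∃ hq : g * z * g⁻¹ ∈ C, (⟨g * z * g⁻¹, hq⟩ : ↥C) ∈ Q) ∧ g * z * g⁻¹ ≠ z)
    (hsimp : IsSimpleGroup (↥C ⧸ Q))
    (hirr : ∀ W : Subgroup ↥C, W.Normal → W ≤ Q →
      (W = Q ∨ ∀ x ∈ W, (x : G) ∈ Subgroup.zpowers z)) :
    IsSimpleGroup G := by
  have hCmem : ∀ c : G, c ∈ C ↔ c * z = z * c := by intro c; rw [hC]; exact mem_cent_sing
  have hzz : z * z = 1 := by
    have h := pow_orderOf_eq_one z
    rw [hz, pow_two] at h
    exact h
  have hz1 : z ≠ 1 := by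
    intro h
    rw [h, orderOf_one] at hz
    norm_num at hz
  have hzC : z ∈ C := (hCmem z).2 rfl
  have hB : Subgroup.centralizer (Q : Set ↥C) ≤ Q := by
    rw [← hF]; exact centralizer_generalizedFittingSubgroup_le ↥C
  have d : ClassTwoData (Q.map C.subtype) z :=
    classTwoData_of_extraspecial C Q hQ hB z hzC (fun c hc => ((hCmem c).1 hc).symm) hz1 hzz
  obtain ⟨Qh, hQh⟩ : ∃ Qh : Subgroup G, Qh = Q.map C.subtype := ⟨_, rfl⟩
  rw [← hQh] at d
  have hQhmem : ∀ x : G, x ∈ Qh ↔ ∃ hx : x ∈ C, (⟨x, hx⟩ : ↥C) ∈ Q := by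
    intro x
    rw [hQh]
    constructor
    · rintro ⟨y, hy, rfl⟩
      exact ⟨y.2, hy⟩
    · rintro ⟨hx, hxQ⟩
      exact ⟨⟨x, hx⟩, hxQ, rfl⟩
  have L : LargeData Qh z := by
    refine ⟨d, ?_, ?_, ?_⟩
    · intro c hc q hq
      obtain ⟨hqC, hqQ⟩ := (hQhmem q).1 hq
      have hcC : c ∈ C := (hCmem c).2 hc
      rw [hQhmem]
      refine ⟨C.mul_mem (C.mul_mem hcC hqC) (C.inv_mem hcC), ?_⟩
      exact hQn.conj_mem ⟨q, hqC⟩ hqQ ⟨c, hcC⟩
    · intro c hc
      have hcC : c ∈ C := (hCmem c).2 (hc z d.hzQ)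
      have h1 : (⟨c, hcC⟩ : ↥C) ∈ Subgroup.centralizer (Q : Set ↥C) := by
        rw [Subgroup.mem_centralizer_iff]
        intro q hq
        apply Subtype.ext
        exact (hc (q : G) ((hQhmem _).2 ⟨q.2, hq⟩)).symm
      have h2 : c ∈ Qh := (hQhmem c).2 ⟨hcC, hB h1⟩
      exact d.hcen c h2 hc
    · rw [hQh, Subgroup.card_map_of_injective C.subtype_injective]
      exact hcard
  obtain ⟨g, ⟨hq, hgQ⟩, hgz⟩ := hnwc
  have hu : g * z * g⁻¹ ∈ Qh := (hQhmem _).2 ⟨hq, hgQ⟩
  obtain ⟨Q₂, hQ₂⟩ : ∃ Q₂ : Subgroup G, Q₂ = Qh.map (MulAut.conj g).toMonoidHom := ⟨_, rfl⟩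
  have hQ₂mem : ∀ y, y ∈ Q₂ ↔ g⁻¹ * y * g ∈ Qh := by
    intro y; rw [hQ₂, Subgroup.mem_map_equiv, MulAut.conj_symm_apply]
  have P : LargePair Qh Q₂ z (g * z * g⁻¹) := LargePair.of_conj L g hu hgz Q₂ hQ₂mem
  obtain ⟨u, hudef⟩ : ∃ u, u = g * z * g⁻¹ := ⟨_, rfl⟩
  rw [← hudef] at P hu hgz
  haveI : Nontrivial G := ⟨⟨z, 1, hz1⟩⟩
  refine ⟨fun N hN => ?_⟩
  by_cases hNbot : N = ⊥
  · exact Or.inl hNbot
  right
  have hNconj : ∀ n ∈ N, ∀ h : G, h * n * h⁻¹ ∈ N := fun n hn h => hN.conj_mem n hn h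
  haveI := hN
  have hNCn : (N.subgroupOf C).Normal := inferInstance
  haveI := hNCn
  have hWn : (N.subgroupOf C ⊓ Q).Normal := inferInstance
  rcases hirr (N.subgroupOf C ⊓ Q) hWn inf_le_right with hW | hW
  · -- Case 1: `Q ≤ N`
    have hQNC : Q ≤ N.subgroupOf C := by
      intro x hx
      have h1 : x ∈ N.subgroupOf C ⊓ Q := by rw [hW]; exact hx
      exact h1.1
    have hQN : Qh ≤ N := by
      intro x hx
      obtain ⟨hxC, hxQ⟩ := (hQhmem x).1 hx
      exact Subgroup.mem_subgroupOf.1 (hQNC hxQ)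
    have hmapn : ((N.subgroupOf C).map (QuotientGroup.mk' Q)).Normal :=
      hNCn.map _ (QuotientGroup.mk'_surjective Q)
    rcases hsimp.eq_bot_or_eq_top_of_normal _ hmapn with hbot | htop
    · -- `N ∩ C = Q`
      exfalso
      have hle : N.subgroupOf C ≤ Q := by
        have h1 := (Subgroup.map_eq_bot_iff (N.subgroupOf C)).1 hbot
        rw [QuotientGroup.ker_mk'] at h1
        exact h1
      have hNCQ : ∀ n ∈ N, n * z = z * n → n ∈ Qh := by
        intro n hn hnz
        have hnC : n ∈ C := (hCmem n).2 hnz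
        exact (hQhmem n).2 ⟨hnC, hle (Subgroup.mem_subgroupOf.2 hn)⟩
      have hQ₂N : Q₂ ≤ N := by
        intro y hy
        have h1 := hQN ((hQ₂mem y).1 hy)
        have h2 := hNconj _ h1 g
        have e : g * (g⁻¹ * y * g) * g⁻¹ = y := by group
        rw [e] at h2
        exact h2
      obtain ⟨a, ha, b, hb, haz, hbz, hab⟩ :=
        P.L₂.d.exists_comm_eq_z P.hz P.z1 P.hne P.zz P.L₂.hcard
      have haE : a ∈ Qh ⊓ Q₂ := Subgroup.mem_inf.2 ⟨hNCQ a (hQ₂N ha) haz, ha⟩
      have hbE : b ∈ Qh ⊓ Q₂ := Subgroup.mem_inf.2 ⟨hNCQ b (hQ₂N hb) hbz, hb⟩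
      have hc := P.E_comm haE hbE
      apply P.u1
      rw [← hab, hc]
      group
    · -- `C ≤ N`
      have hCN : C ≤ N := by
        intro c hc
        have h1 : (QuotientGroup.mk' Q ⟨c, hc⟩) ∈ (N.subgroupOf C).map (QuotientGroup.mk' Q) := by
          rw [htop]; trivial
        obtain ⟨n, hn, hnc⟩ := h1
        have h2 : n⁻¹ * ⟨c, hc⟩ ∈ Q := QuotientGroup.eq.1 hnc
        have h3 : (n⁻¹ * ⟨c, hc⟩ : ↥C) ∈ N.subgroupOf C := hQNC h2
        have h4 : (⟨c, hc⟩ : ↥C) ∈ N.subgroupOf C := by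
          have h5 := (N.subgroupOf C).mul_mem hn h3
          have e : n * (n⁻¹ * ⟨c, hc⟩) = (⟨c, hc⟩ : ↥C) := by group
          rw [e] at h5
          exact h5
        exact Subgroup.mem_subgroupOf.1 h4
      haveI : Fact (Nat.Prime 2) := ⟨Nat.prime_two⟩
      have hQNp : IsPGroup 2 ↥(Qh.subgroupOf N) := by
        intro x
        refine ⟨2, ?_⟩
        apply Subtype.ext
        apply Subtype.ext
        have hx : ((x : ↥N) : G) ∈ Qh := Subgroup.mem_subgroupOf.1 x.2
        show (((x ^ 2 ^ 2 : ↥(Qh.subgroupOf N)) : ↥N) : G) = 1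
        rw [Subgroup.coe_pow, Subgroup.coe_pow]
        have e4 : (2 : ℕ) ^ 2 = 4 := by norm_num
        rw [e4, pow_four_eq']
        rcases d.sq_mem hx with h | h
        · rw [h, one_mul]
        · rw [h, hzz]
      obtain ⟨T, hT⟩ := hQNp.exists_le_sylow
      obtain ⟨Th, hTh⟩ : ∃ Th : Subgroup G, Th = (T : Subgroup ↥N).map N.subtype := ⟨_, rfl⟩
      have hThmem : ∀ x : G, x ∈ Th ↔ ∃ hx : x ∈ N, (⟨x, hx⟩ : ↥N) ∈ T := by
        intro x
        rw [hTh]
        constructor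
        · rintro ⟨y, hy, rfl⟩
          exact ⟨y.2, hy⟩
        · rintro ⟨hx, hxT⟩
          exact ⟨⟨x, hx⟩, hxT, rfl⟩
      have hQT : Qh ≤ Th := by
        intro x hx
        rw [hThmem]
        exact ⟨hQN hx, hT (Subgroup.mem_subgroupOf.2 hx)⟩
      have hfrat : Subgroup.normalizer (Th : Set G) ⊔ N = ⊤ := by
        rw [hTh]; exact Sylow.normalizer_sup_eq_top T
      have hTp : IsPGroup 2 ↥(T : Subgroup ↥N) := T.isPGroup'
      have hzT : (⟨z, hQN d.hzQ⟩ : ↥N) ∈ T := hT (Subgroup.mem_subgroupOf.2 d.hzQ)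
      haveI : Nontrivial ↥(T : Subgroup ↥N) := by
        refine ⟨⟨⟨⟨z, hQN d.hzQ⟩, hzT⟩, 1, ?_⟩⟩
        intro h
        exact hz1 (congrArg (fun t : ↥(T : Subgroup ↥N) => ((t : ↥N) : G)) h)
      haveI := hTp.center_nontrivial
      obtain ⟨c, hc⟩ := exists_ne (1 : Subgroup.center ↥(T : Subgroup ↥N))
      -- `z` is central in `Th`
      have hzcent : ∀ t ∈ Th, z * t = t * z := by
        have hcc : ∀ t ∈ Th, (((c : ↥(T : Subgroup ↥N)) : ↥N) : G) * t =
            t * (((c : ↥(T : Subgroup ↥N)) : ↥N) : G) := by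
          intro t ht
          obtain ⟨htN, htT⟩ := (hThmem t).1 ht
          have h1 := Subgroup.mem_center_iff.1 c.2 ⟨⟨t, htN⟩, htT⟩
          have h2 := congrArg (fun s : ↥(T : Subgroup ↥N) => ((s : ↥N) : G)) h1
          exact h2.symm
        have hc1 : (((c : ↥(T : Subgroup ↥N)) : ↥N) : G) ≠ 1 := by
          intro h
          apply hc
          apply Subtype.ext
          apply Subtype.ext
          apply Subtype.ext
          exact h
        rcases L.hC _ (fun q hq => hcc q (hQT hq)) with h | h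
        · exact absurd h hc1
        · rw [← h]; exact hcc
      have hnormC : Subgroup.normalizer (Th : Set G) ≤ N := by
        intro n hn
        apply hCN
        rw [hCmem]
        have h1 : ∀ q ∈ Qh, (n * z * n⁻¹) * q = q * (n * z * n⁻¹) := by
          intro q hq
          have h2 : n⁻¹ * q * n ∈ Th := by
            have h3 := (Subgroup.mem_normalizer_iff.1 (Subgroup.inv_mem _ hn) q).1 (hQT hq)
            rw [inv_inv] at h3
            exact h3
          have h4 := hzcent _ h2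
          calc (n * z * n⁻¹) * q = n * (z * (n⁻¹ * q * n)) * n⁻¹ := by group
            _ = n * ((n⁻¹ * q * n) * z) * n⁻¹ := by rw [h4]
            _ = q * (n * z * n⁻¹) := by group
        rcases L.hC _ h1 with h | h
        · exfalso
          apply hz1
          calc z = n⁻¹ * (n * z * n⁻¹) * n := by group
            _ = 1 := by rw [h]; group
        · calc n * z = (n * z * n⁻¹) * n := by group
            _ = z * n := by rw [h]
      rw [eq_top_iff, ← hfrat]
      exact sup_le hnormC le_rfl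
  · -- Case 2: `N ∩ Q ≤ ⟨z⟩`
    have hNQ : ∀ n ∈ N, n ∈ Qh → n = 1 ∨ n = z := by
      intro n hn hnQ
      obtain ⟨hnC, hnQ'⟩ := (hQhmem n).1 hnQ
      have h1 := hW ⟨n, hnC⟩ (Subgroup.mem_inf.2 ⟨Subgroup.mem_subgroupOf.2 hn, hnQ'⟩)
      exact (mem_zpowers_of_sq hzz).1 h1
    have hcomm : ∀ n ∈ N, n * z = z * n → ∀ q ∈ Qh,
        n * q * n⁻¹ * q⁻¹ = 1 ∨ n * q * n⁻¹ * q⁻¹ = z := by
      intro n hn hnz q hq
      apply hNQ
      · have e : n * q * n⁻¹ * q⁻¹ = n * (q * n⁻¹ * q⁻¹) := by group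
        rw [e]
        exact N.mul_mem hn (hNconj _ (N.inv_mem hn) q)
      · exact Qh.mul_mem (L.hN n hnz q hq) (Qh.inv_mem hq)
    have hsq : ∀ n ∈ N, n * z = z * n → n * n = 1 ∨ n * n = z := by
      intro n hn hnz
      apply L.hC
      intro q hq
      rcases hcomm n hn hnz q hq with h | h
      · have h1 : n * q = q * n := by
          calc n * q = (n * q * n⁻¹ * q⁻¹) * (q * n) := by group
            _ = q * n := by rw [h, one_mul]
        calc n * n * q = n * (n * q) := by group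
          _ = n * (q * n) := by rw [h1]
          _ = (n * q) * n := by group
          _ = (q * n) * n := by rw [h1]
          _ = q * (n * n) := by group
      · have h1 : n * q = z * (q * n) := by
          calc n * q = (n * q * n⁻¹ * q⁻¹) * (q * n) := by group
            _ = z * (q * n) := by rw [h]
        calc n * n * q = n * (n * q) := by group
          _ = n * (z * (q * n)) := by rw [h1]
          _ = (n * z) * (q * n) := by group
          _ = (z * n) * (q * n) := by rw [hnz]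
          _ = z * (n * q) * n := by group
          _ = z * (z * (q * n)) * n := by rw [h1]
          _ = (z * z) * q * (n * n) := by group
          _ = q * (n * n) := by rw [hzz, one_mul]
    have hNCp : IsPGroup 2 ↥(N.subgroupOf C) := by
      intro x
      refine ⟨2, ?_⟩
      apply Subtype.ext
      apply Subtype.ext
      have hxN : ((x : ↥C) : G) ∈ N := Subgroup.mem_subgroupOf.1 x.2
      have hxz : ((x : ↥C) : G) * z = z * ((x : ↥C) : G) := (hCmem _).1 (x : ↥C).2
      show (((x ^ 2 ^ 2 : ↥(N.subgroupOf C)) : ↥C) : G) = 1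
      rw [Subgroup.coe_pow, Subgroup.coe_pow]
      have e4 : (2 : ℕ) ^ 2 = 4 := by norm_num
      rw [e4, pow_four_eq']
      rcases hsq _ hxN hxz with h | h
      · rw [h, one_mul]
      · rw [h, hzz]
    have hNCQ : N.subgroupOf C ≤ Q := by
      haveI : Fact (Nat.Prime 2) := ⟨Nat.prime_two⟩
      have hnil : Group.IsNilpotent ↥(N.subgroupOf C) := hNCp.isNilpotent
      rw [← hF]
      have h1 : N.subgroupOf C ≤ Cfsg.fittingSubgroup ↥C := le_sSup ⟨hNCn, hnil⟩
      show N.subgroupOf C ≤ Cfsg.layer ↥C ⊔ Cfsg.fittingSubgroup ↥C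
      exact le_trans h1 le_sup_right
    have hfix : ∀ n ∈ N, n * z = z * n → n = 1 ∨ n = z := by
      intro n hn hnz
      have hnC : n ∈ C := (hCmem n).2 hnz
      exact hNQ n hn ((hQhmem n).2 ⟨hnC, hNCQ (Subgroup.mem_subgroupOf.2 hn)⟩)
    by_cases hzN : z ∈ N
    · exfalso
      have huN : u ∈ N := by rw [hudef]; exact hNconj z hzN g
      rcases hfix u huN P.zu.symm with h | h
      · exact P.u1 h
      · exact P.hne h.symm
    · exfalso
      have hfix1 : ∀ n ∈ N, n * z = z * n → n = 1 := by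
        intro n hn hnz
        rcases hfix n hn hnz with h | h
        · exact h
        · exact absurd (h ▸ hn) hzN
      have hfixc : ∀ h : G, ∀ n ∈ N, n * (h * z * h⁻¹) = (h * z * h⁻¹) * n → n = 1 := by
        intro h n hn hnc
        have h1 : h⁻¹ * n * h ∈ N := by
          have h0 := hNconj n hn h⁻¹
          rw [inv_inv] at h0
          exact h0
        have h2 : (h⁻¹ * n * h) * z = z * (h⁻¹ * n * h) := by
          calc (h⁻¹ * n * h) * z = h⁻¹ * (n * (h * z * h⁻¹)) * h := by group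
            _ = h⁻¹ * ((h * z * h⁻¹) * n) * h := by rw [hnc]
            _ = z * (h⁻¹ * n * h) := by group
        have h3 := hfix1 _ h1 h2
        calc n = h * (h⁻¹ * n * h) * h⁻¹ := by group
          _ = 1 := by rw [h3]; group
      have hinvz : ∀ n ∈ N, z * n * z⁻¹ = n⁻¹ :=
        fpf_inverts N z hzz (fun n hn => hNconj n hn z) hfix1
      have hinvu : ∀ n ∈ N, u * n * u⁻¹ = n⁻¹ := by
        apply fpf_inverts N u P.uu (fun n hn => hNconj n hn u)
        intro n hn hnu
        rw [hudef] at hnu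
        exact hfixc g n hn hnu
      obtain ⟨q, hq, x, hx, Mv⟩ := P.exists_moves
      apply hNbot
      rw [Subgroup.eq_bot_iff_forall]
      intro n hn
      apply hfixc x n hn
      rw [Mv.xz]
      have h1 := hinvu n hn
      have h2 := hinvz n⁻¹ (N.inv_mem hn)
      rw [inv_inv] at h2
      have h3 : (z * u) * n * (z * u)⁻¹ = n := by
        calc (z * u) * n * (z * u)⁻¹ = z * (u * n * u⁻¹) * z⁻¹ := by group
          _ = z * n⁻¹ * z⁻¹ := by rw [h1]
          _ = n := h2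
      calc n * (z * u) = ((z * u) * n * (z * u)⁻¹) * (z * u) := by rw [h3]
        _ = (z * u) * n := by group

end Cfsg.Agent.Lib.Helper30
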