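import Mathlib
import Cfsg.Prelude.Def_MonsterType
import Cfsg.Prelude.Def_CaseTheorems
import Cfsg.Agent.Lib.Helper30.LargeExtra8

/-!
Large extraspecial 2-subgroups, part 9: the odd-order condition from a noncentral involution
`u ∈ Q` with `z` in a normal 2-subgroup of `C(u)`; simplicity when `C(z)` is generated by
conjugates of an abelian subgroup generated by conjugates of `z`.
-/

set_option autoImplicit false

namespace Cfsg.Agent.Lib.Helper30

open scoped commutatorElement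

variable {G : Type*} [Group G]

/-- An extraspecial 2-subgroup with a given central involution is class-two data. -/
theorem classTwoData_of_extraspecial' (Q : Subgroup G) (hE : Cfsg.IsExtraspecial 2 ↥Q) (z : G)
    (hzQ : z ∈ Q) (hzc : ∀ q ∈ Q, z * q = q * z) (hz1 : z ≠ 1) (hzz : z * z = 1) :
    ClassTwoData Q z := by
  obtain ⟨⟨-, -, hcomm⟩, hcard⟩ := hE
  have hζc : (⟨z, hzQ⟩ : ↥Q) ∈ Subgroup.center ↥Q := by
    rw [Subgroup.mem_center_iff]
    intro g
    apply Subtype.ext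
    exact (hzc (g : G) g.2).symm
  have hcenter : ∀ w : ↥Q, w ∈ Subgroup.center ↥Q → w = 1 ∨ w = ⟨z, hzQ⟩ := by
    intro w hw
    obtain ⟨y, hy, huniq⟩ := (Nat.card_eq_two_iff' (1 : Subgroup.center ↥Q)).1 hcard
    by_cases hw1 : w = 1
    · exact Or.inl hw1
    · right
      have h1 : (⟨w, hw⟩ : Subgroup.center ↥Q) = y :=
        huniq _ (fun h => hw1 (congrArg Subtype.val h))
      have h2 : (⟨⟨z, hzQ⟩, hζc⟩ : Subgroup.center ↥Q) = y :=
        huniq _ (fun h => hz1 (congrArg (fun t : Subgroup.center ↥Q => ((t : ↥Q) : G)) h))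
      exact congrArg Subtype.val (h1.trans h2.symm)
  refine ⟨hzQ, hz1, hzz, hzc, ?_, ?_⟩
  · intro x hx y hy
    have h1 : ⁅(⟨x, hx⟩ : ↥Q), (⟨y, hy⟩ : ↥Q)⁆ ∈ commutator ↥Q := by
      rw [commutator_def]
      exact Subgroup.commutator_mem_commutator (Subgroup.mem_top _) (Subgroup.mem_top _)
    rw [hcomm] at h1
    rcases hcenter _ h1 with h | h
    · left
      have := congrArg Subtype.val h
      simpa [commutatorElement_def] using this
    · right
      have := congrArg Subtype.val h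
      simpa [commutatorElement_def] using this
  · intro x hx hxc
    have h1 : (⟨x, hx⟩ : ↥Q) ∈ Subgroup.center ↥Q := by
      rw [Subgroup.mem_center_iff]
      intro g
      apply Subtype.ext
      exact (hxc (g : G) g.2).symm
    rcases hcenter _ h1 with h | h
    · left; exact congrArg Subtype.val h
    · right; exact congrArg Subtype.val h

/-- Large data plus the odd-order condition give a large extraspecial subgroup. -/
theorem isLargeExtraspecial_of_largeData (Q : Subgroup G) (z : G)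
    (hE : Cfsg.IsExtraspecial 2 ↥Q) (L : LargeData Q z)
    (hodd : ∀ K : Subgroup G, Odd (Nat.card K) → Q ≤ Subgroup.normalizer (K : Set G) → K = ⊥) :
    Cfsg.IsLargeExtraspecial Q := by
  have hcenter : ∀ x : G, x ∈ (Subgroup.center ↥Q).map Q.subtype ↔ x = 1 ∨ x = z := by
    intro x
    constructor
    · rintro ⟨y, hy, rfl⟩
      apply L.d.hcen _ y.2
      intro q hq
      have h := Subgroup.mem_center_iff.1 hy ⟨q, hq⟩
      exact (congrArg Subtype.val h).symm
    · rintro (h | h)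
      · rw [h]; exact Subgroup.one_mem _
      · rw [h]
        refine ⟨⟨z, L.d.hzQ⟩, Subgroup.mem_center_iff.2 ?_, rfl⟩
        intro q
        apply Subtype.ext
        exact (L.d.hzc (q : G) q.2).symm
  refine ⟨hE, ?_, ?_, hodd⟩
  · ext x
    rw [hcenter, Subgroup.mem_centralizer_iff]
    constructor
    · intro h
      exact L.hC x (fun q hq => (h q hq).symm)
    · rintro (h | h)
      · intro q _; rw [h]; simp
      · intro q hq; rw [h]; exact (L.d.hzc q hq).symm
  · intro c hc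
    rw [Subgroup.mem_centralizer_iff] at hc
    have hcz : c * z = z * c := (hc z ((hcenter z).2 (Or.inr rfl))).symm
    apply mem_normalizer_of_conj_mem
    · intro q hq; exact L.hN c hcz q hq
    · intro q hq
      have h := L.hN c⁻¹ (LargePair.inv_comm hcz) q hq
      rw [inv_inv] at h
      exact h

namespace LargeData

variable {Q : Subgroup G} {z : G}

theorem pow_four (L : LargeData Q z) {q : G} (hq : q ∈ Q) : q ^ 2 ^ 2 = 1 := by
  have e4 : (2 : ℕ) ^ 2 = 4 := by norm_num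
  rw [e4, pow_four_eq']
  rcases L.d.sq_mem hq with h | h
  · rw [h, one_mul]
  · rw [h, L.d.hzz]

/-- The odd-order condition. -/
theorem odd_of_O2 [Finite G] (L : LargeData Q z) {u : G} (hu : u ∈ Q) (hu1 : u ≠ 1)
    (huz : u ≠ z) (huu : u * u = 1) (O : Subgroup G) (hzO : z ∈ O)
    (hO2 : ∀ o ∈ O, ∃ j : ℕ, o ^ 2 ^ j = 1)
    (hOn : ∀ c : G, c * u = u * c → ∀ o ∈ O, c * o * c⁻¹ ∈ O)
    (K : Subgroup G) (hK : Odd (Nat.card K)) (hQK : Q ≤ Subgroup.normalizer (K : Set G)) :
    K = ⊥ := by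
  have hK2 : ∀ k ∈ K, (∃ j : ℕ, k ^ 2 ^ j = 1) → k = 1 := by
    rintro k hk ⟨j, hj⟩
    have h1 : orderOf k ∣ 2 ^ j := orderOf_dvd_of_pow_eq_one hj
    have h2 : orderOf k ∣ Nat.card K := by
      rw [← Subgroup.orderOf_mk k hk]
      exact orderOf_dvd_natCard _
    have hcop : Nat.Coprime (2 ^ j) (Nat.card K) := Nat.Coprime.pow_left j hK.coprime_two_left
    have h3 := Nat.eq_one_of_dvd_coprimes hcop h1 h2
    exact orderOf_eq_one_iff.1 h3
  have hQKn : ∀ q ∈ Q, ∀ k ∈ K, q * k * q⁻¹ ∈ K :=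
    fun q hq k hk => (Subgroup.mem_normalizer_iff.1 (hQK hq) k).1 hk
  have ha : ∀ k ∈ K, k * z = z * k → k = 1 := by
    intro k hk hkz
    have hcent : ∀ q ∈ Q, k * q = q * k := by
      intro q hq
      have h1 : k * q * k⁻¹ * q⁻¹ ∈ K := by
        have e : k * q * k⁻¹ * q⁻¹ = k * (q * k⁻¹ * q⁻¹) := by group
        rw [e]
        exact K.mul_mem hk (hQKn q hq _ (K.inv_mem hk))
      have h2 : k * q * k⁻¹ * q⁻¹ ∈ Q := Q.mul_mem (L.hN k hkz q hq) (Q.inv_mem hq)
      have h3 := hK2 _ h1 ⟨2, L.pow_four h2⟩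
      calc k * q = (k * q * k⁻¹ * q⁻¹) * (q * k) := by group
        _ = q * k := by rw [h3, one_mul]
    rcases L.hC k hcent with h | h
    · exact h
    · exfalso
      apply L.d.hz1
      apply hK2 z (h ▸ hk)
      exact ⟨1, by rw [pow_one, pow_two]; exact L.d.hzz⟩
  have hb : ∀ k ∈ K, k * u = u * k → k = 1 := by
    intro k hk hku
    apply ha k hk
    have h1 : k * z * k⁻¹ * z⁻¹ ∈ K := by
      have e : k * z * k⁻¹ * z⁻¹ = k * (z * k⁻¹ * z⁻¹) := by group
      rw [e]
      exact K.mul_mem hk (hQKn z L.d.hzQ _ (K.inv_mem hk))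
    have h2 : k * z * k⁻¹ * z⁻¹ ∈ O := O.mul_mem (hOn k hku z hzO) (O.inv_mem hzO)
    have h3 := hK2 _ h1 (hO2 _ h2)
    calc k * z = (k * z * k⁻¹ * z⁻¹) * (z * k) := by group
      _ = z * k := by rw [h3, one_mul]
  have hc : ∀ k ∈ K, k * (z * u) = (z * u) * k → k = 1 := by
    obtain ⟨q, hq, hqu⟩ := L.d.exists_conj_eq hu hu1 huz
    intro k hk hkzu
    have h1 : q⁻¹ * k * q ∈ K := by
      have h0 := hQKn q⁻¹ (Q.inv_mem hq) k hk
      rw [inv_inv] at h0
      exact h0
    have h2 : (q⁻¹ * k * q) * u = u * (q⁻¹ * k * q) := by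
      calc (q⁻¹ * k * q) * u = q⁻¹ * (k * (q * u * q⁻¹)) * q := by group
        _ = q⁻¹ * (k * (z * u)) * q := by rw [hqu]
        _ = q⁻¹ * ((z * u) * k) * q := by rw [hkzu]
        _ = q⁻¹ * ((q * u * q⁻¹) * k) * q := by rw [hqu]
        _ = u * (q⁻¹ * k * q) := by group
    have h3 := hb _ h1 h2
    calc k = q * (q⁻¹ * k * q) * q⁻¹ := by group
      _ = 1 := by rw [h3]; group
  have hinvz := fpf_inverts K z L.d.hzz (hQKn z L.d.hzQ) ha
  have hinvu := fpf_inverts K u huu (hQKn u hu) hb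
  rw [Subgroup.eq_bot_iff_forall]
  intro k hk
  apply hc k hk
  have h1 := hinvu k hk
  have h2 := hinvz k⁻¹ (K.inv_mem hk)
  rw [inv_inv] at h2
  have h3 : (z * u) * k * (z * u)⁻¹ = k := by
    calc (z * u) * k * (z * u)⁻¹ = z * (u * k * u⁻¹) * z⁻¹ := by group
      _ = z * k⁻¹ * z⁻¹ := by rw [h1]
      _ = k := h2
  calc k * (z * u) = ((z * u) * k * (z * u)⁻¹) * (z * u) := by rw [h3]
    _ = (z * u) * k := by group

/-- A normal subgroup containing `C(z)` is the whole group (Frattini argument). -/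
theorem eq_top_of_centralizer_le [Finite G] (L : LargeData Q z) (N : Subgroup G) [hN : N.Normal]
    (hCN : ∀ c : G, c * z = z * c → c ∈ N) : N = ⊤ := by
  have hz1 := L.d.hz1
  have hQN : Q ≤ N := fun q hq => hCN q (L.z_comm hq)
  haveI : Fact (Nat.Prime 2) := ⟨Nat.prime_two⟩
  have hQNp : IsPGroup 2 ↥(Q.subgroupOf N) := by
    intro x
    refine ⟨2, ?_⟩
    apply Subtype.ext
    apply Subtype.ext
    have hx : ((x : ↥N) : G) ∈ Q := Subgroup.mem_subgroupOf.1 x.2
    show (((x ^ 2 ^ 2 : ↥(Q.subgroupOf N)) : ↥N) : G) = 1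
    rw [Subgroup.coe_pow, Subgroup.coe_pow]
    exact L.pow_four hx
  obtain ⟨T, hT⟩ := hQNp.exists_le_sylow
  obtain ⟨Th, hTh⟩ : ∃ Th : Subgroup G, Th = (T : Subgroup ↥N).map N.subtype := ⟨_, rfl⟩
  have hThmem : ∀ x : G, x ∈ Th ↔ ∃ hx : x ∈ N, (⟨x, hx⟩ : ↥N) ∈ T := by
    intro x
    rw [hTh]
    constructor
    · rintro ⟨y, hy, rfl⟩
      exact ⟨y.2, hy⟩
    · rintro ⟨hx, hxT⟩
      exact ⟨⟨x, hx⟩, hxT, rfl⟩
  have hQT : Q ≤ Th := by
    intro x hx
    rw [hThmem]
    exact ⟨hQN hx, hT (Subgroup.mem_subgroupOf.2 hx)⟩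
  have hfrat : Subgroup.normalizer (Th : Set G) ⊔ N = ⊤ := by
    rw [hTh]; exact Sylow.normalizer_sup_eq_top T
  have hTp : IsPGroup 2 ↥(T : Subgroup ↥N) := T.isPGroup'
  have hzT : (⟨z, hQN L.d.hzQ⟩ : ↥N) ∈ T := hT (Subgroup.mem_subgroupOf.2 L.d.hzQ)
  haveI : Nontrivial ↥(T : Subgroup ↥N) := by
    refine ⟨⟨⟨⟨z, hQN L.d.hzQ⟩, hzT⟩, 1, ?_⟩⟩
    intro h
    exact hz1 (congrArg (fun t : ↥(T : Subgroup ↥N) => ((t : ↥N) : G)) h)
  haveI := hTp.center_nontrivial
  obtain ⟨c, hc⟩ := exists_ne (1 : Subgroup.center ↥(T : Subgroup ↥N))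
  have hzcent : ∀ t ∈ Th, z * t = t * z := by
    have hcc : ∀ t ∈ Th, (((c : ↥(T : Subgroup ↥N)) : ↥N) : G) * t =
        t * (((c : ↥(T : Subgroup ↥N)) : ↥N) : G) := by
      intro t ht
      obtain ⟨htN, htT⟩ := (hThmem t).1 ht
      have h1 := Subgroup.mem_center_iff.1 c.2 ⟨⟨t, htN⟩, htT⟩
      have h2 := congrArg (fun s : ↥(T : Subgroup ↥N) => ((s : ↥N) : G)) h1
      exact h2.symm
    have hc1 : (((c : ↥(T : Subgroup ↥N)) : ↥N) : G) ≠ 1 := by
      intro h
      apply hc
      apply Subtype.ext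
      apply Subtype.ext
      apply Subtype.ext
      exact h
    rcases L.hC _ (fun q hq => hcc q (hQT hq)) with h | h
    · exact absurd h hc1
    · rw [← h]; exact hcc
  have hnormC : Subgroup.normalizer (Th : Set G) ≤ N := by
    intro n hn
    apply hCN
    have h1 : ∀ q ∈ Q, (n * z * n⁻¹) * q = q * (n * z * n⁻¹) := by
      intro q hq
      have h2 : n⁻¹ * q * n ∈ Th := by
        have h3 := (Subgroup.mem_normalizer_iff.1 (Subgroup.inv_mem _ hn) q).1 (hQT hq)
        rw [inv_inv] at h3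
        exact h3
      have h4 := hzcent _ h2
      calc (n * z * n⁻¹) * q = n * (z * (n⁻¹ * q * n)) * n⁻¹ := by group
        _ = n * ((n⁻¹ * q * n) * z) * n⁻¹ := by rw [h4]
        _ = q * (n * z * n⁻¹) := by group
    rcases L.hC _ h1 with h | h
    · exfalso
      apply hz1
      calc z = n⁻¹ * (n * z * n⁻¹) * n := by group
        _ = 1 := by rw [h]; group
    · calc n * z = (n * z * n⁻¹) * n := by group
        _ = z * n := by rw [h]
  rw [eq_top_iff, ← hfrat]
  exact sup_le hnormC le_rfl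

/-- A normal subgroup not containing `z` is trivial, given the odd-order condition. -/
theorem eq_bot_of_not_mem [Finite G] (L : LargeData Q z)
    (hodd : ∀ K : Subgroup G, Odd (Nat.card K) → Q ≤ Subgroup.normalizer (K : Set G) → K = ⊥)
    (M : Subgroup G) [hM : M.Normal] (hzM : z ∉ M) : M = ⊥ := by
  have hMconj : ∀ m ∈ M, ∀ h : G, h * m * h⁻¹ ∈ M := fun m hm h => hM.conj_mem m hm h
  have hMQ : ∀ m ∈ M, m ∈ Q → m = 1 := by
    intro m hm hmQ
    by_contra hm1
    by_cases hcen : ∀ q ∈ Q, m * q = q * m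
    · rcases L.d.hcen m hmQ hcen with h | h
      · exact hm1 h
      · exact hzM (h ▸ hm)
    · push Not at hcen
      obtain ⟨q, hq, hne⟩ := hcen
      rcases L.d.hk m hmQ q hq with h | h
      · apply hne
        calc m * q = (m * q * m⁻¹ * q⁻¹) * (q * m) := by group
          _ = q * m := by rw [h, one_mul]
      · apply hzM
        rw [← h]
        have e : m * q * m⁻¹ * q⁻¹ = m * (q * m⁻¹ * q⁻¹) := by group
        rw [e]
        exact M.mul_mem hm (hMconj _ (M.inv_mem hm) q)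
  have hfix : ∀ m ∈ M, m * z = z * m → m = 1 := by
    intro m hm hmz
    have hcent : ∀ q ∈ Q, m * q = q * m := by
      intro q hq
      have h1 : m * q * m⁻¹ * q⁻¹ ∈ M := by
        have e : m * q * m⁻¹ * q⁻¹ = m * (q * m⁻¹ * q⁻¹) := by group
        rw [e]
        exact M.mul_mem hm (hMconj _ (M.inv_mem hm) q)
      have h2 : m * q * m⁻¹ * q⁻¹ ∈ Q := Q.mul_mem (L.hN m hmz q hq) (Q.inv_mem hq)
      have h3 := hMQ _ h1 h2
      calc m * q = (m * q * m⁻¹ * q⁻¹) * (q * m) := by group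
        _ = q * m := by rw [h3, one_mul]
    rcases L.hC m hcent with h | h
    · exact h
    · exact absurd (h ▸ hm) hzM
  have hinv := fpf_inverts M z L.d.hzz (fun m hm => hMconj m hm z) hfix
  have hOdd : Odd (Nat.card M) := by
    by_contra hodd'
    have h2 : 2 ∣ Nat.card M := (Nat.not_odd_iff_even.1 hodd').two_dvd
    haveI : Fact (Nat.Prime 2) := ⟨Nat.prime_two⟩
    obtain ⟨t, ht⟩ := exists_prime_orderOf_dvd_card' 2 h2
    have htt : (t : G) * (t : G) = 1 := by
      have h3 := pow_orderOf_eq_one t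
      rw [ht, pow_two] at h3
      exact congrArg Subtype.val h3
    have hti : (t : G)⁻¹ = (t : G) := inv_eq_of_mul_eq_one_left htt
    have h4 := hinv (t : G) t.2
    rw [hti] at h4
    have h5 : (t : G) * z = z * (t : G) := by
      calc (t : G) * z = (z * (t : G) * z⁻¹) * z := by rw [h4]
        _ = z * (t : G) := by group
    have h6 := hfix _ t.2 h5
    have h7 : t = 1 := Subtype.ext h6
    rw [h7, orderOf_one] at ht
    norm_num at ht
  apply hodd M hOdd
  rw [Subgroup.normalizer_eq_top]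
  exact le_top

end LargeData

end Cfsg.Agent.Lib.Helper30
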