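import Mathlib
import Cfsg.Prelude.Def_MonsterType
import Cfsg.Prelude.Def_CaseTheorems
import Cfsg.Agent.Lib.Helper30.LargeExtra9

/-!
Large extraspecial 2-subgroups, part 10: simplicity and largeness when `C(z)` is generated by
conjugates of an abelian subgroup `U = ⟨z^K⟩`.
-/

set_option autoImplicit false

namespace Cfsg.Agent.Lib.Helper30

open scoped commutatorElement

variable {G : Type*} [Group G]

theorem simple_large_of_abelian_closure [Finite G] (z : G) (hz : orderOf z = 2)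
    (C : Subgroup G) (hC : C = Subgroup.centralizer ({z} : Set G)) (Q : Subgroup G)
    (hF : (Cfsg.generalizedFittingSubgroup ↥C).map C.subtype = Q)
    (hQ : Cfsg.IsExtraspecial 2 ↥Q) (hcard : 8 < Nat.card ↥Q)
    (K U : Subgroup G) (hU : U = Subgroup.closure {x : G | ∃ k ∈ K, x = k * z * k⁻¹})
    (hUab : IsMulCommutative ↥U)
    (hgen : Subgroup.closure {x : G | ∃ c ∈ C, ∃ u ∈ U, x = c * u * c⁻¹} = C)
    (h3 : (∃ k ∈ K, k * z * k⁻¹ ∈ Q ∧ k * z * k⁻¹ ≠ z) ∨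
      ∃ u ∈ U ⊓ Q, u ∉ Subgroup.zpowers z ∧
        (∃ hz' : z ∈ Subgroup.centralizer ({u} : Set G),
          (⟨z, hz'⟩ : ↥(Subgroup.centralizer ({u} : Set G))) ∈
            Cfsg.pCore 2 ↥(Subgroup.centralizer ({u} : Set G)))) :
    IsSimpleGroup G ∧ Cfsg.IsLargeExtraspecial Q := by
  have hCmem : ∀ c : G, c ∈ C ↔ c * z = z * c := by intro c; rw [hC]; exact mem_cent_sing
  have hzz : z * z = 1 := by
    have h := pow_orderOf_eq_one z
    rw [hz, pow_two] at h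
    exact h
  have hz1 : z ≠ 1 := by
    intro h
    rw [h, orderOf_one] at hz
    norm_num at hz
  have hzC : z ∈ C := (hCmem z).2 rfl
  obtain ⟨F, hFdef⟩ : ∃ F : Subgroup ↥C, F = Cfsg.generalizedFittingSubgroup ↥C := ⟨_, rfl⟩
  rw [← hFdef] at hF
  have hFn : F.Normal := by
    rw [hFdef]; exact Cfsg.Agent.Lib.Helper29.generalizedFittingSubgroup_normal ↥C
  have hB : Subgroup.centralizer (F : Set ↥C) ≤ F := by
    rw [hFdef]; exact centralizer_generalizedFittingSubgroup_le ↥C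
  have hQmem : ∀ x : G, x ∈ Q ↔ ∃ hx : x ∈ C, (⟨x, hx⟩ : ↥C) ∈ F := by
    intro x
    rw [← hF]
    constructor
    · rintro ⟨y, hy, rfl⟩
      exact ⟨y.2, hy⟩
    · rintro ⟨hx, hxQ⟩
      exact ⟨⟨x, hx⟩, hxQ, rfl⟩
  have hzQ : z ∈ Q := by
    rw [hQmem]
    refine ⟨hzC, hB ?_⟩
    rw [Subgroup.mem_centralizer_iff]
    intro f _
    apply Subtype.ext
    exact (hCmem (f : G)).1 f.2
  have hQC : Q ≤ C := fun x hx => ((hQmem x).1 hx).1
  have hzc : ∀ q ∈ Q, z * q = q * z := fun q hq => ((hCmem q).1 (hQC hq)).symm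
  have d := classTwoData_of_extraspecial' Q hQ z hzQ hzc hz1 hzz
  have L : LargeData Q z := by
    refine ⟨d, ?_, ?_, hcard⟩
    · intro c hc q hq
      obtain ⟨hqC, hqF⟩ := (hQmem q).1 hq
      have hcC : c ∈ C := (hCmem c).2 hc
      rw [hQmem]
      exact ⟨C.mul_mem (C.mul_mem hcC hqC) (C.inv_mem hcC), hFn.conj_mem ⟨q, hqC⟩ hqF ⟨c, hcC⟩⟩
    · intro c hc
      have hcC : c ∈ C := (hCmem c).2 (hc z hzQ)
      have h1 : (⟨c, hcC⟩ : ↥C) ∈ Subgroup.centralizer (F : Set ↥C) := by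
        rw [Subgroup.mem_centralizer_iff]
        intro f hf
        apply Subtype.ext
        exact (hc (f : G) ((hQmem _).2 ⟨f.2, hf⟩)).symm
      exact d.hcen c ((hQmem c).2 ⟨hcC, hB h1⟩) hc
  -- `U` is elementary abelian
  have hUsq' : ∀ x ∈ Subgroup.closure {x : G | ∃ k ∈ K, x = k * z * k⁻¹}, x * x = 1 := by
    intro x hx
    induction hx using Subgroup.closure_induction with
    | mem s hs =>
      obtain ⟨k, -, hs⟩ := hs
      rw [hs]
      calc k * z * k⁻¹ * (k * z * k⁻¹) = k * (z * z) * k⁻¹ := by group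
        _ = 1 := by rw [hzz]; group
    | one => rw [one_mul]
    | mul a b ha hb iha ihb =>
      have haU : a ∈ U := by rw [hU]; exact ha
      have hbU : b ∈ U := by rw [hU]; exact hb
      have hcomm : a * b = b * a := congrArg Subtype.val (hUab.is_comm.comm ⟨a, haU⟩ ⟨b, hbU⟩)
      calc a * b * (a * b) = a * (b * a) * b := by group
        _ = a * (a * b) * b := by rw [hcomm]
        _ = (a * a) * (b * b) := by group
        _ = 1 := by rw [iha, ihb, one_mul]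
    | inv a ha iha =>
      calc a⁻¹ * a⁻¹ = (a * a)⁻¹ := by group
        _ = 1 := by rw [iha, inv_one]
  have hUsq : ∀ x ∈ U, x * x = 1 := by
    intro x hx
    rw [hU] at hx
    exact hUsq' x hx
  -- the involution `u` and the 2-subgroup `O`
  have hex : ∃ u ∈ Q, u ≠ 1 ∧ u ≠ z ∧ u * u = 1 ∧ ∃ O : Subgroup G, z ∈ O ∧
      (∀ o ∈ O, ∃ j : ℕ, o ^ 2 ^ j = 1) ∧ (∀ c : G, c * u = u * c → ∀ o ∈ O, c * o * c⁻¹ ∈ O) := by
    rcases h3 with ⟨k, hk, hkQ, hkz⟩ | ⟨u, hu, huz, hz', hzO⟩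
    · have hQ' : ∀ y, y ∈ Q.map (MulAut.conj k).toMonoidHom ↔ k⁻¹ * y * k ∈ Q := by
        intro y; rw [Subgroup.mem_map_equiv, MulAut.conj_symm_apply]
      have P := LargePair.of_conj L k hkQ hkz _ hQ'
      exact ⟨k * z * k⁻¹, hkQ, P.u1, hkz, P.uu, Q.map (MulAut.conj k).toMonoidHom, P.hz,
        fun o ho => ⟨2, P.L₂.pow_four ho⟩, P.L₂.hN⟩
    · have huQ : u ∈ Q := hu.2
      have hu1 : u ≠ 1 := fun h => huz (h ▸ Subgroup.one_mem _)
      have huz' : u ≠ z := fun h => huz (h ▸ Subgroup.mem_zpowers z)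
      have huu := hUsq u hu.1
      haveI : Fact (Nat.Prime 2) := ⟨Nat.prime_two⟩
      have hOp : IsPGroup 2 ↥(Cfsg.pCore 2 ↥(Subgroup.centralizer ({u} : Set G))) :=
        Sylow.sSup_of_normal _ (fun _ h => h.2) (fun _ h => h.1)
      have hOn : (Cfsg.pCore 2 ↥(Subgroup.centralizer ({u} : Set G))).Normal :=
        Cfsg.pCore_normal 2 _
      refine ⟨u, huQ, hu1, huz', huu,
        (Cfsg.pCore 2 ↥(Subgroup.centralizer ({u} : Set G))).map
          (Subgroup.centralizer ({u} : Set G)).subtype, ⟨⟨z, hz'⟩, hzO, rfl⟩, ?_, ?_⟩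
      · rintro _ ⟨o, ho, rfl⟩
        obtain ⟨j, hj⟩ := hOp ⟨o, ho⟩
        refine ⟨j, ?_⟩
        have := congrArg (fun t : ↥(Cfsg.pCore 2 ↥(Subgroup.centralizer ({u} : Set G))) =>
          ((t : ↥(Subgroup.centralizer ({u} : Set G))) : G)) hj
        simpa using this
      · rintro c hc _ ⟨o, ho, rfl⟩
        have hcC : c ∈ Subgroup.centralizer ({u} : Set G) := mem_cent_sing.2 hc
        exact ⟨⟨c, hcC⟩ * o * ⟨c, hcC⟩⁻¹, hOn.conj_mem o ho ⟨c, hcC⟩, rfl⟩
  obtain ⟨u, hu, hu1, huz, huu, O, hzO, hO2, hOn⟩ := hex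
  have hodd : ∀ K' : Subgroup G, Odd (Nat.card K') → Q ≤ Subgroup.normalizer (K' : Set G) →
      K' = ⊥ := fun K' hK' hQK' => L.odd_of_O2 hu hu1 huz huu O hzO hO2 hOn K' hK' hQK'
  refine ⟨?_, isLargeExtraspecial_of_largeData Q z hQ L hodd⟩
  haveI : Nontrivial G := ⟨⟨z, 1, hz1⟩⟩
  refine ⟨fun N hN => ?_⟩
  haveI := hN
  by_cases hzN : z ∈ N
  · right
    apply L.eq_top_of_centralizer_le N
    intro c hc
    have hcC : c ∈ C := (hCmem c).2 hc
    have hUN : U ≤ N := by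
      rw [hU, Subgroup.closure_le]
      rintro _ ⟨k, -, rfl⟩
      exact hN.conj_mem z hzN k
    have hle : Subgroup.closure {x : G | ∃ c ∈ C, ∃ u ∈ U, x = c * u * c⁻¹} ≤ N := by
      rw [Subgroup.closure_le]
      rintro _ ⟨c', -, u', hu', rfl⟩
      exact hN.conj_mem u' (hUN hu') c'
    rw [hgen] at hle
    exact hle hcC
  · left
    exact L.eq_bot_of_not_mem hodd N hzN

end Cfsg.Agent.Lib.Helper30
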