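import Mathlib
import Cfsg.Prelude.Def_MonsterType
import Cfsg.Agent.Lib.Helper30.LargeExtra10

/-!
Large extraspecial 2-subgroups, part 11: versions of the largeness criteria without the order
hypothesis, and the converse "class-two data with a nontrivial commutator is extraspecial".
-/

set_option autoImplicit false

namespace Cfsg.Agent.Lib.Helper30

open scoped commutatorElement

variable {G : Type*} [Group G]

theorem ClassTwoData.pow_four' {Q : Subgroup G} {z : G} (d : ClassTwoData Q z) {q : G}
    (hq : q ∈ Q) : q ^ 2 ^ 2 = 1 := by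
  have e4 : (2 : ℕ) ^ 2 = 4 := by norm_num
  rw [e4, pow_four_eq']
  rcases d.sq_mem hq with h | h
  · rw [h, one_mul]
  · rw [h, d.hzz]

/-- Core data plus the odd-order condition give a large extraspecial subgroup. -/
theorem isLargeExtraspecial_of_core (Q : Subgroup G) (z : G)
    (hE : Cfsg.IsExtraspecial 2 ↥Q) (d : ClassTwoData Q z)
    (hN : ∀ c : G, c * z = z * c → ∀ q ∈ Q, c * q * c⁻¹ ∈ Q)
    (hC : ∀ c : G, (∀ q ∈ Q, c * q = q * c) → c = 1 ∨ c = z)
    (hodd : ∀ K : Subgroup G, Odd (Nat.card K) → Q ≤ Subgroup.normalizer (K : Set G) → K = ⊥) :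
    Cfsg.IsLargeExtraspecial Q := by
  have hcenter : ∀ x : G, x ∈ (Subgroup.center ↥Q).map Q.subtype ↔ x = 1 ∨ x = z := by
    intro x
    constructor
    · rintro ⟨y, hy, rfl⟩
      apply d.hcen _ y.2
      intro q hq
      have h := Subgroup.mem_center_iff.1 hy ⟨q, hq⟩
      exact (congrArg Subtype.val h).symm
    · rintro (h | h)
      · rw [h]; exact Subgroup.one_mem _
      · rw [h]
        refine ⟨⟨z, d.hzQ⟩, Subgroup.mem_center_iff.2 ?_, rfl⟩
        intro q
        apply Subtype.ext
        exact (d.hzc (q : G) q.2).symm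
  refine ⟨hE, ?_, ?_, hodd⟩
  · ext x
    rw [hcenter, Subgroup.mem_centralizer_iff]
    constructor
    · intro h
      exact hC x (fun q hq => (h q hq).symm)
    · rintro (h | h)
      · intro q _; rw [h]; simp
      · intro q hq; rw [h]; exact (d.hzc q hq).symm
  · intro c hc
    rw [Subgroup.mem_centralizer_iff] at hc
    have hcz : c * z = z * c := (hc z ((hcenter z).2 (Or.inr rfl))).symm
    apply mem_normalizer_of_conj_mem
    · intro q hq; exact hN c hcz q hq
    · intro q hq
      have h := hN c⁻¹ (LargePair.inv_comm hcz) q hq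
      rw [inv_inv] at h
      exact h


/-- The odd-order condition, from core data. -/
theorem odd_of_O2_core [Finite G] {Q : Subgroup G} {z : G} (d : ClassTwoData Q z)
    (hN : ∀ c : G, c * z = z * c → ∀ q ∈ Q, c * q * c⁻¹ ∈ Q)
    (hC : ∀ c : G, (∀ q ∈ Q, c * q = q * c) → c = 1 ∨ c = z) {u : G} (hu : u ∈ Q) (hu1 : u ≠ 1)
    (huz : u ≠ z) (huu : u * u = 1) (O : Subgroup G) (hzO : z ∈ O)
    (hO2 : ∀ o ∈ O, ∃ j : ℕ, o ^ 2 ^ j = 1)
    (hOn : ∀ c : G, c * u = u * c → ∀ o ∈ O, c * o * c⁻¹ ∈ O)
    (K : Subgroup G) (hK : Odd (Nat.card K)) (hQK : Q ≤ Subgroup.normalizer (K : Set G)) :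
    K = ⊥ := by
  have hK2 : ∀ k ∈ K, (∃ j : ℕ, k ^ 2 ^ j = 1) → k = 1 := by
    rintro k hk ⟨j, hj⟩
    have h1 : orderOf k ∣ 2 ^ j := orderOf_dvd_of_pow_eq_one hj
    have h2 : orderOf k ∣ Nat.card K := by
      rw [← Subgroup.orderOf_mk k hk]
      exact orderOf_dvd_natCard _
    have hcop : Nat.Coprime (2 ^ j) (Nat.card K) := Nat.Coprime.pow_left j hK.coprime_two_left
    have h3 := Nat.eq_one_of_dvd_coprimes hcop h1 h2
    exact orderOf_eq_one_iff.1 h3
  have hQKn : ∀ q ∈ Q, ∀ k ∈ K, q * k * q⁻¹ ∈ K :=
    fun q hq k hk => (Subgroup.mem_normalizer_iff.1 (hQK hq) k).1 hk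
  have ha : ∀ k ∈ K, k * z = z * k → k = 1 := by
    intro k hk hkz
    have hcent : ∀ q ∈ Q, k * q = q * k := by
      intro q hq
      have h1 : k * q * k⁻¹ * q⁻¹ ∈ K := by
        have e : k * q * k⁻¹ * q⁻¹ = k * (q * k⁻¹ * q⁻¹) := by group
        rw [e]
        exact K.mul_mem hk (hQKn q hq _ (K.inv_mem hk))
      have h2 : k * q * k⁻¹ * q⁻¹ ∈ Q := Q.mul_mem (hN k hkz q hq) (Q.inv_mem hq)
      have h3 := hK2 _ h1 ⟨2, d.pow_four' h2⟩
      calc k * q = (k * q * k⁻¹ * q⁻¹) * (q * k) := by group
        _ = q * k := by rw [h3, one_mul]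
    rcases hC k hcent with h | h
    · exact h
    · exfalso
      apply d.hz1
      apply hK2 z (h ▸ hk)
      exact ⟨1, by rw [pow_one, pow_two]; exact d.hzz⟩
  have hb : ∀ k ∈ K, k * u = u * k → k = 1 := by
    intro k hk hku
    apply ha k hk
    have h1 : k * z * k⁻¹ * z⁻¹ ∈ K := by
      have e : k * z * k⁻¹ * z⁻¹ = k * (z * k⁻¹ * z⁻¹) := by group
      rw [e]
      exact K.mul_mem hk (hQKn z d.hzQ _ (K.inv_mem hk))
    have h2 : k * z * k⁻¹ * z⁻¹ ∈ O := O.mul_mem (hOn k hku z hzO) (O.inv_mem hzO)
    have h3 := hK2 _ h1 (hO2 _ h2)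
    calc k * z = (k * z * k⁻¹ * z⁻¹) * (z * k) := by group
      _ = z * k := by rw [h3, one_mul]
  have hc : ∀ k ∈ K, k * (z * u) = (z * u) * k → k = 1 := by
    obtain ⟨q, hq, hqu⟩ := d.exists_conj_eq hu hu1 huz
    intro k hk hkzu
    have h1 : q⁻¹ * k * q ∈ K := by
      have h0 := hQKn q⁻¹ (Q.inv_mem hq) k hk
      rw [inv_inv] at h0
      exact h0
    have h2 : (q⁻¹ * k * q) * u = u * (q⁻¹ * k * q) := by
      calc (q⁻¹ * k * q) * u = q⁻¹ * (k * (q * u * q⁻¹)) * q := by group
        _ = q⁻¹ * (k * (z * u)) * q := by rw [hqu]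
        _ = q⁻¹ * ((z * u) * k) * q := by rw [hkzu]
        _ = q⁻¹ * ((q * u * q⁻¹) * k) * q := by rw [hqu]
        _ = u * (q⁻¹ * k * q) := by group
    have h3 := hb _ h1 h2
    calc k = q * (q⁻¹ * k * q) * q⁻¹ := by group
      _ = 1 := by rw [h3]; group
  have hinvz := fpf_inverts K z d.hzz (hQKn z d.hzQ) ha
  have hinvu := fpf_inverts K u huu (hQKn u hu) hb
  rw [Subgroup.eq_bot_iff_forall]
  intro k hk
  apply hc k hk
  have h1 := hinvu k hk
  have h2 := hinvz k⁻¹ (K.inv_mem hk)
  rw [inv_inv] at h2
  have h3 : (z * u) * k * (z * u)⁻¹ = k := by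
    calc (z * u) * k * (z * u)⁻¹ = z * (u * k * u⁻¹) * z⁻¹ := by group
      _ = z * k⁻¹ * z⁻¹ := by rw [h1]
      _ = k := h2
  calc k * (z * u) = ((z * u) * k * (z * u)⁻¹) * (z * u) := by rw [h3]
    _ = (z * u) * k := by group


/-- A finite group of class two with centre `{1, ζ}`, `ζ` a commutator, is extraspecial. -/
theorem isExtraspecial_of_classTwo_top {H : Type*} [Group H] [Finite H] (ζ : H)
    (d : ClassTwoData (⊤ : Subgroup H) ζ) (hnonab : ∃ a b : H, a * b * a⁻¹ * b⁻¹ = ζ) :
    Cfsg.IsExtraspecial 2 H := by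
  have hT : ∀ x : H, x ∈ (⊤ : Subgroup H) := fun x => Subgroup.mem_top x
  have hcenter : ∀ w : H, w ∈ Subgroup.center H ↔ w = 1 ∨ w = ζ := by
    intro w
    constructor
    · intro hw
      apply d.hcen w (hT w)
      intro y _
      exact (Subgroup.mem_center_iff.1 hw y).symm
    · rintro (h | h)
      · rw [h]; exact Subgroup.one_mem _
      · rw [h, Subgroup.mem_center_iff]
        intro y
        exact (d.hzc y (hT y)).symm
  have hcomm : commutator H = Subgroup.center H := by
    apply le_antisymm
    · rw [commutator_eq_closure, Subgroup.closure_le]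
      rintro _ ⟨a, b, rfl⟩
      rw [SetLike.mem_coe, hcenter, commutatorElement_def]
      exact d.hk a (hT a) b (hT b)
    · intro w hw
      rcases (hcenter w).1 hw with h | h
      · rw [h]; exact Subgroup.one_mem _
      · obtain ⟨a, b, hab⟩ := hnonab
        rw [h, ← hab, commutator_eq_closure]
        apply Subgroup.subset_closure
        exact ⟨a, b, by rw [commutatorElement_def]⟩
  have hfrat : frattini H = Subgroup.center H := by
    apply le_antisymm
    · intro x hx
      rw [Subgroup.mem_center_iff]
      intro y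
      by_contra hne
      have hcoatom : IsCoatom (Subgroup.centralizer ({y} : Set H)) := by
        constructor
        · intro htop
          apply hne
          have hxy : x ∈ Subgroup.centralizer ({y} : Set H) := by
            rw [htop]; exact Subgroup.mem_top x
          exact (mem_cent_sing.1 hxy).symm
        · intro N hN
          obtain ⟨n, hnN, hnM⟩ := SetLike.exists_of_lt hN
          rw [eq_top_iff]
          intro p _
          by_cases hp : p ∈ Subgroup.centralizer ({y} : Set H)
          · exact hN.le hp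
          · have hn' : n * y * n⁻¹ = ζ * y := by
              rcases d.conj_eq_or (hT n) (hT y) with h | h
              · exfalso
                apply hnM
                rw [mem_cent_sing]
                calc n * y = (n * y * n⁻¹) * n := by group
                  _ = y * n := by rw [h]
              · exact h
            have hp' : p * y * p⁻¹ = ζ * y := by
              rcases d.conj_eq_or (hT p) (hT y) with h | h
              · exfalso
                apply hp
                rw [mem_cent_sing]
                calc p * y = (p * y * p⁻¹) * p := by group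
                  _ = y * p := by rw [h]
              · exact h
            have h1 := ClassTwoData.inv_mul_comm (z := ζ) hn' hp'
            have h2 : n⁻¹ * p ∈ N := hN.le (mem_cent_sing.2 h1)
            have e : p = n * (n⁻¹ * p) := by group
            rw [e]
            exact N.mul_mem hnN h2
      have hx' := frattini_le_coatom hcoatom hx
      exact hne (mem_cent_sing.1 hx').symm
    · intro w hw
      rcases (hcenter w).1 hw with h | h
      · rw [h]; exact Subgroup.one_mem _
      · rw [h]
        show ζ ∈ Order.radical (Subgroup H)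
        unfold Order.radical
        simp only [Subgroup.mem_iInf]
        intro M hM
        by_contra hζM
        have hcl : Subgroup.closure ((M : Set H) ∪ {ζ}) = ⊤ := by
          apply hM.2
          have hle : M ≤ Subgroup.closure ((M : Set H) ∪ {ζ}) := by
            intro m hm
            exact Subgroup.subset_closure (Or.inl hm)
          refine lt_of_le_of_ne hle ?_
          intro heq
          apply hζM
          rw [heq]
          exact Subgroup.subset_closure (Or.inr rfl)
        have hζc : ∀ y : H, ζ * y = y * ζ := fun y => d.hzc y (hT y)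
        have hSn : ((M : Set H) ∪ {ζ}) ⊆ (Subgroup.normalizer (M : Set H) : Set H) := by
          intro s hs
          rcases hs with hs | hs
          · exact Subgroup.le_normalizer hs
          · rw [Set.mem_singleton_iff] at hs
            rw [hs]
            apply mem_normalizer_of_conj_mem
            · intro m hm
              have e : ζ * m * ζ⁻¹ = m := by rw [hζc m]; group
              rw [e]; exact hm
            · intro m hm
              have e : ζ⁻¹ * m * ζ = m := by rw [mul_assoc, ← hζc m]; group
              rw [e]; exact hm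
        have hcomm' := comm_mem_closure M ((M : Set H) ∪ {ζ}) ((M : Set H) ∪ {ζ}) hSn hSn (by
          intro s hs t ht
          rcases hs with hs | hs
          · rcases ht with ht | ht
            · exact M.mul_mem (M.mul_mem (M.mul_mem hs ht) (M.inv_mem hs)) (M.inv_mem ht)
            · rw [Set.mem_singleton_iff] at ht
              have e : s * t * s⁻¹ * t⁻¹ = 1 := by rw [ht, ← hζc s]; group
              rw [e]; exact M.one_mem
          · rw [Set.mem_singleton_iff] at hs
            have e : s * t * s⁻¹ * t⁻¹ = 1 := by rw [hs, hζc t]; group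
            rw [e]; exact M.one_mem)
        obtain ⟨a, b, hab⟩ := hnonab
        have h3 := hcomm' a (by rw [hcl]; exact Subgroup.mem_top a) b
          (by rw [hcl]; exact Subgroup.mem_top b)
        rw [hab] at h3
        exact hζM h3
  have hp : IsPGroup 2 H := by
    intro x
    exact ⟨2, d.pow_four' (hT x)⟩
  have hcard : Nat.card (Subgroup.center H) = 2 := by
    rw [Nat.card_eq_two_iff]
    refine ⟨1, ⟨ζ, (hcenter ζ).2 (Or.inr rfl)⟩, ?_, ?_⟩
    · intro h
      exact d.hz1 (congrArg Subtype.val h).symm
    · ext w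
      simp only [Set.mem_insert_iff, Set.mem_singleton_iff, Set.mem_univ, iff_true]
      rcases (hcenter (w : H)).1 w.2 with h | h
      · left; exact Subtype.ext h
      · right; exact Subtype.ext h
  exact ⟨⟨hp, hfrat, hcomm⟩, hcard⟩

/-- A finite subgroup with class-two data and a nontrivial commutator is extraspecial. -/
theorem isExtraspecial_of_classTwoData [Finite G] {Q : Subgroup G} {z : G}
    (d : ClassTwoData Q z) (hnonab : ∃ a ∈ Q, ∃ b ∈ Q, a * b * a⁻¹ * b⁻¹ = z) :
    Cfsg.IsExtraspecial 2 ↥Q := by
  apply isExtraspecial_of_classTwo_top (⟨z, d.hzQ⟩ : ↥Q)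
  · refine ⟨Subgroup.mem_top _, fun h => d.hz1 (congrArg Subtype.val h), Subtype.ext d.hzz,
      fun q _ => Subtype.ext (d.hzc q q.2), ?_, ?_⟩
    · intro x _ y _
      rcases d.hk x x.2 y y.2 with h | h
      · left; exact Subtype.ext h
      · right; exact Subtype.ext h
    · intro x _ hx
      rcases d.hcen x x.2 (fun y hy => congrArg Subtype.val (hx ⟨y, hy⟩ (Subgroup.mem_top _)))
        with h | h
      · left; exact Subtype.ext h
      · right; exact Subtype.ext h
  · obtain ⟨a, ha, b, hb, hab⟩ := hnonab
    exact ⟨⟨a, ha⟩, ⟨b, hb⟩, Subtype.ext hab⟩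

end Cfsg.Agent.Lib.Helper30
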