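import Mathlib
import Cfsg.Prelude.Def_MonsterType
import Cfsg.Agent.Lib.Helper30.LargeExtra11

/-!
Large extraspecial 2-subgroups, part 12: `LargeData` from `F*(C(z)) = Q`, and the image of
`C_Q(t)` in `C(t)/⟨t⟩` for an involution `t ∈ Q ∩ Q^g` not conjugate to `z`.
-/

set_option autoImplicit false

namespace Cfsg.Agent.Lib.Helper30

open scoped commutatorElement

variable {G : Type*} [Group G]

/-- `LargeData` for an extraspecial generalized Fitting subgroup of an involution centralizer,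
given as a subgroup of the whole group. -/
theorem largeData_of_fstar_map [Finite G] (z : G) (hz : orderOf z = 2)
    (C : Subgroup G) (hC : C = Subgroup.centralizer ({z} : Set G)) (Q : Subgroup G)
    (hF : (Cfsg.generalizedFittingSubgroup ↥C).map C.subtype = Q)
    (hQ : Cfsg.IsExtraspecial 2 ↥Q) (hcard : 8 < Nat.card ↥Q) : LargeData Q z := by
  have hCmem : ∀ c : G, c ∈ C ↔ c * z = z * c := by intro c; rw [hC]; exact mem_cent_sing
  have hzz : z * z = 1 := by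
    have h := pow_orderOf_eq_one z
    rw [hz, pow_two] at h
    exact h
  have hz1 : z ≠ 1 := by
    intro h
    rw [h, orderOf_one] at hz
    norm_num at hz
  have hzC : z ∈ C := (hCmem z).2 rfl
  obtain ⟨F, hFdef⟩ : ∃ F : Subgroup ↥C, F = Cfsg.generalizedFittingSubgroup ↥C := ⟨_, rfl⟩
  rw [← hFdef] at hF
  have hFn : F.Normal := by
    rw [hFdef]; exact Cfsg.Agent.Lib.Helper29.generalizedFittingSubgroup_normal ↥C
  have hB : Subgroup.centralizer (F : Set ↥C) ≤ F := by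
    rw [hFdef]; exact centralizer_generalizedFittingSubgroup_le ↥C
  have hQmem : ∀ x : G, x ∈ Q ↔ ∃ hx : x ∈ C, (⟨x, hx⟩ : ↥C) ∈ F := by
    intro x
    rw [← hF]
    constructor
    · rintro ⟨y, hy, rfl⟩
      exact ⟨y.2, hy⟩
    · rintro ⟨hx, hxQ⟩
      exact ⟨⟨x, hx⟩, hxQ, rfl⟩
  have hzQ : z ∈ Q := by
    rw [hQmem]
    refine ⟨hzC, hB ?_⟩
    rw [Subgroup.mem_centralizer_iff]
    intro f _
    apply Subtype.ext
    exact (hCmem (f : G)).1 f.2
  have hQC : Q ≤ C := fun x hx => ((hQmem x).1 hx).1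
  have hzc : ∀ q ∈ Q, z * q = q * z := fun q hq => ((hCmem q).1 (hQC hq)).symm
  have d := classTwoData_of_extraspecial' Q hQ z hzQ hzc hz1 hzz
  refine ⟨d, ?_, ?_, hcard⟩
  · intro c hc q hq
    obtain ⟨hqC, hqF⟩ := (hQmem q).1 hq
    have hcC : c ∈ C := (hCmem c).2 hc
    rw [hQmem]
    exact ⟨C.mul_mem (C.mul_mem hcC hqC) (C.inv_mem hcC), hFn.conj_mem ⟨q, hqC⟩ hqF ⟨c, hcC⟩⟩
  · intro c hc
    have hcC : c ∈ C := (hCmem c).2 (hc z hzQ)
    have h1 : (⟨c, hcC⟩ : ↥C) ∈ Subgroup.centralizer (F : Set ↥C) := by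
      rw [Subgroup.mem_centralizer_iff]
      intro f hf
      apply Subtype.ext
      exact (hc (f : G) ((hQmem _).2 ⟨f.2, hf⟩)).symm
    exact d.hcen c ((hQmem c).2 ⟨hcC, hB h1⟩) hc

/-- The image of `C_Q(t)` in `C(t)/⟨t⟩` is large extraspecial, and `z`, `u` are fused in
`⟨C_Q(t), C_{Q^g}(t)⟩`. -/
theorem large_quotient_involution [Finite G] {Q : Subgroup G} {z : G} (L : LargeData Q z)
    (g : G) (hgQ : g * z * g⁻¹ ∈ Q) (hgz : g * z * g⁻¹ ≠ z)
    (t : G) (ht : orderOf t = 2) (htQ : t ∈ Q ⊓ Q.map (MulAut.conj g).toMonoidHom)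
    (htz : ¬ IsConj z t) (P : Subgroup G)
    (hP : P = Q ⊓ Subgroup.centralizer ({t} : Set G))
    (hCP : ∀ c : G, c * z = z * c →
      (∀ x ∈ P, ∃ y ∈ Subgroup.closure ({t, z} : Set G), c * x * c⁻¹ = x * y) → c ∈ Q)
    (Ct : Subgroup G) (hCt : Ct = Subgroup.centralizer ({t} : Set G))
    [hn : ((Subgroup.zpowers t).subgroupOf Ct).Normal] :
    Cfsg.IsLargeExtraspecial
      ((P.subgroupOf Ct).map (QuotientGroup.mk' ((Subgroup.zpowers t).subgroupOf Ct))) ∧
    ∃ x ∈ P ⊔ (Q.map (MulAut.conj g).toMonoidHom ⊓ Subgroup.centralizer ({t} : Set G)),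
      x * (g * z * g⁻¹) * x⁻¹ = z := by
  obtain ⟨Q₂, hQ₂⟩ : ∃ Q₂ : Subgroup G, Q₂ = Q.map (MulAut.conj g).toMonoidHom := ⟨_, rfl⟩
  rw [← hQ₂] at htQ ⊢
  have hQ₂mem : ∀ y, y ∈ Q₂ ↔ g⁻¹ * y * g ∈ Q := by
    intro y; rw [hQ₂, Subgroup.mem_map_equiv, MulAut.conj_symm_apply]
  have Pr : LargePair Q Q₂ z (g * z * g⁻¹) := LargePair.of_conj L g hgQ hgz Q₂ hQ₂mem
  obtain ⟨u, hudef⟩ : ∃ u, u = g * z * g⁻¹ := ⟨_, rfl⟩
  rw [← hudef] at Pr hgQ hgz ⊢
  have htt : t * t = 1 := by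
    have h := pow_orderOf_eq_one t
    rw [ht, pow_two] at h
    exact h
  have ht1 : t ≠ 1 := by
    intro h
    rw [h, orderOf_one] at ht
    norm_num at ht
  have hti : t⁻¹ = t := inv_eq_of_mul_eq_one_left htt
  have hzz := Pr.zz
  have huu := Pr.uu
  have hzu := Pr.zu
  have htQ₁ : t ∈ Q := htQ.1
  have htQ₂ : t ∈ Q₂ := htQ.2
  have hzt : z * t = t * z := L.d.hzc t htQ₁
  have hut : u * t = t * u := Pr.L₂.d.hzc t htQ₂
  -- conjugacy facts
  have hc1 : ∀ c : G, c * z * c⁻¹ ≠ t := by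
    intro c h
    apply htz
    rw [isConj_iff]
    exact ⟨c, h⟩
  have htz' : t ≠ z := fun h => hc1 1 (by rw [h]; group)
  obtain ⟨q₀, hq₀, hq₀t⟩ := L.d.exists_conj_eq htQ₁ ht1 htz'
  have hc2 : ∀ c : G, c * z * c⁻¹ ≠ z * t := by
    intro c h
    apply hc1 (q₀⁻¹ * c)
    calc (q₀⁻¹ * c) * z * (q₀⁻¹ * c)⁻¹ = q₀⁻¹ * (c * z * c⁻¹) * q₀ := by group
      _ = q₀⁻¹ * (z * t) * q₀ := by rw [h]
      _ = q₀⁻¹ * (q₀ * t * q₀⁻¹) * q₀ := by rw [hq₀t]
      _ = t := by group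
  have hc3 : ∀ c : G, c * u * c⁻¹ ≠ t := by
    intro c h
    apply hc1 (c * g)
    rw [← h, hudef]
    group
  have htu' : t ≠ u := fun h => hc3 1 (by rw [h]; group)
  obtain ⟨x₀, hx₀, hx₀t⟩ := Pr.L₂.d.exists_conj_eq htQ₂ ht1 htu'
  have hc4 : ∀ c : G, c * u * c⁻¹ ≠ u * t := by
    intro c h
    apply hc3 (x₀⁻¹ * c)
    calc (x₀⁻¹ * c) * u * (x₀⁻¹ * c)⁻¹ = x₀⁻¹ * (c * u * c⁻¹) * x₀ := by group
      _ = x₀⁻¹ * (u * t) * x₀ := by rw [h]
      _ = x₀⁻¹ * (x₀ * t * x₀⁻¹) * x₀ := by rw [hx₀t]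
      _ = t := by group
  -- `P`
  have hPmem : ∀ x, x ∈ P ↔ x ∈ Q ∧ x * t = t * x := by
    intro x; rw [hP, Subgroup.mem_inf, mem_cent_sing]
  have hzP : z ∈ P := (hPmem z).2 ⟨L.d.hzQ, hzt⟩
  have huP : u ∈ P := (hPmem u).2 ⟨hgQ, hut⟩
  have hZP : ∀ x ∈ P, (∀ y ∈ P, x * y = y * x) → x = 1 ∨ x = z ∨ x = t ∨ x = z * t := by
    intro x hx hxc
    exact L.d.cent_cent htQ₁ ht1 htz' htt ((hPmem x).1 hx).1
      (fun a ha hat => hxc a ((hPmem a).2 ⟨ha, hat⟩))
  -- fusion of `u` and `z`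
  have hpart2 : ∃ x ∈ P ⊔ (Q₂ ⊓ Subgroup.centralizer ({t} : Set G)), x * u * x⁻¹ = z := by
    have hq : ∃ q ∈ P, q * u * q⁻¹ = z * u := by
      by_contra hcon
      push Not at hcon
      have h1 : ∀ y ∈ P, u * y = y * u := by
        intro y hy
        rcases L.d.conj_eq_or ((hPmem y).1 hy).1 hgQ with h | h
        · calc u * y = (y * u * y⁻¹) * y := by rw [h]
            _ = y * u := by group
        · exact absurd h (hcon y hy)
      rcases hZP u huP h1 with h | h | h | h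
      · exact Pr.u1 h
      · exact hgz h
      · exact htu' h.symm
      · exact hc2 g (by rw [← hudef]; exact h)
    have hx : ∃ x ∈ Q₂, x * t = t * x ∧ x * z * x⁻¹ = z * u := by
      by_contra hcon
      push Not at hcon
      have h1 : ∀ a ∈ Q₂, a * t = t * a → z * a = a * z := by
        intro a ha hat
        rcases Pr.L₂.d.conj_eq_or ha Pr.hz with h | h
        · calc z * a = (a * z * a⁻¹) * a := by rw [h]
            _ = a * z := by group
        · exfalso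
          exact hcon a ha hat (by rw [h, hzu])
      rcases Pr.L₂.d.cent_cent htQ₂ ht1 htu' htt Pr.hz h1 with h | h | h | h
      · exact Pr.z1 h
      · exact Pr.hne h
      · exact htz' h.symm
      · apply hc1 x₀⁻¹
        rw [h, ← hx₀t]
        group
    obtain ⟨q, hqP, hqu⟩ := hq
    obtain ⟨x, hxQ₂, hxt, hxz⟩ := hx
    have Mv := Pr.moves ((hPmem q).1 hqP).1 hqu hxQ₂ hxz
    refine ⟨q * x * q, ?_, ?_⟩
    · have hqR : q ∈ P ⊔ (Q₂ ⊓ Subgroup.centralizer ({t} : Set G)) :=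
        Subgroup.mem_sup_left hqP
      have hxR : x ∈ P ⊔ (Q₂ ⊓ Subgroup.centralizer ({t} : Set G)) :=
        Subgroup.mem_sup_right (Subgroup.mem_inf.2 ⟨hxQ₂, mem_cent_sing.2 hxt⟩)
      exact Subgroup.mul_mem _ (Subgroup.mul_mem _ hqR hxR) hqR
    · calc (q * x * q) * u * (q * x * q)⁻¹ = q * (x * (q * u * q⁻¹) * x⁻¹) * q⁻¹ := by group
        _ = q * (x * (z * u) * x⁻¹) * q⁻¹ := by rw [Mv.qu]
        _ = q * z * q⁻¹ := by rw [Mv.xzu]
        _ = z := Mv.qz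
  refine ⟨?_, hpart2⟩
  -- the quotient `C(t)/⟨t⟩`
  generalize hT : (Subgroup.zpowers t).subgroupOf Ct = T at hn ⊢
  have hCtmem : ∀ c : G, c ∈ Ct ↔ c * t = t * c := by intro c; rw [hCt]; exact mem_cent_sing
  have hTmem : ∀ c : ↥Ct, c ∈ T ↔ (c : G) = 1 ∨ (c : G) = t := by
    intro c
    rw [← hT, Subgroup.mem_subgroupOf, mem_zpowers_of_sq htt]
  have hπ1 : ∀ c : ↥Ct, QuotientGroup.mk' T c = 1 ↔ (c : G) = 1 ∨ (c : G) = t := by
    intro c
    rw [QuotientGroup.mk'_apply, QuotientGroup.eq_one_iff, hTmem]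
  have hπeq : ∀ c c' : ↥Ct, QuotientGroup.mk' T c = QuotientGroup.mk' T c' →
      (c' : G) = (c : G) ∨ (c' : G) = (c : G) * t := by
    intro c c' h
    have h0 : QuotientGroup.mk' T (c⁻¹ * c') = 1 := by
      rw [map_mul, map_inv, h]
      group
    rcases (hπ1 _).1 h0 with h1 | h1
    · left
      have h2 : (c : G)⁻¹ * (c' : G) = 1 := h1
      calc (c' : G) = (c : G) * ((c : G)⁻¹ * (c' : G)) := by group
        _ = (c : G) := by rw [h2, mul_one]
    · right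
      have h2 : (c : G)⁻¹ * (c' : G) = t := h1
      calc (c' : G) = (c : G) * ((c : G)⁻¹ * (c' : G)) := by group
        _ = (c : G) * t := by rw [h2]
  have hzCt : z ∈ Ct := (hCtmem z).2 hzt
  have huCt : u ∈ Ct := (hCtmem u).2 hut
  have htCt : t ∈ Ct := (hCtmem t).2 rfl
  have hPCt : P ≤ Ct := fun x hx => (hCtmem x).2 ((hPmem x).1 hx).2
  have hπt : QuotientGroup.mk' T ⟨t, htCt⟩ = 1 := (hπ1 _).2 (Or.inr rfl)
  -- class-two data of the image
  have dbar : ClassTwoData ((P.subgroupOf Ct).map (QuotientGroup.mk' T))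
      (QuotientGroup.mk' T ⟨z, hzCt⟩) := by
    refine ⟨⟨⟨z, hzCt⟩, Subgroup.mem_subgroupOf.2 hzP, rfl⟩, ?_, ?_, ?_, ?_, ?_⟩
    · intro h
      rcases (hπ1 _).1 h with h | h
      · exact Pr.z1 h
      · exact htz' h.symm
    · rw [← map_mul]
      apply (hπ1 _).2
      left
      exact hzz
    · rintro _ ⟨p, hp, rfl⟩
      rw [← map_mul, ← map_mul]
      congr 1
      apply Subtype.ext
      exact L.d.hzc _ ((hPmem _).1 (Subgroup.mem_subgroupOf.1 hp)).1
    · rintro _ ⟨x, hx, rfl⟩ _ ⟨y, hy, rfl⟩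
      have hxQ := ((hPmem _).1 (Subgroup.mem_subgroupOf.1 hx)).1
      have hyQ := ((hPmem _).1 (Subgroup.mem_subgroupOf.1 hy)).1
      rcases L.d.hk _ hxQ _ hyQ with h | h
      · left
        rw [← map_inv, ← map_inv, ← map_mul, ← map_mul, ← map_mul]
        apply (hπ1 _).2
        left
        exact h
      · right
        rw [← map_inv, ← map_inv, ← map_mul, ← map_mul, ← map_mul]
        congr 1
        apply Subtype.ext
        exact h
    · rintro _ ⟨x, hx, rfl⟩ hxc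
      have hxP := Subgroup.mem_subgroupOf.1 hx
      have hxQ := ((hPmem _).1 hxP).1
      have hcent : ∀ y ∈ P, (x : G) * y = y * (x : G) := by
        intro y hy
        have hyCt : y ∈ Ct := hPCt hy
        have hyQ := ((hPmem _).1 hy).1
        have h1 := hxc (QuotientGroup.mk' T ⟨y, hyCt⟩)
          ⟨⟨y, hyCt⟩, Subgroup.mem_subgroupOf.2 hy, rfl⟩
        rw [← map_mul, ← map_mul] at h1
        rcases hπeq _ _ h1 with h2 | h2
        · exact h2.symm
        · exfalso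
          have h3 : y * (x : G) = (x : G) * y * t := h2
          have h4 := L.d.hk y⁻¹ (Q.inv_mem hyQ) (x : G)⁻¹ (Q.inv_mem hxQ)
          rw [inv_inv, inv_inv] at h4
          have h5 : y⁻¹ * (x : G)⁻¹ * y * (x : G) = t := by
            calc y⁻¹ * (x : G)⁻¹ * y * (x : G) = ((x : G) * y)⁻¹ * (y * (x : G)) := by group
              _ = ((x : G) * y)⁻¹ * ((x : G) * y * t) := by rw [h3]
              _ = t := by group
          rw [h5] at h4
          rcases h4 with h4 | h4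
          · exact ht1 h4
          · exact htz' h4
      rcases hZP _ hxP hcent with h | h | h | h
      · left
        apply (hπ1 _).2
        left
        exact h
      · right
        congr 1
        exact Subtype.ext h
      · left
        apply (hπ1 _).2
        right
        exact h
      · right
        have e : x = ⟨z, hzCt⟩ * ⟨t, htCt⟩ := Subtype.ext h
        rw [e, map_mul, hπt, mul_one]
  -- `C(z̄)` normalizes the image
  have hczbar : ∀ c : ↥Ct, QuotientGroup.mk' T c * QuotientGroup.mk' T ⟨z, hzCt⟩ =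
      QuotientGroup.mk' T ⟨z, hzCt⟩ * QuotientGroup.mk' T c → (c : G) * z = z * (c : G) := by
    intro c hcb
    rw [← map_mul, ← map_mul] at hcb
    rcases hπeq _ _ hcb with h | h
    · exact h.symm
    · exfalso
      apply hc2 (c : G)⁻¹
      have h' : z * (c : G) = (c : G) * z * t := h
      calc (c : G)⁻¹ * z * (c : G)⁻¹⁻¹ = (c : G)⁻¹ * (z * (c : G)) := by group
        _ = (c : G)⁻¹ * ((c : G) * z * t) := by rw [h']
        _ = z * t := by group
  have hNbar : ∀ cb : ↥Ct ⧸ T, cb * QuotientGroup.mk' T ⟨z, hzCt⟩ =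
      QuotientGroup.mk' T ⟨z, hzCt⟩ * cb →
      ∀ qb ∈ (P.subgroupOf Ct).map (QuotientGroup.mk' T), cb * qb * cb⁻¹ ∈
        (P.subgroupOf Ct).map (QuotientGroup.mk' T) := by
    intro cb hcb
    obtain ⟨c, rfl⟩ := QuotientGroup.mk'_surjective T cb
    have hcz := hczbar c hcb
    rintro _ ⟨p, hp, rfl⟩
    have hpP := Subgroup.mem_subgroupOf.1 hp
    refine ⟨c * p * c⁻¹, ?_, by rw [map_mul, map_mul, map_inv]⟩
    rw [SetLike.mem_coe, Subgroup.mem_subgroupOf]
    show (c : G) * (p : G) * (c : G)⁻¹ ∈ P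
    rw [hPmem]
    exact ⟨L.hN _ hcz _ ((hPmem _).1 hpP).1, (hCtmem _).1 (c * p * c⁻¹).2⟩
  have hCbar : ∀ cb : ↥Ct ⧸ T,
      (∀ qb ∈ (P.subgroupOf Ct).map (QuotientGroup.mk' T), cb * qb = qb * cb) →
      cb = 1 ∨ cb = QuotientGroup.mk' T ⟨z, hzCt⟩ := by
    intro cb hcb
    obtain ⟨c, rfl⟩ := QuotientGroup.mk'_surjective T cb
    have hcz := hczbar c (hcb _ dbar.hzQ)
    have hct : (c : G) * t = t * (c : G) := (hCtmem _).1 c.2
    have hact : ∀ x ∈ P, ∃ y ∈ Subgroup.closure ({t, z} : Set G),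
        (c : G) * x * (c : G)⁻¹ = x * y := by
      intro x hx
      have hxCt := hPCt hx
      have h1 := hcb (QuotientGroup.mk' T ⟨x, hxCt⟩)
        ⟨⟨x, hxCt⟩, Subgroup.mem_subgroupOf.2 hx, rfl⟩
      rw [← map_mul, ← map_mul] at h1
      rcases hπeq _ _ h1 with h | h
      · refine ⟨1, Subgroup.one_mem _, ?_⟩
        have h' : x * (c : G) = (c : G) * x := h
        rw [mul_one]
        calc (c : G) * x * (c : G)⁻¹ = (x * (c : G)) * (c : G)⁻¹ := by rw [h']
          _ = x := by group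
      · refine ⟨t, Subgroup.subset_closure (by simp), ?_⟩
        have h' : x * (c : G) = (c : G) * x * t := h
        have hcti : (c : G) * t⁻¹ * (c : G)⁻¹ = t⁻¹ := by
          rw [hti]
          calc (c : G) * t * (c : G)⁻¹ = (t * (c : G)) * (c : G)⁻¹ := by rw [hct]
            _ = t := by group
        calc (c : G) * x * (c : G)⁻¹ = ((c : G) * x * t) * t⁻¹ * (c : G)⁻¹ := by group
          _ = (x * (c : G)) * t⁻¹ * (c : G)⁻¹ := by rw [h']
          _ = x * ((c : G) * t⁻¹ * (c : G)⁻¹) := by group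
          _ = x * t⁻¹ := by rw [hcti]
          _ = x * t := by rw [hti]
    have hcQ : (c : G) ∈ Q := hCP _ hcz hact
    have hcP : (c : G) ∈ P := (hPmem _).2 ⟨hcQ, hct⟩
    exact dbar.hcen _ ⟨c, Subgroup.mem_subgroupOf.2 hcP, rfl⟩ hcb
  -- the image is extraspecial
  have hEbar : Cfsg.IsExtraspecial 2 ↥((P.subgroupOf Ct).map (QuotientGroup.mk' T)) := by
    apply isExtraspecial_of_classTwoData dbar
    obtain ⟨a, ha, b, hb, hat, hbt, hab⟩ := L.d.exists_comm_eq_z htQ₁ ht1 htz' htt L.hcard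
    have haP : a ∈ P := (hPmem a).2 ⟨ha, hat⟩
    have hbP : b ∈ P := (hPmem b).2 ⟨hb, hbt⟩
    refine ⟨QuotientGroup.mk' T ⟨a, hPCt haP⟩, ⟨⟨a, hPCt haP⟩, Subgroup.mem_subgroupOf.2 haP, rfl⟩,
      QuotientGroup.mk' T ⟨b, hPCt hbP⟩, ⟨⟨b, hPCt hbP⟩, Subgroup.mem_subgroupOf.2 hbP, rfl⟩, ?_⟩
    rw [← map_inv, ← map_inv, ← map_mul, ← map_mul, ← map_mul]
    congr 1
    apply Subtype.ext
    exact hab
  -- the involution `ū` and the 2-subgroup `O`
  have hubar : QuotientGroup.mk' T ⟨u, huCt⟩ ∈ (P.subgroupOf Ct).map (QuotientGroup.mk' T) :=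
    ⟨⟨u, huCt⟩, Subgroup.mem_subgroupOf.2 huP, rfl⟩
  have hu1bar : QuotientGroup.mk' T ⟨u, huCt⟩ ≠ 1 := by
    intro h
    rcases (hπ1 _).1 h with h | h
    · exact Pr.u1 h
    · exact htu' h.symm
  have huzbar : QuotientGroup.mk' T ⟨u, huCt⟩ ≠ QuotientGroup.mk' T ⟨z, hzCt⟩ := by
    intro h
    rcases hπeq _ _ h.symm with h | h
    · exact hgz h
    · exact hc2 g (by rw [← hudef]; exact h)
  have huubar : QuotientGroup.mk' T ⟨u, huCt⟩ * QuotientGroup.mk' T ⟨u, huCt⟩ = 1 := by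
    rw [← map_mul]
    apply (hπ1 _).2
    left
    exact huu
  have hodd := odd_of_O2_core dbar hNbar hCbar hubar hu1bar huzbar huubar
    (((Q₂ ⊓ Subgroup.centralizer ({t} : Set G)).subgroupOf Ct).map (QuotientGroup.mk' T))
    ⟨⟨z, hzCt⟩, Subgroup.mem_subgroupOf.2 (Subgroup.mem_inf.2 ⟨Pr.hz, mem_cent_sing.2 hzt⟩), rfl⟩
    (by
      rintro _ ⟨x, hx, rfl⟩
      refine ⟨2, ?_⟩
      have hxQ₂ : (x : G) ∈ Q₂ := (Subgroup.mem_subgroupOf.1 hx).1
      rw [← map_pow]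
      apply (hπ1 _).2
      left
      rw [Subgroup.coe_pow]
      exact Pr.L₂.pow_four hxQ₂)
    (by
      intro cb hcb
      obtain ⟨c, rfl⟩ := QuotientGroup.mk'_surjective T cb
      have hcu : (c : G) * u = u * (c : G) := by
        rw [← map_mul, ← map_mul] at hcb
        rcases hπeq _ _ hcb with h | h
        · exact h.symm
        · exfalso
          apply hc4 (c : G)⁻¹
          have h' : u * (c : G) = (c : G) * u * t := h
          calc (c : G)⁻¹ * u * (c : G)⁻¹⁻¹ = (c : G)⁻¹ * (u * (c : G)) := by group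
            _ = (c : G)⁻¹ * ((c : G) * u * t) := by rw [h']
            _ = u * t := by group
      rintro _ ⟨x, hx, rfl⟩
      have hxQ₂ : (x : G) ∈ Q₂ := (Subgroup.mem_subgroupOf.1 hx).1
      refine ⟨c * x * c⁻¹, ?_, by rw [map_mul, map_mul, map_inv]⟩
      rw [SetLike.mem_coe, Subgroup.mem_subgroupOf]
      show (c : G) * (x : G) * (c : G)⁻¹ ∈ Q₂ ⊓ Subgroup.centralizer ({t} : Set G)
      exact Subgroup.mem_inf.2 ⟨Pr.L₂.hN _ hcu _ hxQ₂,
        mem_cent_sing.2 ((hCtmem _).1 (c * x * c⁻¹).2)⟩)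
  exact isLargeExtraspecial_of_core _ _ hEbar dbar hNbar hCbar hodd

end Cfsg.Agent.Lib.Helper30
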