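import Mathlib
import Cfsg.Agent.Lib.Helper30.LargeExtra12
import Cfsg.Agent.Lib.Helper31.ThompsonTransfer
import Cfsg.Agent.Lib.Helper2.Transfer
import Cfsg.Agent.Lib.Helper53.Basic

/-!
Transfer arguments for an extraspecial `E = O_2(C(z))` with `C_G(E) ≤ E` in a group with
`O^2(G) = G`: `E` lies in every normal subgroup of index two of `C(z)`.
-/

set_option autoImplicit false

namespace Cfsg.Agent.Lib.Helper30

variable {G : Type*} [Group G]

/-- `LargeData` for `E = O_2(C(z))` extraspecial with `C_G(E) ≤ E`. -/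
theorem largeData_of_pcore_map [Finite G] (z : G) (hz : orderOf z = 2)
    (C : Subgroup G) (hC : C = Subgroup.centralizer ({z} : Set G)) (E : Subgroup G)
    (hE : E = (Cfsg.pCore 2 ↥C).map C.subtype)
    (hext : Cfsg.IsExtraspecial 2 ↥E) (hcent : Subgroup.centralizer (E : Set G) ≤ E)
    (hcard : 8 < Nat.card ↥E) : LargeData E z := by
  have hCmem : ∀ c : G, c ∈ C ↔ c * z = z * c := by intro c; rw [hC]; exact mem_cent_sing
  have hzz : z * z = 1 := by
    have h := pow_orderOf_eq_one z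
    rw [hz, pow_two] at h
    exact h
  have hz1 : z ≠ 1 := by
    intro h
    rw [h, orderOf_one] at hz
    norm_num at hz
  have hEmem : ∀ x : G, x ∈ E ↔ ∃ hx : x ∈ C, (⟨x, hx⟩ : ↥C) ∈ Cfsg.pCore 2 ↥C := by
    intro x
    rw [hE]
    constructor
    · rintro ⟨y, hy, rfl⟩
      exact ⟨y.2, hy⟩
    · rintro ⟨hx, hxQ⟩
      exact ⟨⟨x, hx⟩, hxQ, rfl⟩
  have hEC : E ≤ C := fun x hx => ((hEmem x).1 hx).1
  have hzE : z ∈ E := by
    apply hcent
    rw [Subgroup.mem_centralizer_iff]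
    intro q hq
    exact (hCmem q).1 (hEC hq)
  have hzc : ∀ q ∈ E, z * q = q * z := fun q hq => ((hCmem q).1 (hEC hq)).symm
  have d := classTwoData_of_extraspecial' E hext z hzE hzc hz1 hzz
  refine ⟨d, ?_, ?_, hcard⟩
  · intro c hc q hq
    obtain ⟨hqC, hqF⟩ := (hEmem q).1 hq
    have hcC : c ∈ C := (hCmem c).2 hc
    rw [hEmem]
    exact ⟨C.mul_mem (C.mul_mem hcC hqC) (C.inv_mem hcC),
      (Cfsg.pCore_normal 2 ↥C).conj_mem ⟨q, hqC⟩ hqF ⟨c, hcC⟩⟩
  · intro c hc
    have hcE : c ∈ E := by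
      apply hcent
      rw [Subgroup.mem_centralizer_iff]
      intro q hq
      exact (hc q hq).symm
    exact d.hcen c hcE hc

/-- The sign character of a subgroup of index two. -/
noncomputable def indexTwoHom {H : Type*} [Group H] (K : Subgroup H) (hK : K.index = 2) :
    H →* ℤˣ := by
  classical
  exact MonoidHom.mk' (fun h => if h ∈ K then 1 else -1) (by
    intro a b
    have key := Subgroup.mul_mem_iff_of_index_two hK (a := a) (b := b)
    by_cases ha : a ∈ K <;> by_cases hb : b ∈ K <;> simp [ha, hb, key])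

theorem indexTwoHom_eq_one_iff {H : Type*} [Group H] (K : Subgroup H) (hK : K.index = 2)
    (h : H) : indexTwoHom K hK h = 1 ↔ h ∈ K := by
  classical
  unfold indexTwoHom
  simp only [MonoidHom.mk'_apply]
  by_cases hh : h ∈ K
  · simp [hh]
  · simp only [hh, if_false, iff_false]
    decide

/-- Let `O^2(G) = G`, `z` an involution, `E = O_2(C(z))` extraspecial of order greater than `8`
with `C_G(E) ≤ E`. Then `E` lies in every normal subgroup of index two of `C(z)`. -/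
theorem pcore_le_of_index_two [Finite G] (hres : Cfsg.pResidual 2 G = ⊤) (z : G)
    (hz : orderOf z = 2) (E : Subgroup G)
    (hE : E = (Cfsg.pCore 2 ↥(Subgroup.centralizer ({z} : Set G))).map
      (Subgroup.centralizer ({z} : Set G)).subtype)
    (hext : Cfsg.IsExtraspecial 2 ↥E) (hcent : Subgroup.centralizer (E : Set G) ≤ E)
    (hcard : 8 < Nat.card ↥E)
    (K : Subgroup G) (hKH : K ≤ Subgroup.centralizer ({z} : Set G))
    (hKn : ∀ h ∈ Subgroup.centralizer ({z} : Set G), K.map (MulAut.conj h).toMonoidHom = K)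
    (hKi : K.relIndex (Subgroup.centralizer ({z} : Set G)) = 2) : E ≤ K := by
  classical
  haveI : Fact (Nat.Prime 2) := ⟨Nat.prime_two⟩
  obtain ⟨C, hC⟩ : ∃ C : Subgroup G, C = Subgroup.centralizer ({z} : Set G) := ⟨_, rfl⟩
  rw [← hC] at hE hKH hKn hKi
  have L := largeData_of_pcore_map z hz C hC E hE hext hcent hcard
  have hCmem : ∀ c : G, c ∈ C ↔ c * z = z * c := by intro c; rw [hC]; exact mem_cent_sing
  have hEC : E ≤ C := fun q hq => (hCmem q).2 (L.z_comm hq)
  have hzE : z ∈ E := L.d.hzQ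
  have hzz : z * z = 1 := L.d.hzz
  have hz1 : z ≠ 1 := L.d.hz1
  have hidx : (K.subgroupOf C).index = 2 := hKi
  have hmul : ∀ a ∈ C, ∀ b ∈ C, (a * b ∈ K ↔ (a ∈ K ↔ b ∈ K)) := by
    intro a ha b hb
    have := Subgroup.mul_mem_iff_of_index_two hidx (a := ⟨a, ha⟩) (b := ⟨b, hb⟩)
    simpa [Subgroup.mem_subgroupOf] using this
  have hcomm : ∀ a ∈ C, ∀ b ∈ C, a * b * a⁻¹ * b⁻¹ ∈ K := by
    intro a ha b hb
    rw [hmul _ (C.mul_mem (C.mul_mem ha hb) (C.inv_mem ha)) _ (C.inv_mem hb),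
      hmul _ (C.mul_mem ha hb) _ (C.inv_mem ha), hmul a ha b hb, K.inv_mem_iff, K.inv_mem_iff]
    tauto
  by_contra hEK
  obtain ⟨e₀, he₀E, he₀K⟩ := SetLike.not_le_iff_exists.1 hEK
  -- an element of `E` outside `{1, z}`
  obtain ⟨x₀, hx₀E, hx₀1, hx₀z⟩ : ∃ x ∈ E, x ≠ 1 ∧ x ≠ z := by
    by_contra hcon
    push Not at hcon
    have hsub : (E : Set G) ⊆ (([1, z] : List G).toFinset : Set G) := by
      intro x hx
      rw [Finset.mem_coe, List.mem_toFinset]
      simp only [List.mem_cons, List.mem_nil_iff, or_false]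
      by_cases h1 : x = 1
      · exact Or.inl h1
      · exact Or.inr (hcon x hx h1)
    have : Nat.card E ≤ 2 := by
      calc Nat.card E = (E : Set G).ncard := by rw [← Nat.card_coe_set_eq]; rfl
        _ ≤ ((([1, z] : List G).toFinset : Finset G) : Set G).ncard :=
            Set.ncard_le_ncard hsub (Finset.finite_toSet _)
        _ = ([1, z] : List G).toFinset.card := Set.ncard_coe_finset _
        _ ≤ 2 := List.toFinset_card_le _
    omega
  have hzK : z ∈ K := by
    obtain ⟨q, hq, hqx⟩ := L.d.exists_conj_eq hx₀E hx₀1 hx₀z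
    have := hcomm q (hEC hq) x₀ (hEC hx₀E)
    have e : q * x₀ * q⁻¹ * x₀⁻¹ = z := by rw [hqx]; group
    rw [e] at this
    exact this
  -- an involution of `E` outside `K`
  obtain ⟨u, huE, huK, huu⟩ : ∃ u ∈ E, u ∉ K ∧ u * u = 1 := by
    by_contra hcon
    push Not at hcon
    have hsq : ∀ x ∈ E, x ∉ K → x * x = z := by
      intro x hx hxK
      rcases L.d.sq_mem hx with h | h
      · exact absurd h (hcon x hx hxK)
      · exact h
    have hinvt : ∀ e ∈ E, e ∈ K → e₀ * e * e₀⁻¹ = e⁻¹ := by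
      intro e he heK
      have h1 : e * e₀ ∉ K := by
        rw [hmul e (hEC he) e₀ (hEC he₀E)]; tauto
      have h2 := hsq _ (E.mul_mem he he₀E) h1
      have h3 := hsq e₀ he₀E he₀K
      calc e₀ * e * e₀⁻¹ = e⁻¹ * ((e * e₀) * (e * e₀)) * (e₀ * e₀)⁻¹ := by group
        _ = e⁻¹ := by rw [h2, h3]; group
    have hUab : ∀ a ∈ E, a ∈ K → ∀ b ∈ E, b ∈ K → a * b = b * a := by
      intro a ha haK b hb hbK
      have e1 := hinvt a ha haK
      have e2 := hinvt b hb hbK
      have e3 := hinvt (a * b) (E.mul_mem ha hb) (K.mul_mem haK hbK)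
      have e4 : a⁻¹ * b⁻¹ = b⁻¹ * a⁻¹ := by
        calc a⁻¹ * b⁻¹ = (e₀ * a * e₀⁻¹) * (e₀ * b * e₀⁻¹) := by rw [e1, e2]
          _ = e₀ * (a * b) * e₀⁻¹ := by group
          _ = (a * b)⁻¹ := e3
          _ = b⁻¹ * a⁻¹ := by group
      calc a * b = (b⁻¹ * a⁻¹)⁻¹ := by group
        _ = (a⁻¹ * b⁻¹)⁻¹ := by rw [e4]
        _ = b * a := by group
    obtain ⟨U, hU⟩ : ∃ U : Subgroup G, U = E ⊓ K := ⟨_, rfl⟩
    have hUmem : ∀ a, a ∈ U ↔ a ∈ E ∧ a ∈ K := by intro a; rw [hU]; exact Subgroup.mem_inf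
    have hUE : U ≤ E := fun a ha => ((hUmem a).1 ha).1
    have hzU : z ∈ U := (hUmem z).2 ⟨hzE, hzK⟩
    have hcc := L.d.card_centralizer_mul_card U hUE hzU
    have hUle : U ≤ E ⊓ Subgroup.centralizer (U : Set G) := by
      intro a ha
      have ha' := (hUmem a).1 ha
      refine Subgroup.mem_inf.2 ⟨ha'.1, ?_⟩
      rw [Subgroup.mem_centralizer_iff]
      intro b hb
      have hb' := (hUmem b).1 hb
      exact hUab b hb'.1 hb'.2 a ha'.1 ha'.2
    have h1 : Nat.card U ≤ Nat.card (E ⊓ Subgroup.centralizer (U : Set G) : Subgroup G) :=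
      Subgroup.card_le_of_le hUle
    have hrel : U.relIndex E = 2 := by
      show (U.subgroupOf E).index = 2
      rw [Subgroup.index_eq_two_iff]
      refine ⟨⟨e₀, he₀E⟩, fun b => ?_⟩
      have hb := hmul (b : G) (hEC b.2) e₀ (hEC he₀E)
      rw [Subgroup.mem_subgroupOf, Subgroup.mem_subgroupOf, hUmem, hUmem]
      simp only [Subgroup.coe_mul]
      by_cases hbK : (b : G) ∈ K
      · right
        refine ⟨⟨b.2, hbK⟩, ?_⟩
        rintro ⟨-, h⟩
        exact he₀K ((hb.1 h).1 hbK)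
      · left
        refine ⟨⟨E.mul_mem b.2 he₀E, hb.2 ⟨fun h => absurd h hbK, fun h => absurd h he₀K⟩⟩, ?_⟩
        rintro ⟨-, h⟩
        exact hbK h
    have hcardU : Nat.card U * 2 = Nat.card E := by
      have := Cfsg.Agent.Lib.Helper53.card_mul_relIndex_eq hUE
      rw [hrel] at this
      exact this
    have hUpos : 0 < Nat.card U := Nat.card_pos
    have h2 : Nat.card U * Nat.card U ≤ 4 * Nat.card U := by
      calc Nat.card U * Nat.card U
          ≤ Nat.card (E ⊓ Subgroup.centralizer (U : Set G) : Subgroup G) * Nat.card U :=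
            Nat.mul_le_mul_right _ h1
        _ = 2 * Nat.card E := hcc
        _ = 4 * Nat.card U := by rw [← hcardU]; ring
    have h3 : Nat.card U ≤ 4 := Nat.le_of_mul_le_mul_right h2 hUpos
    omega
  have hu1 : u ≠ 1 := fun h => huK (h ▸ K.one_mem)
  have huz : u ≠ z := fun h => huK (h ▸ hzK)
  -- a Sylow 2-subgroup containing `E` lies in `C`
  obtain ⟨S, hES⟩ := (hext.1.1 : IsPGroup 2 ↥E).exists_le_sylow
  have hSC : (S : Subgroup G) ≤ C := by
    haveI : Nontrivial ↥(S : Subgroup G) :=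
      (Subgroup.nontrivial_iff_exists_ne_one _).2 ⟨z, hES hzE, hz1⟩
    have hcn := S.isPGroup'.center_nontrivial
    obtain ⟨c, hc, hc1⟩ := (Subgroup.nontrivial_iff_exists_ne_one _).1 hcn
    have hcc : ∀ q ∈ E, (c : G) * q = q * (c : G) := by
      intro q hq
      have := Subgroup.mem_center_iff.1 hc ⟨q, hES hq⟩
      have := congrArg Subtype.val this
      simpa using this.symm
    have hcz : (c : G) = z := by
      rcases L.hC (c : G) hcc with h | h
      · exfalso
        apply hc1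
        exact Subtype.ext h
      · exact h
    intro s hs
    rw [hCmem, ← hcz]
    have := Subgroup.mem_center_iff.1 hc ⟨s, hs⟩
    have := congrArg Subtype.val this
    simpa using this
  -- the transfer
  let φ : ↥(S : Subgroup G) →* ℤˣ :=
    (indexTwoHom (K.subgroupOf C) hidx).comp (Subgroup.inclusion hSC)
  have hφ : ∀ s : ↥(S : Subgroup G), φ s = 1 ↔ (s : G) ∈ K := by
    intro s
    show indexTwoHom (K.subgroupOf C) hidx (Subgroup.inclusion hSC s) = 1 ↔ _
    rw [indexTwoHom_eq_one_iff, Subgroup.mem_subgroupOf]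
    rfl
  have htriv : MonoidHom.transfer φ u = 1 := by
    have hA : IsPGroup 2 ℤˣ := by
      intro g
      exact ⟨1, by rw [pow_one]; exact Int.units_sq g⟩
    have h1 := Cfsg.Agent.Lib.Helper2.pResidual_le_ker 2 (MonoidHom.transfer φ) hA
    rw [hres] at h1
    exact MonoidHom.mem_ker.1 (h1 (Subgroup.mem_top u))
  obtain ⟨P, hPdef⟩ : ∃ P : Subgroup G, P = E ⊓ Subgroup.centralizer ({u} : Set G) := ⟨_, rfl⟩
  have hPmem : ∀ p, p ∈ P ↔ p ∈ E ∧ p * u = u * p := by
    intro p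
    rw [hPdef, Subgroup.mem_inf, mem_cent_sing]
  have hP2 : IsPGroup 2 P := by
    rw [hPdef]
    exact (hext.1.1 : IsPGroup 2 ↥E).to_le inf_le_left
  have huP : u ∈ P := (hPmem u).2 ⟨huE, rfl⟩
  obtain ⟨x, hxP, hxS, hxK⟩ : ∃ x : G, (∀ p ∈ P, x⁻¹ * p * x ∈ (S : Subgroup G)) ∧
      ∃ h : x⁻¹ * u * x ∈ (S : Subgroup G), φ ⟨x⁻¹ * u * x, h⟩ = 1 := by
    by_contra hcon
    push Not at hcon
    exact (Cfsg.Agent.Lib.Helper31.transfer_ne_one_of_extremal_gen S φ (-1) (by decide)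
      (by decide) (fun s _ => Int.units_eq_one_or _) P hP2 u huP huu
      (fun p hp => ((hPmem p).1 hp).2) (fun x hx h => hcon x hx h)) htriv
  have hxK' : x⁻¹ * u * x ∈ K := (hφ _).1 hxK
  -- `c = x z x⁻¹` centralizes `C_E(u)`
  obtain ⟨c, hcdef⟩ : ∃ c, c = x * z * x⁻¹ := ⟨_, rfl⟩
  have hcD : ∀ a ∈ E, a * u = u * a → c * a = a * c := by
    intro a ha hau
    have h1 : x⁻¹ * a * x ∈ C := hSC (hxP a ((hPmem a).2 ⟨ha, hau⟩))
    have h2 := (hCmem _).1 h1
    rw [hcdef]
    calc x * z * x⁻¹ * a = x * (z * (x⁻¹ * a * x)) * x⁻¹ := by group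
      _ = x * ((x⁻¹ * a * x) * z) * x⁻¹ := by rw [h2]
      _ = a * (x * z * x⁻¹) := by group
  have hcz : c * z = z * c := hcD z hzE (L.d.zu_comm huE)
  have hc1 : c ≠ 1 := by
    intro h
    apply hz1
    rw [hcdef] at h
    calc z = x⁻¹ * (x * z * x⁻¹) * x := by group
      _ = 1 := by rw [h]; group
  have hcne : c ≠ z := by
    intro h
    apply huK
    have hxC : x ∈ C := by
      rw [hCmem]
      rw [hcdef] at h
      calc x * z = (x * z * x⁻¹) * x := by group
        _ = z * x := by rw [h]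
    have := hKn x hxC
    rw [← this]
    refine ⟨x⁻¹ * u * x, hxK', ?_⟩
    simp only [MulEquiv.coe_toMonoidHom, MulAut.conj_apply]
    group
  have hcE : c ∈ E ∧ c ∉ K := by
    rcases L.cent_D huE hu1 huz huu hcz hcD with h | h | h | h
    · exact absurd h hc1
    · exact absurd h hcne
    · rw [h]; exact ⟨huE, huK⟩
    · rw [h]
      refine ⟨E.mul_mem hzE huE, ?_⟩
      rw [hmul z (hEC hzE) u (hEC huE)]
      tauto
  -- symmetry: `z ∈ E^x`, and `c` is a commutator of elements of `C`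
  obtain ⟨E₂, hE₂⟩ : ∃ E₂ : Subgroup G, E₂ = E.map (MulAut.conj x).toMonoidHom := ⟨_, rfl⟩
  have hE₂mem : ∀ y, y ∈ E₂ ↔ x⁻¹ * y * x ∈ E := by
    intro y; rw [hE₂, Subgroup.mem_map_equiv, MulAut.conj_symm_apply]
  rw [hcdef] at hcE hcne
  have hzE₂ : z ∈ E₂ := L.mem_conj x hcE.1 hcne E₂ hE₂mem
  have L₂ := L.conj x E₂ hE₂mem
  obtain ⟨a, ha, b, hb, haz, hbz, hab⟩ :=
    L₂.d.exists_comm_eq_z hzE₂ hz1 (fun h => hcne h.symm) hzz L₂.hcard
  apply hcE.2
  rw [← hab]
  exact hcomm a ((hCmem a).2 haz) b ((hCmem b).2 hbz)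

end Cfsg.Agent.Lib.Helper30
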